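import Cfsg.Agent.H63.SimD1
import Cfsg.Agent.H11.SimDSpec

/-! # S3694 (tower SIM): the jobs NE, UE, MV, D1a, D1p, D1s of chapter D. -/

set_option autoImplicit false

namespace H63.SimD1

open Subgroup Cfsg H98 Matrix H0.Sim H63.SimD0 H11.SimD

variable {n : ℕ} {F : Type} [Field F]

/-- The matrices `m - 1`, `m` unipotent in `A`. -/
def YA (A : Set (Mt n F)) : Set (Mt n F) := {y | ∃ m ∈ A, IsNilpotent (m - 1) ∧ y = m - 1}

theorem IS_eq (A : Set (Mt n F)) : IS A = Im (YA A) := by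
  unfold IS Im
  congr 1
  ext v
  exact ⟨fun ⟨m, hm, hn, x, e⟩ => ⟨_, ⟨m, hm, hn, rfl⟩, x, e⟩,
    fun ⟨_, ⟨m, hm, hn, e'⟩, x, e⟩ => ⟨m, hm, hn, x, e' ▸ e⟩⟩

theorem KS_eq (A : Set (Mt n F)) : KS A = Ke (YA A) := by
  ext v
  exact ⟨fun h _ ⟨m, hm, hn, e⟩ => e ▸ h m hm hn, fun h m hm hn => h _ ⟨m, hm, hn, rfl⟩⟩

theorem zs' {Y : Set (Mt n F)} {w φ : Fin n → F} (w0 : w ≠ 0) (wK : w ∈ Ke Y) (φ0 : φ ≠ 0)
    (hφ : ∀ v ∈ Im Y ⊔ Ke Y, φ ⬝ᵥ v = 0) {m : Mt n F} : m ∈ Ann Y ∩ Ann (Ann Y) ↔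
    (∀ v, m *ᵥ v ∈ Im Y ⊓ Ke Y) ∧ ∀ v ∈ Im Y ⊔ Ke Y, m *ᵥ v = 0 := by
  have rk : ∀ k ∈ Ke Y, ∀ ψ : Fin n → F, (∀ v ∈ Im Y, ψ ⬝ᵥ v = 0) → vecMulVec k ψ ∈ Ann Y :=
    fun k hk ψ hψ => mem_Ann.2 ⟨fun v => by rw [vv]; exact (Ke Y).smul_mem _ hk,
      fun v hv => by rw [vv, hψ v hv, zero_smul]⟩
  constructor
  · rintro ⟨h1, h2⟩
    obtain ⟨h3, h4⟩ := mem_Ann.1 h1
    refine ⟨fun v => ⟨?_, h3 v⟩, fun v hv => ?_⟩
    · by_contra hn
      obtain ⟨ψ, p1, p2⟩ := sep hn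
      have := congrArg (· *ᵥ v) (h2 _ (rk w wK ψ p2)).1
      simp only [← mulVec_mulVec, vv, zero_mulVec] at this
      exact w0 ((smul_eq_zero.1 this).resolve_left p1)
    · obtain ⟨a, ha, b, hb, rfl⟩ := Submodule.mem_sup.1 hv
      obtain ⟨x, hx⟩ := ex_dot φ0
      have := congrArg (· *ᵥ x) (h2 _ (rk b hb φ fun v hv => hφ v (Submodule.mem_sup_left hv))).2
      simp only [← mulVec_mulVec, vv, zero_mulVec, mulVec_smul] at this
      rw [mulVec_add, h4 a ha, (smul_eq_zero.1 this).resolve_left hx, add_zero]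
  · rintro ⟨h1, h2⟩
    refine ⟨mem_Ann.2 ⟨fun v => (h1 v).2, fun v hv => h2 v (Submodule.mem_sup_left hv)⟩,
      fun y hy => ?_⟩
    obtain ⟨h3, h4⟩ := mem_Ann.1 hy
    exact ⟨mz fun x => by rw [← mulVec_mulVec]; exact h4 _ (h1 x).1,
      mz fun x => by rw [← mulVec_mulVec]; exact h2 _ (Submodule.mem_sup_right (h3 x))⟩

theorem iv_YA {Θ : Set (Jm n F)} {A : Set (Mt n F)} (h : Iv Θ A) : Iv Θ (YA A) := by
  rintro j hj _ ⟨m, hm, ⟨k, hk⟩, rfl⟩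
  have e : th j (m - 1) = th j m - 1 := by rw [th_sub, th_one]
  exact ⟨_, h j hj m hm, ⟨k, by rw [← e, ← th_pow, hk, th_zero]⟩, e⟩

theorem jobD1s : JobD1s := by
  rintro - - - n F _ _ u q p Θ H Q E W₁ W₂ c rfl rfl h2 ⟨t, ht, hn⟩ s hs s1 s2
  rw [IS_eq, KS_eq] at h2 hn s1 s2
  set Y := YA (mat E)
  obtain ⟨w, hw, w0⟩ := (Submodule.ne_bot_iff (Im Y ⊓ Ke Y)).1 fun e => hn fun v hv => by
    rw [e] at hv ⊢
    rw [(Submodule.mem_bot F).1 hv, mulVec_zero]; exact Submodule.zero_mem _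
  obtain ⟨x, hx⟩ : ∃ x, x ∉ Im Y ⊔ Ke Y := by
    by_contra h
    push Not at h
    exact h2 (Submodule.eq_top_iff'.2 h)
  obtain ⟨φ, p1, hφ⟩ := sep hx
  have φ0 : φ ≠ 0 := fun e => p1 (by rw [e, zero_dotProduct])
  have z := @zs' n F _ Y w φ w0 hw.2 φ0 hφ
  have iv := iv_YA c.ivE
  refine c.mp (Ann Y ∩ Ann (Ann Y)) (fun j hj m hm =>
    ⟨iv_Ann iv j hj m hm.1, iv_Ann (iv_Ann iv) j hj m hm.2⟩) ⟨t, ht, fun k => hn fun v hv => ?_⟩ s hs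
    fun m hm => ?_
  · have h1 := (z.1 (k (vecMulVec v φ) (z.2 ⟨fun v => by
      rw [vv]; exact Submodule.smul_mem _ _ hv, fun v hv => by rw [vv, hφ v hv, zero_smul]⟩))).1
      ((t : Mt n F) *ᵥ x)
    rw [← mulVec_mulVec, ← mulVec_mulVec, inv_mulVec, vv, mulVec_smul] at h1
    exact (Submodule.smul_mem_iff _ p1).1 h1
  · obtain ⟨a, b⟩ := z.1 hm
    refine z.2 ⟨fun v => ?_, fun v hv => ?_⟩
    · rw [← mulVec_mulVec, ← mulVec_mulVec]; exact s1 _ (a _)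
    · rw [← mulVec_mulVec, ← mulVec_mulVec, b _ (s2.inv v hv), mulVec_zero]

theorem YA_eq [Fintype F] {u : Bool} {q : ℕ} {Θ : Set (Jm n F)} {H Q E : Subgroup (GL (Fin n) F)}
    (c : Cf0 u q (ringChar F) Θ H Q E) : YA (mat E) = YE E := by
  haveI : Fact (ringChar F).Prime := ⟨c.pp⟩
  haveI : Nonempty (Fin n) := ⟨⟨0, by have := c.par.two; omega⟩⟩
  ext y
  constructor
  · rintro ⟨_, ⟨e, he, rfl⟩, hn, rfl⟩
    refine ⟨e, he, Units.ext ?_, rfl⟩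
    obtain ⟨ζ, hζ⟩ := zval (c.pE e he)
    have h1 := hζ 1
    rw [pow_one, pow_one] at h1
    obtain ⟨k, hk⟩ := hn.pow_of_pos c.pp.ne_zero
    rw [sub_pow_char_of_commute _ (Commute.one_right _), ← Units.val_pow_eq_pow_val, h1, one_pow,
      show ζ • (1 : Mt n F) - 1 = (ζ - 1) • 1 by module, smul_pow, one_pow] at hk
    have h2 := (smul_eq_zero.1 hk).resolve_right one_ne_zero
    rw [h1, sub_eq_zero.1 (eq_zero_of_pow_eq_zero h2), one_smul, Units.val_one]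
  · rintro ⟨e, he, e1, rfl⟩
    exact ⟨_, ⟨e, he, rfl⟩, (nilY c).nil _ ⟨e, he, e1, rfl⟩, rfl⟩

theorem jobNE : JobNE := by
  intro n F _ _ u q Θ H Q E c
  obtain ⟨_, ⟨e, he, e1, rfl⟩, h⟩ := (nilY c).ne
  exact ⟨e, he, (nilY c).nil _ ⟨e, he, e1, rfl⟩, fun k => h (by simp [k])⟩

theorem jobD1a : JobD1a := by
  intro _ _ n F _ _ u q Θ H Q E c
  rw [IS_eq, KS_eq, YA_eq c]
  exact ⟨W1_ne c, W2_ne c⟩

theorem jobUE : JobUE := by
  intro _ n F _ _ q hF w y μ h1 h2 h3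
  obtain ⟨s, hs, sx⟩ := eich hF h1 h2 h3
  refine ⟨s, hs, fun x => ?_⟩
  rw [sx]
  change x + ((hermForm n F q x y - μ * hermForm n F q x w) • w - hermForm n F q x w • y) = _
  module

theorem jobMV : JobMV := by
  intro _ _ n F _ _ q hF W₁ W₂ h1 h12 hp
  obtain ⟨w, hw, w0⟩ := (Submodule.ne_bot_iff W₁).1 h1
  have pp : ∀ x ∈ W₁, bf (H59.frob hF) x w = 0 := fun x hx => (hp x).1 (h12 hx) w hw
  have ei := @eich n F _ _ q hF
  have ne := H59.frob_ne_id hF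
  have h2 := H59.frob_frob hF
  set φ := H59.frob hF with hφ
  have ww := pp w hw
  have hw' : (φ ∘ w) ≠ 0 := fun e => w0 (funext fun i => φ.injective (by
    simpa using congrFun e i))
  obtain ⟨x, hx⟩ := ex_dot hw'
  have hx' : bf φ x w ≠ 0 := by rwa [bf, dotProduct_comm]
  obtain ⟨μ, m0, m1⟩ := H59.exists_trace_zero_ne_zero ne h2
  obtain ⟨t, ht⟩ := H59.exists_trace_eq ne h2 (bf_symm h2 x x).symm
  have b0 : ∀ x : Fin n → F, bf φ x 0 = 0 := fun x => by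
    rw [bf_symm h2, bf, zero_dotProduct, map_zero]
  set v := x + ((0 : F) • w - (t / φ (bf φ x w)) • w) with hv
  have vw : bf φ v w = bf φ x w := by rw [hv, bf_l, ww]; simp
  have hx2 : φ (bf φ x w) ≠ 0 := (map_ne_zero φ).2 hx'
  have v0 : bf φ v v = 0 := by
    rw [hv, bf_l, bf_r, bf_r, ww, ← ht, bf_symm h2 x w, map_div₀, h2]
    field_simp
    simp only [map_zero]
    ring
  obtain ⟨s, hs, sx⟩ := ei (w := v) (y := 0) (μ := μ) v0 (by rw [bf, zero_dotProduct])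
    (by rw [b0, m1])
  refine ⟨s, hs, fun h => ?_⟩
  have h3 := pp _ (h w hw)
  rw [sx, bf_l, ww, b0, vw, bf_symm h2 w 0, b0, bf_symm h2 v w, vw] at h3
  simp [m0, hx', hx2] at h3

theorem jobD1p : JobD1p := by
  intro _ n F _ _ q E hF hE
  rw [IS_eq, KS_eq]
  set Y := YA (mat E)
  have h2 := H59.frob_frob hF
  set φ := H59.frob hF with hφ
  have hY : ∀ N ∈ Y, ∃ e : GL (Fin n) F, N = (e : Mt n F) - 1 ∧
      ∀ a b, bf φ ((e : Mt n F) *ᵥ a) ((e : Mt n F) *ᵥ b) = bf φ a b := by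
    rintro _ ⟨_, ⟨e, he, rfl⟩, -, rfl⟩
    have : e ∈ GU n F q := by simpa [Gam] using hE he
    exact ⟨e, rfl, this⟩
  have p1 : ∀ v ∈ Im Y, ∀ k ∈ Ke Y, bf φ v k = 0 := fun v hv k hk => by
    rw [bf, dotProduct_comm]
    refine dot_Im (fun N hN x => ?_) v hv
    have h1 := hk N hN
    obtain ⟨e, rfl, is⟩ := hY N hN
    rw [sub_mulVec, one_mulVec, sub_eq_zero] at h1
    have h3 := is x k
    rw [h1] at h3
    rw [dotProduct_comm, sub_mulVec, one_mulVec, sub_dotProduct]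
    exact sub_eq_zero.2 h3
  have tk : ∀ w, (∀ v ∈ Im Y, bf φ v w = 0) → w ∈ Ke Y := fun w h N hN => by
    have k2 := fun z => h _ (mem_Im hN z)
    obtain ⟨e, rfl, is⟩ := hY N hN
    refine dotProduct_eq_zero_iff.1 fun y => ?_
    set z := ((e⁻¹ : GL (Fin n) F) : Mt n F) *ᵥ (φ ∘ y) with hz
    have k1 : φ ∘ ((e : Mt n F) *ᵥ z) = y := by
      rw [hz, mulVec_inv]; ext i; exact h2 _
    have k2 := k2 z
    have k3 := is w z
    rw [bf, sub_mulVec, one_mulVec, sub_dotProduct, sub_eq_zero] at k2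
    have k4 : bf φ w ((e : Mt n F) *ᵥ z) = bf φ w z := by
      rw [bf_symm h2 _ w, bf_symm h2 z w]; exact congrArg _ k2
    rw [← k4, bf, bf, k1] at k3
    rw [sub_mulVec, one_mulVec, sub_dotProduct, k3, sub_self]
  have k : ∀ ψ v : Fin n → F, bf φ v (φ ∘ ψ) = ψ ⬝ᵥ v := fun ψ v => by
    rw [bf, dotProduct_comm]; congr 1; ext i; exact h2 _
  intro x
  change _ ↔ ∀ w ∈ Im Y ⊓ Ke Y, bf φ x w = 0
  refine ⟨fun hx w hw => ?_, fun h => ?_⟩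
  · obtain ⟨a, ha, b, hb, rfl⟩ := Submodule.mem_sup.1 hx
    have h1 := p1 a ha w hw.2
    have h3 : bf φ b w = 0 := by rw [bf_symm h2, p1 w hw.1 b hb, map_zero]
    rw [bf] at h1 h3
    rw [bf, add_dotProduct, h1, h3, add_zero]
  · by_contra hx
    obtain ⟨ψ, q1, q2⟩ := sep hx
    refine q1 ?_
    rw [← k]
    refine h _ ⟨?_, tk _ fun v hv => by rw [k, q2 v (Submodule.mem_sup_left hv)]⟩
    by_contra hn
    obtain ⟨χ, r1, r2⟩ := sep hn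
    have r3 := q2 _ (Submodule.mem_sup_right (tk _ fun v hv => by rw [k, r2 v hv]))
    rw [← k, bf_symm h2, k] at r3
    exact r1 ((map_eq_zero _).1 r3)

end H63.SimD1
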