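import Cfsg.Agent.H63.SimD1b

/-! # S3694 (tower SIM): the job SUb of chapter D. -/

set_option autoImplicit false

namespace H63.SimSUb

open Subgroup Cfsg H98 Matrix H0.Sim H63.SimD0 H63.SimD1 H11.SimD

theorem jobD_SUb : JobSUb := by
  intro _ _ sua n F _ _ q A W₁ W₂ hu h12 e1 e2 hs X hX
  obtain ⟨hF, hp⟩ := hu rfl
  refine or_iff_not_imp_left.2 fun hn => ?_
  obtain ⟨x, hx, hx2⟩ := SetLike.not_le_iff_exists.1 hn
  obtain ⟨m, hm, mn, hv⟩ := sua n F q A W₁ W₂ hF hp h12 e1 e2 hs x hx2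
  have ei := @eich n F _ _ q hF
  have ne := H59.frob_ne_id hF
  have h2 := H59.frob_frob hF
  set φ := H59.frob hF with hφ
  have pp : ∀ z ∈ W₂, ∀ w ∈ W₁, bf φ z w = 0 := fun z hz => (hp z).1 hz
  set v := (m - 1) *ᵥ x with hvd
  have hv' : bf φ v x ≠ 0 := hv
  have v1 : v ∈ W₁ := e1 ▸ mem_IS hm mn x
  have mx : m *ᵥ x = v + x := by rw [hvd, sub_mulVec, one_mulVec, sub_add_cancel]
  have vX : v ∈ X := by
    have := X.sub_mem (hX m hm mn x hx) hx
    rwa [mx, add_sub_cancel_right] at this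
  have key : ∀ w ∈ W₁, bf φ x w = 0 → w ∈ X := by
    intro w hw xw
    obtain ⟨μ, hμ⟩ := H59.exists_trace_eq ne h2 (bf_symm h2 x x).symm
    obtain ⟨s, hS, sx⟩ := ei (pp w (h12 hw) w hw) xw hμ
    have sz : ∀ z, bf φ z w = 0 → (s : Mt n F) *ᵥ z = z + bf φ z x • w := fun z hz => by
      rw [sx, hz]; simp
    have st := hs s hS
      (fun z hz => by rw [sz z (pp z (h12 hz) w hw)]; exact W₁.add_mem hz (W₁.smul_mem _ hw))
      (fun z hz => by rw [sz z (pp z hz w hw)]; exact W₂.add_mem hz (W₂.smul_mem _ (h12 hw)))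
    have sw : (s : Mt n F) *ᵥ w = w := by
      rw [sz w (pp w (h12 hw) w hw), bf_symm h2 x w, xw]; simp
    have mw : m *ᵥ w = w := by
      have : w ∈ KS A := e2 ▸ h12 hw
      have := this m hm mn
      rwa [sub_mulVec, one_mulVec, sub_eq_zero] at this
    have k1 : (s : Mt n F) *ᵥ (x - bf φ x x • w) = x := by
      rw [mulVec_sub, mulVec_smul, sw, sz x xw, add_sub_cancel_right]
    have k2 := hX _ (st m hm) (nil_conj s mn) x hx
    rw [← mulVec_mulVec, ← mulVec_mulVec, ← k1, inv_mulVec, mulVec_sub, mulVec_smul, mw, mx,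
      add_sub_assoc, mulVec_add, k1, sz v (pp v (h12 v1) w hw)] at k2
    have k3 := X.sub_mem (X.sub_mem k2 hx) vX
    rw [add_sub_cancel_right, add_sub_cancel_left] at k3
    exact (X.smul_mem_iff hv').1 k3
  intro w hw
  have xv : bf φ x v ≠ 0 := by rw [bf_symm h2]; exact (map_ne_zero φ).2 hv'
  have k := key (w + ((0 : F) • w - φ (bf φ x w / bf φ x v) • v))
    (W₁.add_mem hw (W₁.sub_mem (W₁.smul_mem _ hw) (W₁.smul_mem _ v1))) (by
      rw [bf_r, h2]; field_simp; simp)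
  have := X.add_mem k (X.smul_mem (φ (bf φ x w / bf φ x v)) vX)
  simpa using this

end H63.SimSUb
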