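import Cfsg.Agent.H63.Cusp2
import Cfsg.Agent.H63.Cusp3

/-! The cuspidal characters of the general linear groups from Brauer lifts. -/

set_option autoImplicit false
set_option linter.unusedSectionVars false

noncomputable section

namespace H63.Cusp

open Module Polynomial LinearMap H53 Finset Cfsg H28
open scoped Classical ComplexConjugate

universe u

variable {F : Type u} [Field F] [Fintype F] {K : Type*} [Field K] [Fintype K] [Algebra F K]

/-- the Brauer lift -/
def bl (θ : Kˣ →* ℂˣ) (P : F[X]) : ℂ :=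
  ∑ c : Kˣ, (θ c : ℂ) * (P.map (algebraMap F K)).rootMultiplicity (c : K)

theorem ad_bl (θ : Kˣ →* ℂˣ) : Ad (bl (F := F) θ) := fun P Q hP hQ => by
  simp only [bl, Polynomial.map_mul, rootMultiplicity_mul ((hP.map _).mul (hQ.map _)).ne_zero,
    Nat.cast_add, mul_add, sum_add_distrib]

theorem Ad.pow {b : F[X] → ℂ} (hb : Ad b) {P : F[X]} (hP : P.Monic) (k : ℕ) : b (P ^ k) = k * b P := by
  induction k with
  | zero => simp [hb.one]
  | succ k ih => rw [pow_succ, hb _ _ (hP.pow k) hP, ih]; push_cast; ring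

theorem bl_one (θ : Kˣ →* ℂˣ) (k : ℕ) : bl θ ((X - 1 : F[X]) ^ k) = k * 1 := by
  rw [(ad_bl θ).pow (P := X - 1) (monic_X_sub_C 1), bl, sum_eq_single 1]
  · have := rootMultiplicity_X_sub_C_self (x := (1 : K))
    simp_all
  · intro c _ hc
    simp [rootMultiplicity_eq_zero, sub_eq_zero, hc]
  · simp

theorem isGen_bl (θ : Kˣ →* ℂˣ) {j : ℕ} (G : Type u) [Group G] [Fintype G] (V : Type u) [AddCommGroup V]
    [Module F V] [Finite V] (ρ : G →* End F V) (hG : Nat.card G ∣ Nat.card Kˣ * Nat.card K ^ j) :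
    IsGeneralizedCharacter G fun g => bl θ (ρ g).charpoly := by
  have : Finite (TensorProduct F K V) := Module.finite_of_finite K
  convert green ((End.baseChangeHom F K V).toRingHom.toMonoidHom.comp ρ) θ hG with g
  simp only [bl, ← charpoly_baseChange]; rfl

theorem rm_minpoly (x : K) : ((minpoly F x).map (algebraMap F K)).rootMultiplicity x = 1 :=
  le_antisymm (rootMultiplicity_le_one_of_separable (Separable.map (Algebra.IsSeparable.isSeparable F x)) x)
    ((rootMultiplicity_pos ((minpoly.monic (Algebra.IsIntegral.isIntegral x)).map _).ne_zero).2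
      (by simp))

theorem pow_dvd_iff (x : K) {P : F[X]} (hP : P ≠ 0) (m : ℕ) :
    minpoly F x ^ m ∣ P ↔ m ≤ (P.map (algebraMap F K)).rootMultiplicity x := by
  have hi := Algebra.IsIntegral.isIntegral (R := F) x
  have h0 := minpoly.ne_zero hi
  obtain ⟨k, R, hR, rfl⟩ := WfDvdMonoid.max_power_factor hP (minpoly.irreducible hi)
  have h1 : ∀ k, ((minpoly F x ^ k * R).map (algebraMap F K)).rootMultiplicity x = k := fun k => by
    induction k with
    | zero => exact rootMultiplicity_eq_zero fun h => hR (minpoly.dvd F x (by simpa using h))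
    | succ k ih =>
      rw [pow_succ', mul_assoc, Polynomial.map_mul, rootMultiplicity_mul (mul_ne_zero (map_ne_zero h0)
        (map_ne_zero (mul_ne_zero (pow_ne_zero _ h0) (right_ne_zero_of_mul hP)))), ih, rm_minpoly, add_comm]
  rw [h1]
  refine ⟨fun h => not_lt.1 fun h' => hR ?_, fun h => (pow_dvd_pow _ h).mul_right _⟩
  exact (mul_dvd_mul_iff_left (pow_ne_zero k h0)).1 (pow_succ (minpoly F x) k ▸ (pow_dvd_pow _ h').trans h)

/-- the analogue of the von Mangoldt function -/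
def vm (θ : Kˣ →* ℂˣ) (P : F[X]) : ℂ :=
  ∑ x : Kˣ, if ∃ m, 0 < m ∧ P = minpoly F (x : K) ^ m then (θ x : ℂ) else 0

theorem vm_bl (θ : Kˣ →* ℂˣ) : Vm (vm θ) (bl (F := F) θ) := fun P hP S hS => by
  simp only [vm, bl]
  rw [sum_comm]
  refine sum_congr rfl fun x _ => ?_
  have hi := Algebra.IsIntegral.isIntegral (R := F) (x : K)
  rw [← sum_filter, sum_const, nsmul_eq_mul, mul_comm, show filter _ S = (Ioc 0 ((P.map
    (algebraMap F K)).rootMultiplicity (x : K))).image (minpoly F (x : K) ^ ·) from ?_,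
    card_image_of_injective, Nat.card_Ioc, tsub_zero]
  · intro a b h
    simpa [(minpoly.natDegree_pos hi).ne'] using congrArg natDegree h
  · ext Q
    simp only [mem_filter, hS, mem_image, mem_Ioc, ← pow_dvd_iff _ hP.ne_zero]
    exact ⟨fun ⟨h, m, h1, e⟩ => ⟨m, ⟨h1, e ▸ h.2⟩, e.symm⟩,
      fun ⟨m, h, e⟩ => ⟨e ▸ ⟨(minpoly.monic hi).pow m, h.2⟩, m, h.1, e.symm⟩⟩

theorem deg_dvd_iff (x : K) (n : ℕ) : (minpoly F x).natDegree ∣ n ↔ x ^ Nat.card F ^ n = x := by
  rw [(minpoly.irreducible (Algebra.IsIntegral.isIntegral x)).natDegree_dvd_iff_dvd_X_pow_card_pow_sub_X,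
    minpoly.dvd_iff]
  simp [sub_eq_zero]

theorem map_minpoly (x : K) : (minpoly F x).map (algebraMap F K) =
    ∏ i ∈ range (minpoly F x).natDegree, (X - C (x ^ Nat.card F ^ i)) := by
  have hi := Algebra.IsIntegral.isIntegral (R := F) x
  have hφ : ∀ i (y : K), y ^ Nat.card F ^ i = (FiniteField.frobeniusAlgHom F K ^ i) y := fun i y => by
    rw [AlgHom.coe_pow, FiniteField.coe_frobeniusAlgHom, pow_iterate, Nat.card_eq_fintype_card]
  refine eq_of_monic_of_dvd_of_natDegree_le (monic_prod_of_monic _ _ fun _ _ => monic_X_sub_C _)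
    ((minpoly.monic hi).map _) (prod_dvd_of_coprime ?_ fun i _ => dvd_iff_isRoot.2 ?_) ?_
  · have : ∀ i j, i < j → j < (minpoly F x).natDegree → x ^ Nat.card F ^ i ≠ x ^ Nat.card F ^ j :=
      fun i j h h' e => by
        obtain ⟨k, rfl⟩ := exists_add_of_le h.le
        rw [add_comm, pow_add, pow_mul, hφ i, hφ i] at e
        have := Nat.le_of_dvd (by omega) ((deg_dvd_iff x k).2 ((FiniteField.frobeniusAlgHom F K ^ i).toRingHom.injective e).symm)
        omega
    intro i hi j hj h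
    refine isCoprime_X_sub_C_of_isUnit_sub (sub_ne_zero.2 ?_).isUnit
    exact h.lt_or_gt.elim (this _ _ · (by simpa using hj)) fun h => (this _ _ h (by simpa using hi)).symm
  · rw [IsRoot, eval_map_algebraMap, hφ, aeval_algHom_apply, minpoly.aeval, map_zero]
  · rw [natDegree_map, natDegree_prod_of_monic _ _ fun _ _ => monic_X_sub_C _]
    simp only [natDegree_X_sub_C, sum_const, card_range, smul_eq_mul, mul_one, le_refl]

theorem bl_minpoly (θ : Kˣ →* ℂˣ) (x : Kˣ) (m : ℕ) : bl θ (minpoly F (x : K) ^ m) =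
    ∑ i ∈ range ((minpoly F (x : K)).natDegree * m), (θ (x ^ Nat.card F ^ i) : ℂ) := by
  have h1 : ∀ d, ∑ c : Kˣ, (θ c : ℂ) * (∏ i ∈ range d, (X - C ((x : K) ^ Nat.card F ^ i))).rootMultiplicity
      (c : K) = ∑ i ∈ range d, (θ (x ^ Nat.card F ^ i) : ℂ) := fun d => by
    induction d with
    | zero => simp [rootMultiplicity_eq_zero]
    | succ d ih =>
      rw [prod_range_succ, sum_range_succ, ← ih]
      simp only [rootMultiplicity_mul ((monic_prod_of_monic (range d) (fun i => X - C ((x : K) ^ Nat.card F ^ i))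
        fun _ _ => monic_X_sub_C _).mul (monic_X_sub_C _)).ne_zero, Nat.cast_add, mul_add,
        sum_add_distrib, rootMultiplicity_X_sub_C]
      simp only [← Units.val_pow_eq_pow_val, Units.val_inj]
      simp
  rw [(ad_bl θ).pow (minpoly.monic (Algebra.IsIntegral.isIntegral _)), bl, map_minpoly, h1]
  induction m with
  | zero => simp
  | succ m ih =>
    have : x ^ Nat.card F ^ ((minpoly F (x : K)).natDegree * m) = x :=
      Units.ext ((deg_dvd_iff _ _).1 (dvd_mul_right ..))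
    simp only [mul_add_one, sum_range_add, ← ih, pow_add, pow_mul x, this]
    push_cast; ring

variable {V : Type u} [AddCommGroup V] [Module F V] [Finite V]

theorem isUnit_iff_coeff (g : End F V) : IsUnit g ↔ g.charpoly.coeff 0 ≠ 0 := by
  simp [isUnit_iff_isUnit_det, det_eq_sign_charpoly_coeff]

theorem sum_DD {b b' : F[X] → ℂ} (hb : Ad b) (hb' : Ad b') :
    ∑ g : End F V, D b g * (if IsUnit g then conj (D b' g) else 0) =
      ∑ g : End F V, D b g * if g.charpoly.coeff 0 ≠ 0 then conj (b' g.charpoly) else 0 := by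
  have h1 : ∀ g : End F V, d b' g ⊤ = D b' g := fun g => by
    rw [← d_eq (g := g) (ι := LinearMap.id) (fun _ _ h => h) fun _ => rfl, range_id]
  symm
  calc _ = ∑ U, ∑ g : End F V, D b g * (if IsUnit g then conj (d b' g U) else 0) := by
        rw [sum_comm]
        simp only [← isUnit_iff_coeff, ← mul_sum, ← sum_d, map_sum, sum_ite_irrel, sum_const_zero]
    _ = _ := by
        rw [sum_eq_single ⊤ (fun U _ hU => ?_) (by simp)]
        · simp only [h1]
        by_cases h0 : U = ⊥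
        · simp [h0, d_bot hb']
        refine kill hb h0 hU (fun g h => by simp [d_neg h]) fun g x h hx => if_congr (by
          rw [isUnit_iff_coeff, isUnit_iff_coeff, charpoly_add h hx]) (congrArg _ ?_) rfl
        have h' : Iv (g + x) U := fun w hw => U.add_mem (h w hw) (hx.1 w)
        rw [d, d, dif_pos h, dif_pos h']
        exact congrArg _ (LinearMap.ext fun w => Subtype.ext (by simp [hx.2 _ w.2]))

theorem inner_D [Nontrivial V] (θ θ' : Kˣ →* ℂˣ) : ((Nat.card V : ℂ) - 1) *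
    ∑ g : End F V, D (bl θ) g * (if IsUnit g then conj (D (bl θ') g) else 0) = Nat.card (End F V)ˣ *
      ∑ i ∈ range (finrank F V), ∑ x : Kˣ, if x ^ Nat.card F ^ finrank F V = x then
        ((θ x * (θ' (x ^ Nat.card F ^ i))⁻¹ : ℂˣ) : ℂ) else 0 := by
  have : Finite (degreeLT F (finrank F V + 1)) := .of_equiv _ (degreeLTEquiv F _).symm.toEquiv
  have hf : {P : F[X] | P.Monic ∧ P.natDegree = finrank F V}.Finite :=
    (Set.toFinite (degreeLT F (finrank F V + 1) : Set F[X])).subset fun P hP => mem_degreeLT.2 (by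
      rw [degree_eq_natDegree hP.1.ne_zero, hP.2]; exact_mod_cast Nat.lt_succ_self _)
  rw [sum_DD (ad_bl θ) (ad_bl θ'), cyc_sum (ad_bl θ) (vm_bl θ)
    (fun P => if P.coeff 0 ≠ 0 then conj (bl θ' P) else 0) (M := hf.toFinset) (by simp), sum_comm]
  simp only [vm, sum_mul]
  rw [sum_comm]
  refine congrArg _ (sum_congr rfl fun x _ => ?_)
  have hi := Algebra.IsIntegral.isIntegral (R := F) (x : K)
  have hx := deg_dvd_iff (F := F) (x : K) (finrank F V)
  rw [← Units.val_pow_eq_pow_val, Units.val_inj] at hx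
  rw [sum_ite_irrel, sum_const_zero]
  split_ifs with h
  · obtain ⟨m, hm⟩ := hx.2 h
    rw [sum_eq_single (minpoly F (x : K) ^ m), if_pos ⟨m, Nat.pos_of_mul_pos_left (hm ▸ finrank_pos), rfl⟩,
      if_pos, bl_minpoly, ← hm, map_sum, mul_sum]
    · exact sum_congr rfl fun i _ => by
        rw [← (isCharacter_of_hom θ').isGeneralizedCharacter.apply_inv, map_inv, Units.val_mul]
    · rw [coeff_zero_eq_eval_zero, eval_pow, ← coeff_zero_eq_eval_zero]
      exact pow_ne_zero _ (minpoly.coeff_zero_ne_zero hi x.ne_zero)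
    · intro P hP h
      rw [if_neg, zero_mul]
      rintro ⟨k, -, rfl⟩
      have := (hf.mem_toFinset.1 hP).2
      rw [hm, natDegree_pow, mul_comm, mul_right_inj' (minpoly.natDegree_pos hi).ne'] at this
      exact h (by rw [this])
    · exact fun h => (h (hf.mem_toFinset.2 ⟨(minpoly.monic hi).pow m, by
        rw [natDegree_pow, hm, mul_comm]⟩)).elim
  · refine sum_eq_zero fun P hP => ?_
    rw [if_neg, zero_mul]
    rintro ⟨k, -, rfl⟩
    exact h (hx.1 ((hf.mem_toFinset.1 hP).2 ▸ natDegree_pow (minpoly F (x : K)) k ▸ dvd_mul_left ..))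

theorem sum_mu {θ : Kˣ →* ℂˣ} (hθ : Function.Injective θ) {N : ℕ} (hN : N ∣ Nat.card Kˣ) (a b : ℕ) :
    (∑ x : Kˣ, if x ^ (N + 1) = x then ((θ x ^ a * (θ x ^ b)⁻¹ : ℂˣ) : ℂ) else 0) =
      if a ≡ b [MOD N] then (N : ℂ) else 0 := by
  let S := (powMonoidHom N : Kˣ →* Kˣ).ker
  have hS : Nat.card S = N := (IsCyclic.card_powMonoidHom_ker Kˣ N).trans (Nat.gcd_eq_right hN)
  let f : S →* ℂ := (Units.coeHom ℂ).comp ((θ ^ a * (θ ^ b)⁻¹).comp S.subtype)
  have hf : ∀ x : S, f x = 1 ↔ a ≡ b [MOD orderOf x] := fun x => by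
    rw [← Subgroup.orderOf_coe, ← pow_eq_pow_iff_modEq, ← hθ.eq_iff, map_pow, map_pow,
      ← mul_inv_eq_one (G := ℂˣ), ← Units.val_eq_one]
    rfl
  rw [← sum_filter, sum_subtype _ (p := (· ∈ S)) (fun x => by simp [S, pow_succ])]
  refine (sum_hom_units f).trans ?_
  rw [← Nat.card_eq_fintype_card, hS, Nat.cast_ite, Nat.cast_zero]
  obtain ⟨z, hz⟩ := IsCyclic.exists_ofOrder_eq_natCard (α := S)
  exact if_congr ⟨fun h => hS ▸ hz ▸ (hf z).1 (by rw [h]; rfl), fun h => MonoidHom.ext fun x =>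
    (hf x).2 (h.of_dvd (hS ▸ orderOf_dvd_natCard x))⟩ rfl rfl

theorem exists_inj : ∃ θ : Kˣ →* ℂˣ, Function.Injective θ := by
  have : NeZero (Nat.card Kˣ) := ⟨Nat.card_pos.ne'⟩
  let e := mulEquivOfCyclicCardEq (G := Kˣ)
    (HasEnoughRootsOfUnity.natCard_rootsOfUnity ℂ (Nat.card Kˣ)).symm
  exact ⟨(Subgroup.subtype _).comp e.toMonoidHom, Subtype.val_injective.comp e.injective⟩

theorem exists_exp (q n : ℕ) {N : ℕ} (hN : N ≠ 0) (hn : n ≠ 0) (hq : q ≠ 0) :
    ∃ l j, l ≠ 0 ∧ q ^ n - 1 ∣ q ^ l - 1 ∧ N ∣ (q ^ l - 1) * (q ^ l) ^ j := by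
  have : NeZero N := ⟨hN⟩
  obtain ⟨a, b, h, e⟩ := Finite.exists_ne_map_eq_of_infinite fun k : ℕ => ((q ^ k : ℕ) : ZMod N)
  wlog hab : a < b generalizing a b
  · exact this b a h.symm e.symm (by omega)
  obtain ⟨k, rfl⟩ := exists_add_of_le hab.le
  refine ⟨n * k, a, by rw [mul_ne_zero_iff]; omega, Nat.pow_sub_one_dvd_pow_sub_one _ (dvd_mul_right ..),
    ((Nat.modEq_iff_dvd' (Nat.pow_le_pow_right (by omega) hab.le)).1
      ((ZMod.natCast_eq_natCast_iff _ _ _).1 e)).trans ?_⟩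
  rw [pow_add, ← Nat.mul_sub_one, mul_comm, ← pow_mul]
  exact mul_dvd_mul (Nat.pow_sub_one_dvd_pow_sub_one _ (dvd_mul_left ..))
    (pow_dvd_pow _ (Nat.le_mul_of_pos_left _ (by rw [CanonicallyOrderedAdd.mul_pos]; omega)))

variable (F) in
/-- the natural representation -/
def rho (n : ℕ) : GL (Fin n) F →* End F (Fin n → F) :=
  (Units.coeHom _).comp (Units.map (Matrix.toLinAlgEquiv' (R := F)).toRingEquiv.toMonoidHom)

theorem sum_rho {n : ℕ} [Fintype (GL (Fin n) F)] (f : End F (Fin n → F) → ℂ) (h : ∀ g, ¬ IsUnit g → f g = 0) :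
    ∑ g : GL (Fin n) F, f (rho F n g) = ∑ g, f g :=
  Fintype.sum_of_injective _ (fun _ _ e => Units.ext (Matrix.toLinAlgEquiv'.injective e)) _ _
    (fun g hg => h g fun h' => hg ⟨(h'.map Matrix.toLinAlgEquiv'.symm).unit, by simp [rho]⟩) fun _ => rfl

/-- the cuspidal characters -/
def chi (θ : Kˣ →* ℂˣ) (n : ℕ) (g : GL (Fin n) F) : ℂ := (-1) ^ (n - 1) * D (bl θ) (rho F n g)

theorem inner_chi {θ : Kˣ →* ℂˣ} (hθ : Function.Injective θ) {n : ℕ} [Fintype (GL (Fin n) F)] (hn : n ≠ 0)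
    (hN : Nat.card F ^ n - 1 ∣ Nat.card Kˣ) (a b : ℕ) : classInner (chi (F := F) (θ ^ a) n) (chi (θ ^ b) n) =
      ((range n).filter fun i => a ≡ b * Nat.card F ^ i [MOD Nat.card F ^ n - 1]).card := by
  have : Nonempty (Fin n) := ⟨⟨0, by omega⟩⟩
  have h1 := inner_D (F := F) (V := Fin n → F) (θ ^ a) (θ ^ b)
  have h2 : 1 < Nat.card F ^ n := Nat.one_lt_pow hn Finite.one_lt_card
  have h3 := sum_mu hθ hN a
  rw [Nat.sub_add_cancel h2.le, Nat.cast_sub h2.le, Nat.cast_one] at h3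
  simp only [finrank_fin_fun, MonoidHom.pow_apply, map_pow, ← pow_mul, h3, Nat.card_fun, Nat.card_fin,
    ← sum_filter, sum_const, nsmul_eq_mul] at h1
  rw [← sum_rho _ fun g h => by rw [if_neg h, mul_zero], ← Nat.card_congr (Units.mapEquiv
    (Matrix.toLinAlgEquiv' (R := F)).toMulEquiv).toEquiv, ← mul_assoc, mul_comm,
    mul_left_inj' (sub_ne_zero.2 (by exact_mod_cast h2.ne'))] at h1
  rw [classInner, inv_mul_eq_iff_eq_mul₀ (Nat.cast_ne_zero.2 Nat.card_pos.ne'), ← h1]
  refine sum_congr rfl fun g _ => ?_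
  rw [if_pos ((Group.isUnit g).map _), chi, chi, map_mul, mul_mul_mul_comm, map_pow, ← mul_pow]
  simp

theorem chi_one (θ : Kˣ →* ℂˣ) {n : ℕ} (hn : n ≠ 0) :
    chi (F := F) θ n 1 = ∏ i ∈ Ico 1 n, ((Nat.card F : ℂ) ^ i - 1) := by
  rw [chi, map_one, D_one (bl_one θ) n (finrank_fin_fun F), dg, if_neg hn, mul_one, ← Nat.card_Ico 1 n,
    ← prod_const, ← prod_mul_distrib]
  simp

theorem chi_cusp (θ : Kˣ →* ℂˣ) {n m : ℕ} [Fintype (GL (Fin n) F)] (h0 : 0 < m) (h1 : m < n)
    (p : GL (Fin n) F → Prop)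
    [DecidablePred p] (hp : ∀ g, p g ↔ ∀ i j : Fin n, ¬ (i.val < m ∧ m ≤ j.val) →
      (g : Matrix (Fin n) (Fin n) F) i j = (1 : Matrix (Fin n) (Fin n) F) i j) :
    (∑ g : GL (Fin n) F, if p g then chi θ n g else 0) = 0 := by
  obtain ⟨U, hU⟩ : ∃ U : Submodule F (Fin n → F), ∀ v, v ∈ U ↔ ∀ i : Fin n, m ≤ i.val → v i = 0 :=
    ⟨⟨⟨⟨{v | ∀ i : Fin n, m ≤ i.val → v i = 0}, fun ha hb i hi => by simp [ha i hi, hb i hi]⟩,
      fun _ _ => rfl⟩, fun _ _ ha i hi => by simp [ha i hi]⟩, fun v => Iff.rfl⟩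
  have h := kill (ad_bl θ) (U := U) (φ := fun g => if Nil U (g - 1) then 1 else 0)
    (fun h => by
      have := (hU (Pi.single ⟨0, by omega⟩ 1)).2 fun i hi =>
        Pi.single_eq_of_ne (by rintro rfl; simp at hi; omega) _
      simp [h] at this)
    (fun h => one_ne_zero ((hU 1).1 (h ▸ Submodule.mem_top) ⟨m, h1⟩ le_rfl))
    (fun g h => if_neg fun h' => h fun w hw => by rwa [show g w = w from sub_eq_zero.1 (h'.2 w hw)])
    fun g x _ hx => if_congr ⟨fun h => ⟨fun v => by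
      simpa [add_sub_right_comm] using U.sub_mem (h.1 v) (hx.1 v),
      fun w hw => by simpa [hx.2 w hw] using h.2 w hw⟩, fun h => ⟨fun v => by
        simpa [add_sub_right_comm] using U.add_mem (h.1 v) (hx.1 v),
      fun w hw => by simpa [hx.2 w hw] using h.2 w hw⟩⟩ rfl rfl
  rw [← sum_rho _ fun g hg => by
    rw [if_neg fun h' => hg ?_, mul_zero]
    rw [isUnit_iff_coeff, ← add_sub_cancel 1 g, charpoly_add (fun _ h => h) h', ← isUnit_iff_coeff]
    exact isUnit_one] at h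
  refine .trans ?_ ((mul_sum ..).symm.trans (mul_eq_zero_of_right ((-1 : ℂ) ^ (n - 1)) h))
  refine sum_congr rfl fun g _ => ?_
  have h2 : ∀ v, (rho F n g - 1) v = Matrix.mulVec ((g : Matrix (Fin n) (Fin n) F) - 1) v := fun v => by
    simp [rho, Matrix.sub_mulVec]
  rw [mul_ite, mul_ite, mul_one, mul_zero, mul_zero, chi]
  refine if_congr ((hp g).trans ?_) rfl rfl
  simp only [Nil, h2, hU, ← sub_eq_zero (a := (g : Matrix (Fin n) (Fin n) F) _ _), ← Matrix.sub_apply]
  generalize (g : Matrix (Fin n) (Fin n) F) - 1 = A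
  have h3 : ∀ v i, A.mulVec v i = ∑ j, A i j * v j := fun _ _ => rfl
  refine ⟨fun h => ⟨fun v i hi => (h3 v i).trans (sum_eq_zero fun j _ => by rw [h i j (by omega), zero_mul]),
    fun w hw => _root_.funext fun i => (h3 w i).trans (sum_eq_zero fun j _ => ?_)⟩, fun h i j hij => ?_⟩
  · by_cases hj : m ≤ j.val
    · rw [hw j hj, mul_zero]
    · rw [h i j (by omega), zero_mul]
  · by_cases hi : m ≤ i.val
    · simpa using h.1 (Pi.single j 1) i hi
    · simpa using congrFun (h.2 (Pi.single j 1) fun k hk => Pi.single_eq_of_ne (by rintro rfl; omega) _) i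

end H63.Cusp
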