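import Cfsg.Agent.H63.Cusp1

/-! Sums of the Möbius inverse `D` against functions invariant under a unipotent radical; cyclic
vectors; the value of `D` at the identity. -/

set_option autoImplicit false
set_option linter.unusedSectionVars false

noncomputable section

namespace H63.Cusp

open Module Polynomial LinearMap H53 Finset
open scoped Classical

universe u

variable {F : Type u} [Field F] {b : F[X] → ℂ} {V W : Type u} [AddCommGroup V] [Module F V] [Finite V]
  [AddCommGroup W] [Module F W] [Finite W]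

/-- the nilpotent radical of the stabiliser of `U` -/
def Nil (U : Submodule F V) (x : End F V) : Prop := (∀ v, x v ∈ U) ∧ ∀ w ∈ U, x w = 0

theorem sim_blk {g x : End F V} {U U' : Submodule F V} (hc : IsCompl U U') (h : Iv g U) (hx : Nil U x) :
    Sim (blk (g.restrict h) (U.projectionOnto U' hc ∘ₗ g ∘ₗ U'.subtype + x.codRestrict U hx.1 ∘ₗ U'.subtype)
      (U'.projectionOnto U hc.symm ∘ₗ g ∘ₗ U'.subtype)) (g + x) :=
  ⟨U.prodEquivOfIsCompl U' hc, fun v => by
    have := Submodule.projection_add_projection_eq_self hc (g v.2)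
    simp [hx.2 _ v.1.2]
    linear_combination (norm := abel) this⟩

theorem charpoly_add {g x : End F V} {U : Submodule F V} (h : Iv g U) (hx : Nil U x) :
    (g + x).charpoly = g.charpoly := by
  obtain ⟨U', hc⟩ := U.exists_isCompl
  rw [← (sim_blk hc h hx).charpoly_eq, charpoly_blk, ← charpoly_blk,
    (sim_blk hc h (x := 0) ⟨by simp, by simp⟩).charpoly_eq, add_zero]

theorem kill (hb : Ad b) {U : Submodule F V} (h0 : U ≠ ⊥) (h1 : U ≠ ⊤) {φ : End F V → ℂ}
    (h2 : ∀ g, ¬ Iv g U → φ g = 0) (h3 : ∀ g x, Iv g U → Nil U x → φ (g + x) = φ g) :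
    ∑ g, D b g * φ g = 0 := by
  obtain ⟨U', hc⟩ := U.exists_isCompl
  have := Submodule.nontrivial_iff_ne_bot.2 h0
  have := Submodule.nontrivial_iff_ne_bot.2 fun e => h1 (eq_top_of_isCompl_bot (e ▸ hc : IsCompl U ⊥))
  let Y : (U' →ₗ[F] U) → End F V := fun c => U.subtype ∘ₗ c ∘ₗ U'.projectionOnto U hc.symm
  have hX : ∀ c, Nil U (Y c) := fun c => ⟨fun v => (c _).2, fun w hw => by
    simp [Y, (Submodule.projectionOnto_apply_eq_zero_iff hc.symm).2 hw]⟩
  refine (mul_eq_zero.1 ?_).resolve_left (Nat.cast_ne_zero.2 (Fintype.card_ne_zero (α := U' →ₗ[F] U)))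
  rw [← nsmul_eq_mul, ← card_univ, ← sum_const, sum_congr rfl fun c _ =>
    (Equiv.sum_comp (Equiv.addRight (Y c)) _).symm, sum_comm]
  refine sum_eq_zero fun g _ => ?_
  simp only [Equiv.coe_addRight]
  by_cases h : Iv g U
  · simp only [h3 _ _ h (hX _), ← sum_mul, ← D_sim (sim_blk hc h (hX _))]
    refine mul_eq_zero_of_left ((Fintype.sum_equiv (Equiv.addLeft (U.projectionOnto U' hc ∘ₗ g ∘ₗ U'.subtype))
      _ _ fun c => ?_).trans (prim hb (g.restrict h) (U'.projectionOnto U hc.symm ∘ₗ g ∘ₗ U'.subtype))) _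
    congr 3
    ext; simp [Y]
  · refine sum_eq_zero fun c _ => mul_eq_zero_of_right _ (h2 _ fun h' => h fun w hw => ?_)
    simpa [(hX c).2 w hw] using h' w hw

/-- evaluation of polynomials in `g` at `v` -/
def ev (g : End F V) (v : V) : F[X] →ₗ[F] V := applyₗ v ∘ₗ (aeval g).toLinearMap

theorem ev_apply (g : End F V) (v : V) (P : F[X]) : ev g v P = aeval g P v := rfl

theorem ev_mul (g : End F V) (v : V) (P Q : F[X]) : ev g v (P * Q) = aeval g P (ev g v Q) := by
  simp [ev_apply]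

theorem iv_ev (g : End F V) (v : V) : Iv g (range (ev g v)) := by
  rintro _ ⟨P, rfl⟩
  exact ⟨X * P, by simp [ev_mul]⟩

theorem mem_ev (g : End F V) (v : V) : v ∈ range (ev g v) := ⟨1, by simp [ev_apply]⟩

theorem ev_restrict {g : End F V} {U : Submodule F V} (h : Iv g U) (v : U) (P : F[X]) :
    (ev (g.restrict h) v P : V) = ev g v P := intertwine_aeval U.subtype (fun _ => rfl) P v

theorem ann {g : End F V} {v : V} (h : range (ev g v) = ⊤) {Q : F[X]} :
    ev g v Q = 0 ↔ g.charpoly ∣ Q := by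
  have hm := g.charpoly_monic
  have h1 : ∀ A, ev g v (A %ₘ g.charpoly) = ev g v A := fun A => by
    rw [ev_apply, aeval_modByMonic_eq_self_of_root (aeval_self_charpoly g), ev_apply]
  have h2 : ∀ A : F[X], A %ₘ g.charpoly ∈ degreeLT F (finrank F V) := fun A => mem_degreeLT.2 (by
    rw [← g.charpoly_natDegree, ← degree_eq_natDegree hm.ne_zero]; exact degree_modByMonic_lt A hm)
  refine ⟨fun e => (modByMonic_eq_zero_iff_dvd hm).1 ?_, fun e => by
    rw [← h1, (modByMonic_eq_zero_iff_dvd hm).2 e, map_zero]⟩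
  have := (degreeLTEquiv F (finrank F V)).symm.finiteDimensional
  have h3 := (injective_iff_surjective_of_finrank_eq_finrank (f := (ev g v).domRestrict (degreeLT F _))
    ((degreeLTEquiv F (finrank F V)).finrank_eq.trans (finrank_fin_fun F))).2 fun w => by
      obtain ⟨A, rfl⟩ := h.ge (Submodule.mem_top (x := w))
      exact ⟨⟨_, h2 A⟩, h1 A⟩
  exact congrArg Subtype.val (h3 (a₁ := ⟨_, h2 Q⟩) (a₂ := 0) ((h1 Q).trans (e.trans (map_zero _).symm)))

theorem sub_cyc {g : End F V} {v : V} (h : range (ev g v) = ⊤) {Q R : F[X]} (hQ : Q.Monic)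
    (e : g.charpoly = Q * R) : range (ev (g.restrict (iv_ev g (ev g v R))) ⟨_, mem_ev ..⟩) = ⊤ ∧
      (g.restrict (iv_ev g (ev g v R))).charpoly = Q := by
  have h1 : range (ev (g.restrict (iv_ev g (ev g v R))) ⟨_, mem_ev ..⟩) = ⊤ :=
    eq_top_iff.2 fun ⟨_, A, e⟩ _ => ⟨A, Subtype.ext ((ev_restrict ..).trans e)⟩
  have h2 : ∀ A, (g.restrict (iv_ev g (ev g v R))).charpoly ∣ A ↔ Q ∣ A := fun A => by
    rw [← ann h1, Subtype.ext_iff, ev_restrict, ev_apply, ← ev_mul, ZeroMemClass.coe_zero, ann h, e,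
      mul_dvd_mul_iff_right (right_ne_zero_of_mul (e ▸ g.charpoly_monic.ne_zero))]
  exact ⟨h1, eq_of_monic_of_associated (charpoly_monic _) hQ
    (associated_of_dvd_dvd ((h2 _).2 dvd_rfl) ((h2 _).1 dvd_rfl))⟩

theorem exists_cyc {g : End F V} {v : V} (h : range (ev g v) = ⊤) {U : Submodule F V} (hU : Iv g U) :
    ∃ Q R : F[X], Q.Monic ∧ g.charpoly = Q * R ∧ U = range (ev g (ev g v R)) := by
  have hU' : ∀ A, ∀ w ∈ U, aeval g A w ∈ U := fun A w hw =>
    (ev_restrict hU ⟨w, hw⟩ A).symm ▸ (ev (g.restrict hU) ⟨w, hw⟩ A).2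
  let I : Ideal F[X] :=
    { (U.comap (ev g v)).toAddSubmonoid with
      smul_mem' := fun A B hB => show ev g v (A * B) ∈ U from ev_mul g v A B ▸ hU' A _ hB }
  obtain ⟨R, hR⟩ := (IsPrincipalIdealRing.principal I).principal
  have h1 : ∀ A, ev g v A ∈ U ↔ R ∣ A := fun A => by
    rw [← Ideal.mem_span_singleton]; exact Iff.of_eq (congrArg (A ∈ ·) hR)
  obtain ⟨Q, e⟩ := (h1 _).1 (((ann h).2 dvd_rfl).symm ▸ U.zero_mem)
  have h2 : R.leadingCoeff * Q.leadingCoeff = 1 := by rw [← leadingCoeff_mul, ← e, g.charpoly_monic]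
  refine ⟨C R.leadingCoeff * Q, C Q.leadingCoeff * R, by
    rw [Monic, leadingCoeff_mul, leadingCoeff_C, h2], by
    rw [e, mul_mul_mul_comm, ← C_mul, h2, C_1, one_mul, mul_comm], le_antisymm (fun w hw => ?_) ?_⟩
  · obtain ⟨A, rfl⟩ := h.ge (Submodule.mem_top (x := w))
    obtain ⟨B, rfl⟩ := (h1 A).1 hw
    refine ⟨C R.leadingCoeff * B, by rw [ev_apply, ← ev_mul, mul_mul_mul_comm, ← C_mul, h2, C_1,
      one_mul, mul_comm]⟩
  · rintro _ ⟨A, rfl⟩
    exact hU' A _ ((h1 _).2 (dvd_mul_left _ _))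

/-- `Λ` is the Möbius inverse of `b` over monic divisors -/
def Vm (Λ b : F[X] → ℂ) : Prop :=
  ∀ P : F[X], P.Monic → ∀ S : Finset F[X], (∀ Q, Q ∈ S ↔ Q.Monic ∧ Q ∣ P) → ∑ Q ∈ S, Λ Q = b P

theorem D_cyc_aux {Λ : F[X] → ℂ} (hΛ : Vm Λ b) (n : ℕ) : ∀ {V : Type u} [AddCommGroup V] [Module F V]
    [Finite V] {g : End F V} {v : V}, finrank F V = n → range (ev g v) = ⊤ → D b g = Λ g.charpoly := by
  induction n using Nat.strong_induction_on with | _ n ih =>
  rintro V _ _ _ g v rfl h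
  let ch : Submodule F V → F[X] := fun U => if hU : Iv g U then (g.restrict hU).charpoly else 0
  have h1 : ∀ Q R : F[X], Q.Monic → g.charpoly = Q * R → ch (range (ev g (ev g v R))) = Q :=
    fun Q R hQ e => (dif_pos (iv_ev g _)).trans (sub_cyc h hQ e).2
  have h2 := hΛ _ g.charpoly_monic ((univ.filter (Iv g)).image ch) fun Q => mem_image.trans
    ⟨fun ⟨U, hU, e⟩ => by
      obtain ⟨Q', R, hQ, e', rfl⟩ := exists_cyc h (mem_filter.1 hU).2
      rw [← e, h1 _ _ hQ e']; exact ⟨hQ, _, e'⟩,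
    fun ⟨hQ, R, e⟩ => ⟨_, mem_filter.2 ⟨mem_univ _, iv_ev g _⟩, h1 _ _ hQ e⟩⟩
  rw [sum_image fun U hU U' hU' e => by
    obtain ⟨Q, R, hQ, e1, rfl⟩ := exists_cyc h (mem_filter.1 hU).2
    obtain ⟨Q', R', hQ', e2, rfl⟩ := exists_cyc h (mem_filter.1 hU').2
    rw [h1 _ _ hQ e1, h1 _ _ hQ' e2] at e
    rw [mul_left_cancel₀ hQ.ne_zero (e1.symm.trans (e ▸ e2))], sum_filter] at h2
  rw [D_eq, ← h2, ← sum_sub_distrib, sum_eq_single ⊤ (fun U _ hU => ?_) (by simp), if_pos rfl, sub_zero,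
    if_pos (show Iv g ⊤ from fun _ _ => trivial)]
  · have := h1 _ 1 g.charpoly_monic (mul_one _).symm
    rw [show ev g v 1 = v by simp [ev_apply], h] at this
    rw [this]
  rw [if_neg hU, sub_eq_zero]
  split_ifs with h3
  · obtain ⟨Q, R, hQ, e, rfl⟩ := exists_cyc h h3
    rw [d, dif_pos h3, ih _ (Submodule.finrank_lt hU) rfl (sub_cyc h hQ e).1]
    exact congrArg Λ (dif_pos h3)
  · exact (d_neg h3).symm

theorem exists_equiv {g : End F V} {v : V} {g' : End F W} {v' : W} (h : range (ev g v) = ⊤)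
    (h' : range (ev g' v') = ⊤) (e : g.charpoly = g'.charpoly) :
    ∃ ε : V ≃ₗ[F] W, ε v = v' ∧ ∀ w, ε (g w) = g' (ε w) := by
  let ε := (((ev g v).quotKerEquivOfSurjective (range_eq_top.1 h)).symm.trans (Submodule.quotEquivOfEq _ _
    (Submodule.ext fun A => by rw [mem_ker, mem_ker, ann h, ann h', e]))).trans
      ((ev g' v').quotKerEquivOfSurjective (range_eq_top.1 h'))
  have h1 : ∀ A, ε (ev g v A) = ev g' v' A := fun A => by simp [ε]
  refine ⟨ε, by simpa [ev_apply] using h1 1, fun w => ?_⟩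
  obtain ⟨A, rfl⟩ := range_eq_top.1 h w
  have := h1 (X * A)
  rwa [ev_mul, ev_mul, aeval_X, aeval_X, ← h1] at this

theorem card_cyc [Fintype V] {P : F[X]} (hP : P.Monic) (hn : P.natDegree = finrank F V) :
    (univ.filter fun x : V × End F V => range (ev x.2 x.1) = ⊤ ∧ x.2.charpoly = P).card =
      Nat.card (End F V)ˣ := by
  rw [Nat.card_eq_fintype_card]
  have := finite_adjoinRoot hP.ne_zero
  have key : ∀ {W : Type u} [AddCommGroup W] [Module F W] [Module.Finite F W] (g : End F W) (v : W)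
      (ε : W ≃ₗ[F] V), range (applyₗ v ∘ₗ (aeval g).toLinearMap) = ⊤ → range (ev (ε.conj g) (ε v)) = ⊤ :=
    fun g v ε h => range_eq_top.2 fun w => by
      obtain ⟨A, e⟩ := range_eq_top.1 h (ε.symm w)
      exact ⟨A, (intertwine_aeval ε.toLinearMap (f := g) (by simp) A v).symm.trans
        ((congrArg ε e).trans (ε.apply_symm_apply w))⟩
  obtain ⟨v, g, h, e⟩ : ∃ (v : V) (g : End F V), range (ev g v) = ⊤ ∧ g.charpoly = P := by
    let ε := LinearEquiv.ofFinrankEq (R := F) (AdjoinRoot P) V ((finrank_adjoinRoot hP.ne_zero).trans hn)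
    refine ⟨ε 1, ε.conj (cyc P), key _ _ _ (range_eq_top.2 fun a => ?_),
      (sim_conj ε _).charpoly_eq.symm.trans (charpoly_cyc hP)⟩
    obtain ⟨A, rfl⟩ := AdjoinRoot.mk_surjective a
    exact ⟨A, (aeval_cyc_apply ..).trans (mul_one _)⟩
  let E := GeneralLinearGroup.generalLinearEquiv F V
  refine (card_nbij (fun u => (E u v, (E u).conj g)) (fun u _ => mem_filter.2 ⟨mem_univ _, key _ _ _ h,
    (sim_conj _ _).charpoly_eq.symm.trans e⟩) (fun u _ u' _ e' => E.injective (LinearEquiv.ext fun w => ?_))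
    fun x hx => ?_).symm
  · obtain ⟨A, rfl⟩ := range_eq_top.1 h w
    have := fun ε : V ≃ₗ[F] V => intertwine_aeval ε.toLinearMap (f := g) (g := ε.conj g) (by simp) A v
    exact (this _).trans ((congrArg (fun x : V × End F V => aeval x.2 A x.1) e').trans (this _).symm)
  · obtain ⟨ε, h1, h2⟩ := exists_equiv h (mem_filter.1 hx).2.1 (e.trans (mem_filter.1 hx).2.2.symm)
    exact ⟨E.symm ε, mem_univ _, Prod.ext (by simp [h1]) (LinearMap.ext fun w => by simp [h2])⟩

theorem cyc_sum (hb : Ad b) {Λ : F[X] → ℂ} (hΛ : Vm Λ b) [Nontrivial V] (ψ : F[X] → ℂ) {M : Finset F[X]}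
    (hM : ∀ P, P ∈ M ↔ P.Monic ∧ P.natDegree = finrank F V) :
    ((Nat.card V : ℂ) - 1) * ∑ g : End F V, D b g * ψ g.charpoly =
      Nat.card (End F V)ˣ * ∑ P ∈ M, Λ P * ψ P := by
  have := Fintype.ofFinite V
  have h1 : ∀ v : V, ∑ g : End F V, (if range (ev g v) = ⊤ then Λ g.charpoly * ψ g.charpoly else 0) =
      if v ≠ 0 then ∑ g : End F V, D b g * ψ g.charpoly else 0 := fun v => by
    split_ifs with hv
    swap
    · refine sum_eq_zero fun g _ => if_neg fun h => bot_ne_top (Eq.trans (Eq.symm ?_) h)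
      rw [range_eq_bot]; ext; simp [not_not.1 hv, ev_apply]
    have : ∀ g : End F V, D b g * ψ g.charpoly =
        ∑ U, D b g * if range (ev g v) = U then ψ g.charpoly else 0 := fun g => by simp
    rw [sum_congr rfl fun g _ => this g, sum_comm,
      sum_eq_single (⊤ : Submodule F V) (fun U _ hU => ?_) (by simp)]
    · refine sum_congr rfl fun g _ => ?_
      split_ifs with h
      · rw [D_cyc_aux hΛ _ rfl h]
      · rw [mul_zero]
    by_cases h0 : U = ⊥
    · exact sum_eq_zero fun g _ => by rw [if_neg fun h => hv ((h.trans h0).le (mem_ev g v)), mul_zero]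
    refine kill hb h0 hU (fun g h => if_neg fun e => h (by rw [← e]; exact iv_ev g v)) fun g x h hx => ?_
    have h2 : v ∈ U → ev (g + x) v = ev g v := fun hv => LinearMap.ext fun A =>
      (intertwine_aeval U.subtype (f := g.restrict h) (fun w => by simp [hx.2 _ w.2]) A ⟨v, hv⟩).symm.trans
        (ev_restrict h ⟨v, hv⟩ A)
    rw [charpoly_add h hx]
    exact if_congr ⟨fun e => h2 (e ▸ mem_ev _ v) ▸ e, fun e => (h2 (e ▸ mem_ev _ v)).symm ▸ e⟩ rfl rfl
  have h2 := sum_congr rfl fun v (_ : v ∈ univ) => h1 v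
  rw [← sum_filter, sum_const, filter_ne' univ, card_erase_of_mem (mem_univ _), nsmul_eq_mul,
    Nat.cast_sub (card_pos.2 univ_nonempty), card_univ, ← Nat.card_eq_fintype_card, Nat.cast_one,
    ← Fintype.sum_prod_type', ← sum_filter, ← sum_fiberwise_of_maps_to (t := M) (g := fun x => x.2.charpoly)
      fun x _ => (hM _).2 ⟨charpoly_monic _, charpoly_natDegree _⟩] at h2
  rw [← h2, mul_sum]
  refine sum_congr rfl fun P hP => ?_
  rw [filter_filter, sum_congr rfl fun x hx => by rw [(mem_filter.1 hx).2.2], sum_const,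
    card_cyc ((hM P).1 hP).1 ((hM P).1 hP).2, nsmul_eq_mul]

variable [Finite F]

theorem sum_succ (φ : ℕ → ℂ) {n : ℕ} (h : finrank F V = n + 1) : ∑ U : Submodule F V, φ (finrank F U) =
    ∑ U : Submodule F (Fin n → F), (φ (finrank F U) +
      (Nat.card F : ℂ) ^ n / (Nat.card F : ℂ) ^ finrank F U * φ (finrank F U + 1)) := by
  let ε := LinearEquiv.ofFinrankEq (R := F) V ((Fin n → F) × F) (by simp [h])
  rw [Fintype.sum_equiv (Submodule.orderIsoMapComap ε).toEquiv _ (fun U => φ (finrank F U)) fun U =>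
    congrArg φ (ε.finrank_map_eq U).symm, sum_gr]
  refine sum_congr rfl fun U _ => ?_
  have h1 : ∀ (U' : Submodule F F) s, finrank F (gr U U' s) = finrank F U + finrank F U' := fun U' s =>
    (finrank_range_of_inj (blk_inj U U' s)).trans finrank_prod
  have h2 : ∀ {W : Type u} [AddCommGroup W] [Module F W] [Finite W] (U' : Submodule F F),
      (Fintype.card (U' →ₗ[F] W) : ℂ) = (Nat.card F : ℂ) ^ (finrank F U' * finrank F W) := fun U' => by
    rw [← Nat.card_eq_fintype_card, natCard_eq_pow_finrank (K := F), finrank_linearMap, Nat.cast_pow]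
  rw [Fintype.sum_eq_add ⊥ ⊤ bot_ne_top fun U' hU => ((eq_bot_or_eq_top U').elim hU.1 hU.2).elim]
  simp [h1, h2, div_eq_inv_mul, mul_assoc]

theorem sum_fall (n : ℕ) : ∀ x : ℂ, ∑ U : Submodule F (Fin n → F),
    ∏ i ∈ range (finrank F U), (x - (Nat.card F : ℂ) ^ i) = x ^ n := by
  have hq : (Nat.card F : ℂ) ≠ 0 := Nat.cast_ne_zero.2 Nat.card_pos.ne'
  induction n with
  | zero => intro x; rw [Fintype.sum_subsingleton _ (⊥ : Submodule F (Fin 0 → F))]; simp
  | succ n ih =>
    intro x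
    rw [sum_succ (fun k => ∏ i ∈ range k, (x - (Nat.card F : ℂ) ^ i)) (finrank_fin_fun F), sum_add_distrib,
      ih, sum_congr rfl (g := fun U : Submodule F _ => (Nat.card F : ℂ) ^ n * (x - 1) *
        ∏ i ∈ range (finrank F U), (x / Nat.card F - (Nat.card F : ℂ) ^ i)) fun U _ => ?_, ← mul_sum, ih]
    · rw [div_pow]; field_simp; ring
    · rw [prod_range_succ', prod_congr rfl (g := fun i => (Nat.card F : ℂ) * (x / Nat.card F - (Nat.card F : ℂ) ^ i))
        fun i _ => by field_simp; ring, prod_mul_distrib, prod_const, card_range]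
      field_simp

/-- the value of `D` at the identity -/
def dg (q : ℂ) (k : ℕ) : ℂ := if k = 0 then 0 else ∏ i ∈ Ico 1 k, (1 - q ^ i)

theorem sum_dg (n : ℕ) : ∀ {V : Type u} [AddCommGroup V] [Module F V] [Finite V], finrank F V = n →
    ∑ U : Submodule F V, dg (Nat.card F) (finrank F U) = n := by
  have hq : (Nat.card F : ℂ) ≠ 0 := Nat.cast_ne_zero.2 Nat.card_pos.ne'
  induction n with
  | zero =>
    intro V _ _ _ h
    exact (sum_eq_zero fun U _ => if_pos (Nat.le_zero.1 (h ▸ U.finrank_le))).trans Nat.cast_zero.symm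
  | succ n ih =>
    intro V _ _ _ h
    rw [sum_succ _ h, sum_add_distrib, ih (finrank_fin_fun F), sum_congr rfl
      (g := fun U : Submodule F _ => (Nat.card F : ℂ) ^ n *
        ∏ i ∈ range (finrank F U), ((Nat.card F : ℂ)⁻¹ - (Nat.card F : ℂ) ^ i)) fun U _ => ?_, ← mul_sum,
      sum_fall]
    · simp [hq]
    · rw [dg, if_neg (by omega), prod_Ico_eq_prod_range, prod_congr rfl (g := fun i => (Nat.card F : ℂ) *
        ((Nat.card F : ℂ)⁻¹ - (Nat.card F : ℂ) ^ i)) fun i _ => by field_simp; ring, prod_mul_distrib,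
        prod_const, card_range, Nat.add_sub_cancel]
      field_simp

theorem D_one {t : ℂ} (hb : ∀ k : ℕ, b ((X - 1) ^ k) = k * t) (n : ℕ) : ∀ {V : Type u} [AddCommGroup V]
    [Module F V] [Finite V], finrank F V = n → D b (1 : End F V) = dg (Nat.card F) n * t := by
  induction n using Nat.strong_induction_on with | _ n ih =>
  rintro V _ _ _ rfl
  rw [D_eq, charpoly_one, hb, ← sum_dg (F := F) _ rfl, sum_mul, ← sum_sub_distrib,
    sum_eq_single ⊤ (fun U _ hU => ?_) (by simp), if_pos rfl, sub_zero, finrank_top]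
  rw [if_neg hU, d, dif_pos (show Iv 1 U from fun _ h => h), ← ih _ (Submodule.finrank_lt hU) rfl]
  exact sub_self _

end H63.Cusp
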