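/- The conjugates of `Z` in `W` (blueprints/PARROTT.md, section SP). -/
import Cfsg.Agent.H63.OcSpec

set_option autoImplicit false
set_option linter.unusedSectionVars false

open Subgroup

universe u v

namespace H63.Oc.SpP

variable {K : Type*} [Field K] [CharP K 2] {T : TF K} {G : Type*} [Group G] (D : CS T G)

/-- the element with coordinates `(s, r)` of `W` -/
def e (s r : K) : G := D.ι (ww T s r)
/-- the transvections -/
def tv (t : K) : G := D.ι (x1 T t)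

theorem e_mul (s r s' r' : K) : e D s r * e D s' r' = e D (s + s') (r + r') := by
  rw [e, e, e, ← map_mul]; congr 1; ext <;> simp [ww]

theorem e_inj {s r s' r' : K} (h : e D s r = e D s' r') : s = s' ∧ r = r' := by
  have := D.inj h
  exact ⟨congrArg Co.a6 this, congrArg Co.a4 this⟩

theorem x4_eq (t : K) : D.ι (x4 T t) = e D 0 t := rfl

theorem tv_conj (t s r : K) : tv D t * e D s r * (tv D t)⁻¹ = e D s (r + t * s) := by
  rw [mul_inv_eq_iff_eq_mul, e, e, tv, ← map_mul, ← map_mul]; congr 1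
  ext <;> simp [ww, x1] <;> grind

theorem tv_sq (t : K) : tv D t * tv D t = 1 := by
  rw [tv, ← map_mul, ← map_one D.ι]; congr 1
  ext <;> simp [x1, CharTwo.add_self_eq_zero]

theorem mem_W {x : G} : x ∈ D.im (sW T) ↔ ∃ s r, x = e D s r := by
  constructor
  · rintro ⟨c, hc, rfl⟩
    refine ⟨c.a6, c.a4, congrArg D.ι ?_⟩
    rw [SetLike.mem_coe, mem_sW] at hc
    ext <;> simp [ww, hc]
  · rintro ⟨s, r, rfl⟩
    exact ⟨_, by simp [mem_sW, ww], rfl⟩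

theorem mem_Z {x : G} : x ∈ D.im (sZ T) ↔ ∃ r, x = e D 0 r := by
  constructor
  · rintro ⟨c, hc, rfl⟩
    refine ⟨c.a4, congrArg D.ι ?_⟩
    rw [SetLike.mem_coe, mem_sZ] at hc
    ext <;> simp [ww, hc]
  · rintro ⟨r, rfl⟩
    exact ⟨_, by simp [mem_sZ, ww], rfl⟩

theorem tv_mem (t : K) : tv D t ∈ normalizer (D.im (sW T) : Set G) := by
  have h : ∀ x ∈ D.im (sW T), tv D t * x * (tv D t)⁻¹ ∈ D.im (sW T) := fun x hx => by
    obtain ⟨s, r, rfl⟩ := (mem_W D).1 hx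
    exact (mem_W D).2 ⟨_, _, tv_conj D t s r⟩
  refine mem_normalizer_iff.2 fun x => ⟨h x, fun hx => ?_⟩
  have := h _ hx
  have e1 : (tv D t)⁻¹ = tv D t := inv_eq_of_mul_eq_one_right (tv_sq D t)
  rwa [e1, ← mul_assoc, ← mul_assoc, tv_sq, one_mul, mul_assoc, tv_sq, mul_one] at this

variable {D}

theorem nz (L : Loc D) {g : G} {r : K} (h : g * e D 0 1 * g⁻¹ = e D 0 r) :
    g ∈ normalizer (D.im (sZ T) : Set G) := by
  rw [L.bh.nZ]; exact L.bh.nz g ((mem_Z D).2 ⟨r, h⟩)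

/-- a conjugate of `Z` in `W` different from `Z` meets `Z` trivially -/
theorem ti (L : Loc D) {g : G} {s r y a : K} (hs : s ≠ 0) (h : g * e D 0 1 * g⁻¹ = e D s r)
    (ha : g * e D 0 a * g⁻¹ = e D 0 y) : y = 0 := by
  have h1 : g⁻¹ * tv D (y / s) * g * e D 0 1 * (g⁻¹ * tv D (y / s) * g)⁻¹ = e D 0 (1 + a) := by
    have : g * e D 0 (1 + a) * g⁻¹ = tv D (y / s) * e D s r * (tv D (y / s))⁻¹ := by
      rw [tv_conj, div_mul_cancel₀ _ hs, ← zero_add (0 : K), ← e_mul,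
        ← add_zero s, ← e_mul, ← h, ← ha]
      group
    rw [← h] at this
    calc _ = g⁻¹ * (tv D (y / s) * (g * e D 0 1 * g⁻¹) * (tv D (y / s))⁻¹) * g := by group
      _ = _ := by rw [← this]; group
  have h2 := nz L h1
  rw [L.bh.nZ] at h2
  have h3 := L.bh.two _ h2 ⟨1, by
    calc _ = g⁻¹ * (tv D (y / s) * tv D (y / s)) * g := by rw [pow_one, sq]; group
      _ = 1 := by rw [tv_sq]; group⟩
  have h4 := L.bc.cenZ _ h3 1
  rw [x4_eq] at h4
  rw [h4, mul_inv_cancel_right] at h1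
  have h5 : a = 0 := by simpa using (e_inj D h1).2
  rw [h5] at ha
  have h6 : e D 0 0 = 1 := by
    have := e_mul D 0 0 0 0
    rw [add_zero] at this
    exact left_eq_mul.1 this.symm
  rw [h6, mul_one, mul_inv_cancel, ← h6] at ha
  exact (e_inj D ha).2.symm

/-- the graph of the second line -/
theorem graph [Finite K] (L : Loc D) {g : G} (hg : g ∈ normalizer (D.im (sW T) : Set G))
    (h : g * e D 0 1 * g⁻¹ = e D 1 0) : ∃ (f : K →+ K) (p : K → K), Function.Surjective p ∧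
      ∀ a, g * e D 0 a * g⁻¹ = e D (p a) (f (p a)) := by
  have h0 : ∀ a, ∃ s r, g * e D 0 a * g⁻¹ = e D s r := fun a =>
    (mem_W D).1 ((mem_normalizer_iff.1 hg _).1 ((mem_W D).2 ⟨_, _, rfl⟩))
  choose p w hp using h0
  have hadd : ∀ a b, p (a + b) = p a + p b ∧ w (a + b) = w a + w b := fun a b => by
    refine e_inj D ?_
    rw [← hp, ← e_mul, ← hp, ← hp, ← add_zero (0 : K), ← e_mul, add_zero]; group
  have hinj : Function.Injective p := fun a b hab => by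
    have h1 : p (a + b) = 0 := by rw [(hadd a b).1, hab, CharTwo.add_self_eq_zero]
    have h2 := hp (a + b)
    rw [h1] at h2
    have h3 := ti L one_ne_zero h h2
    have h4 : g * e D 0 a * g⁻¹ = g * e D 0 b * g⁻¹ := by
      rw [(hadd a b).2, CharTwo.add_eq_zero] at h3
      rw [hp, hp, hab, h3]
    exact (e_inj D (mul_left_cancel (mul_right_cancel h4))).2
  have hbij := hinj.bijective_of_finite
  let E := Equiv.ofBijective p hbij
  refine ⟨AddMonoidHom.mk' (fun s => w (E.symm s)) fun s s' => ?_, p, hbij.2, fun a => ?_⟩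
  · have : E.symm (s + s') = E.symm s + E.symm s' := by
      rw [Equiv.symm_apply_eq]
      change _ = p _
      rw [(hadd _ _).1]
      exact congrArg₂ (· + ·) (E.apply_symm_apply s).symm (E.apply_symm_apply s').symm
    rw [this, (hadd _ _).2]
  · rw [hp]
    exact congrArg (fun x => e D (p a) (w x)) (E.symm_apply_apply a).symm

section
variable (L : Loc D) {g : G} {f : K →+ K} {p : K → K}
  (hp : ∀ a, g * e D 0 a * g⁻¹ = e D (p a) (f (p a))) (hs : Function.Surjective p)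
include L hp hs

theorem all (k : G) (hk : ∀ t, k * D.ι (x4 T t) * k⁻¹ ∈ D.im (sW T)) :
    k ∈ normalizer (D.im (sZ T) : Set G) ∨
      ∃ c, ∀ t, ∃ s, k * D.ι (x4 T t) * k⁻¹ = D.ι (ww T s (f s + c * s)) := by
  obtain ⟨s, r, h⟩ := (mem_W D).1 (hk 1)
  rw [x4_eq] at h
  by_cases h0 : s = 0
  · exact Or.inl (nz L (h0 ▸ h))
  refine Or.inr ⟨(r - f s) / s, fun t => ?_⟩
  obtain ⟨a, rfl⟩ := hs s
  set u := tv D ((r - f (p a)) / p a) with hu
  have h1 : (u * g)⁻¹ * k * e D 0 1 * ((u * g)⁻¹ * k)⁻¹ = e D 0 a := by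
    have : u * (g * e D 0 a * g⁻¹) * u⁻¹ = k * e D 0 1 * k⁻¹ := by
      rw [hp, h, hu, tv_conj, div_mul_cancel₀ _ h0, add_sub_cancel]
    calc _ = (u * g)⁻¹ * (k * e D 0 1 * k⁻¹) * (u * g) := by group
      _ = _ := by rw [← this]; group
  obtain ⟨b, hb⟩ := (mem_Z D).1 ((mem_normalizer_iff.1 (nz L h1) _).1 ((mem_Z D).2 ⟨t, rfl⟩))
  refine ⟨p b, ?_⟩
  change k * e D 0 t * k⁻¹ = e D _ _
  rw [← tv_conj, ← hp, ← hb, ← hu]; group

variable (hg : g ∈ normalizer (D.im (sW T) : Set G)) (h1 : g * e D 0 1 * g⁻¹ = e D 1 0)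
include hg h1

omit L hg h1 in
theorem fix (t b : K) : g * tv D t * g⁻¹ * e D b (f b) * (g * tv D t * g⁻¹)⁻¹ = e D b (f b) := by
  obtain ⟨a, rfl⟩ := hs b
  calc _ = g * (tv D t * (g⁻¹ * (g * e D 0 a * g⁻¹) * g) * (tv D t)⁻¹) * g⁻¹ := by rw [hp]; group
    _ = _ := by rw [← hp, show g⁻¹ * (g * e D 0 a * g⁻¹) * g = e D 0 a by group, tv_conj]; simp

omit L hs h1 in
theorem act (a : K) : ∃ s r, g⁻¹ * e D 0 a * g = e D s r ∧ ∀ t,
    g * tv D t * g⁻¹ * e D 0 a * (g * tv D t * g⁻¹)⁻¹ = e D (p (t * s)) (a + f (p (t * s))) := by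
  obtain ⟨s, r, h⟩ := (mem_W D).1 ((mem_normalizer_iff.1 (inv_mem hg) _).1 ((mem_W D).2 ⟨0, a, rfl⟩))
  rw [inv_inv] at h
  refine ⟨s, r, h, fun t => ?_⟩
  calc _ = g * (tv D t * (g⁻¹ * e D 0 a * g) * (tv D t)⁻¹) * g⁻¹ := by group
    _ = g * (g⁻¹ * e D 0 a * g) * g⁻¹ * (g * e D 0 (t * s) * g⁻¹) := by
      rw [h, tv_conj, ← add_zero s, ← e_mul, add_zero]; group
    _ = _ := by rw [hp, show g * (g⁻¹ * e D 0 a * g) * g⁻¹ = e D 0 a by group, e_mul, zero_add]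

theorem opp [Finite K] (ρ : K) (hρ : ρ ≠ 0) : ∃ k ∈ normalizer (D.im (sW T) : Set G),
    (∀ b, k * e D b (f b) * k⁻¹ = e D b (f b)) ∧
      ∀ a, k * e D 0 a * k⁻¹ = e D (ρ * a) (a + f (ρ * a)) := by
  have hinj := Finite.injective_iff_surjective.2 hs
  obtain ⟨s, r, h, ht⟩ := act hp hg 1
  have hs0 : s ≠ 0 := fun h0 => by
    rw [h0] at h
    have : g * e D 0 r * g⁻¹ = e D 0 1 := by rw [← h]; group
    exact one_ne_zero (ti L one_ne_zero h1 this)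
  obtain ⟨b, rfl⟩ := hs ρ
  have hk : g * tv D (b / s) * g⁻¹ ∈ normalizer (D.im (sW T) : Set G) :=
    mul_mem (mul_mem hg (tv_mem D _)) (inv_mem hg)
  refine ⟨_, hk, fix hp hs _, fun a => ?_⟩
  have h2 := ht (b / s)
  rw [div_mul_cancel₀ _ hs0] at h2
  rcases all L hp hs _ (fun t => (mem_normalizer_iff.1 hk _).1 ((mem_W D).2 ⟨0, t, rfl⟩)) with h3 | ⟨c, hc⟩
  · obtain ⟨y, hy⟩ := (mem_Z D).1 ((mem_normalizer_iff.1 h3 _).1 ((mem_Z D).2 ⟨1, rfl⟩))
    exact absurd (e_inj D (h2.symm.trans hy)).1 hρ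
  have key : ∀ a s', g * tv D (b / s) * g⁻¹ * e D 0 a * (g * tv D (b / s) * g⁻¹)⁻¹ = e D s' (a + f s') →
      a = c * s' := fun a s' h4 => by
    obtain ⟨s'', h5⟩ := hc a
    obtain ⟨h6, h7⟩ := e_inj D (h4.symm.trans h5)
    rw [← h6, add_comm] at h7
    exact add_left_cancel h7
  obtain ⟨s', -, -, h4⟩ := act hp hg a
  have h5 := key _ _ (h4 _)
  have h6 := key _ _ h2
  have h7 : p (b / s * s') = p b * a := by
    rw [h5]; nth_rewrite 1 [← one_mul (p (b / s * s')), h6]; ring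
  rw [h4, h7]

theorem wey [Finite K] (ρ : K) (hρ : ρ ≠ 0) : ∃ n ∈ normalizer (D.im (sW T) : Set G),
    (∀ a, n * e D 0 a * n⁻¹ = e D (ρ * a) (f (ρ * a))) ∧
      ∀ a, n * e D (ρ * a) (f (ρ * a)) * n⁻¹ = e D 0 a := by
  obtain ⟨k, hk, h2, h3⟩ := opp L hp hs hg h1 ρ hρ
  refine ⟨tv D ρ⁻¹ * k * tv D ρ⁻¹, mul_mem (mul_mem (tv_mem D _) hk) (tv_mem D _), fun a => ?_, fun a => ?_⟩
  · calc _ = tv D ρ⁻¹ * (k * (tv D ρ⁻¹ * e D 0 a * (tv D ρ⁻¹)⁻¹) * k⁻¹) * (tv D ρ⁻¹)⁻¹ := by group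
      _ = _ := by
        rw [tv_conj, mul_zero, add_zero, h3, tv_conj, inv_mul_cancel_left₀ hρ, add_right_comm,
          CharTwo.add_self_eq_zero, zero_add]
  · calc _ = tv D ρ⁻¹ * (k * (tv D ρ⁻¹ * e D (ρ * a) (f (ρ * a)) * (tv D ρ⁻¹)⁻¹) * k⁻¹) *
          (tv D ρ⁻¹)⁻¹ := by group
      _ = tv D ρ⁻¹ * (k * e D (ρ * a) (f (ρ * a)) * k⁻¹ * (k * e D 0 a * k⁻¹)) * (tv D ρ⁻¹)⁻¹ := by
        rw [tv_conj, inv_mul_cancel_left₀ hρ, ← add_zero (ρ * a), ← e_mul, add_zero]; group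
      _ = _ := by
        rw [h2, h3, e_mul, CharTwo.add_self_eq_zero, add_left_comm, CharTwo.add_self_eq_zero, add_zero,
          tv_conj, mul_zero, add_zero]

end

theorem jobSp : JobSp.{u, v} := by
  intro K _ _ _ T G _ _ D L hM
  obtain ⟨g, hg, h1⟩ := L.fu.mv hM
  have hg' := L.bh.nQ1 (sW T) (by simp) hg
  obtain ⟨f, p, hs, hp⟩ := graph L hg' h1
  obtain ⟨n, hn, h2, h3⟩ := wey L hp hs hg' h1 1 one_ne_zero
  simp only [one_mul] at h2 h3
  refine ⟨f, ⟨n, hn, h2, h3⟩, fun a => ?_, all L hp hs⟩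
  obtain ⟨m, -, h4, h5⟩ := wey L hp hs hg' h1 (a⁻¹ : Kˣ) (Units.ne_zero _)
  refine ⟨m * n, fun t => ?_, fun t => ?_⟩
  · change _ * e D 0 t * _ = e D 0 _
    calc _ = m * (n * e D 0 t * n⁻¹) * m⁻¹ := by group
      _ = _ := by rw [h2, ← h5, Units.inv_mul_cancel_left]
  · change _ * e D _ _ * _ = e D _ _
    calc _ = m * (n * e D (a * t) (f (a * t)) * n⁻¹) * m⁻¹ := by group
      _ = _ := by rw [h3, h4, Units.inv_mul_cancel_left]

end H63.Oc.SpP
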