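import Cfsg.Agent.H63.Ov9
import Cfsg.Agent.H68.TwD4
import Cfsg.Agent.H68.TwE6

/-! The subfield subgroups of `²E₆(q)` and `³D₄(q)` are maximal. -/

set_option autoImplicit false
set_option linter.unusedSectionVars false

namespace H63

open Cfsg.Lie H64

section
variable {D : ChevalleyDatum} [RS D] {F : Type*} [Field F] {G : Type*} [Group G] {x : ℕ → F → G}

theorem wp_apply (l : List (Fin D.rank)) (r : Rt D) :
    (H67.wp (H64.wdata D).sW l).1 r = l.foldr sref r := by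
  induction l with
  | nil => rfl
  | cons i l ih => rw [H67.wp_cons, WData.mul_apply, ih]; rfl

namespace Tf

variable {h : Ad D x} {φ s : G →* G} {σ : F →+* F} {γ : Equiv.Perm (Rt D)}
  {π : Equiv.Perm (Fin D.rank)} {ε : Rt D → ℤ} {b : Bool} {α : Rt D} (c : Tf h φ s σ γ π ε b α)
include c

theorem zz_add {r : Rt D} (hr : γ r ≠ r) (t u : F) :
    zz s b (x r (t + u)) = zz s b (x r t) * zz s b (x r u) := by
  rw [← c.zz_mul hr (x_mem_pm r t) (x_mem_pm r u), h.add r r.2]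

theorem zz_neg {r : Rt D} (hr : γ r ≠ r) (t : F) : zz s b (x r (-t)) = (zz s b (x r t))⁻¹ := by
  rw [eq_inv_iff_mul_eq_one, ← c.zz_add hr, neg_add_cancel, h.toSt.x_zero]
  cases b <;> simp [zz]

variable {H : Subgroup G} (hm : ∀ g, s g = g → φ g = g → g ∈ H)
include hm

theorem x_mem {r : Rt D} (hr : γ r = r) {t : F} (ht : σ t = t) : x r t ∈ H :=
  hm _ (by rw [c.maps, hr, (c.sq r).2 hr, ht]; simp) (by rw [c.map, ht])

theorem zz_mem_fix {r : Rt D} (hr : γ r ≠ r) {t : F} (ht : σ t = t) : zz s b (x r t) ∈ H :=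
  hm _ (c.zz_fix hr (x_mem_pm r t)) (by rw [map_zz c.φ_s, c.map, ht])

theorem zz_trans (l : List (Fin D.rank)) (hl : ∀ r, l.foldr sref (γ r) = γ (l.foldr sref r))
    {r r' : Rt D} (hr : γ r ≠ r) (e : l.foldr sref r = r') {t : F} (ht : zz s b (x r t) ∈ H) :
    zz s b (x r' t) ∈ H := by
  obtain ⟨m, h1, h2, -, h3⟩ := c.exists_n (H67.wp (H64.wdata D).sW l) fun r => by rw [wp_apply, wp_apply, hl]
  obtain ⟨η, h4, h5⟩ := h3 r
  have h6 := hm m h1 h2
  have key : ∀ t, zz s b (x r t) ∈ H → zz s b (x r' (η * t)) ∈ H := fun t ht => by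
    rw [← e, ← wp_apply, ← (h5 t).1, ← conj_zz h1]
    exact mul_mem (mul_mem h6 ht) (inv_mem h6)
  rcases mul_self_eq_one_iff.1 h4 with rfl | rfl
  · simpa using key t ht
  · simpa using key (-t) (c.zz_neg hr t ▸ inv_mem ht)

theorem zz_smul {a t : F} (ha : σ a = a) (ht : zz s b (x α t) ∈ H) : zz s b (x α (a * t)) ∈ H := by
  by_cases a0 : a = 0
  · exact c.zz_mem_fix hm c.pos.2 (by simp [a0])
  obtain ⟨β, h1, h2⟩ := c.tor
  have h3 : γ (negR β) = negR β := by rw [(c.neg β).1, h1]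
  have h4 : ∀ u, σ u = u → s (nn D x β u) = nn D x β u ∧ φ (nn D x β u) = nn D x β u := fun u hu =>
    ⟨by rw [c.s_nn, h1, (c.sq β).2 h1, hu]; simp, by
      rw [nn_eq, map_mul, map_mul, c.map, ← negR_val, c.map, hu, map_neg, map_inv₀, hu]⟩
  have h5 : s (hh D x β a) = hh D x β a := by
    rw [hh_eq, map_mul, (h4 a ha).1, (h4 (-1) (by simp)).1]
  have h6 := hm _ h5 (by rw [hh_eq, map_mul, (h4 a ha).2, (h4 (-1) (by simp)).2])
  have h7 := mul_mem (mul_mem h6 ht) (inv_mem h6)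
  rwa [conj_zz h5, h.toStN.hh_conj β α a0, h2, zpow_one] at h7

theorem zz_all (hb : b = true → ∀ t, zz s b (x α t) ∈ H → zz s b (x α (σ t * σ (σ t))) ∈ H)
    {t : F} (ht : zz s b (x α t) ∈ H) (h0 : σ t ≠ t) (u : F) : zz s b (x α u) ∈ H := by
  have add : ∀ {u v}, zz s b (x α u) ∈ H → zz s b (x α v) ∈ H → zz s b (x α (u + v)) ∈ H :=
    fun hu hv => c.zz_add c.pos.2 _ _ ▸ mul_mem hu hv
  have ho := c.ordσ
  have d1 : t - σ t ≠ 0 := sub_ne_zero.2 h0.symm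
  cases b
  · simp only [cond] at ho
    have e : σ ((u - σ u) / (t - σ t)) = (u - σ u) / (t - σ t) := by
      rw [map_div₀, map_sub, map_sub, ho, ho, ← neg_sub u, ← neg_sub t, neg_div_neg_eq]
    have := add (c.zz_smul hm e ht) (c.zz_mem_fix hm c.pos.2 (t := u - (u - σ u) / (t - σ t) * t) (by
      rw [map_sub, map_mul, e]; field_simp; ring))
    simpa using this
  simp only [cond] at ho
  have d2 : σ t - σ (σ t) ≠ 0 := by rw [← map_sub]; exact (map_ne_zero σ).2 d1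
  have d3 : σ (σ t) - t ≠ 0 := by
    have := (map_ne_zero σ).2 d2
    rwa [map_sub, ho] at this
  have t0 : t ≠ 0 := by rintro rfl; simp at h0
  have t1 : σ t ≠ 0 := (map_ne_zero σ).2 t0
  have t2 : σ (σ t) ≠ 0 := (map_ne_zero σ).2 t1
  set k := u * t / ((t - σ t) * (σ (σ t) - t)) with hk
  have tr : ∀ v, σ (v + σ v + σ (σ v)) = v + σ v + σ (σ v) := fun v => by
    rw [map_add, map_add, ho]; ring
  have h1 := add (add (c.zz_smul hm (tr (-k)) ht) (c.zz_mem_fix hm c.pos.2 (tr (k * (σ t + σ (σ t))))))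
    (c.zz_smul hm (tr (-k / t)) (hb rfl t ht))
  convert h1 using 3
  simp only [hk, map_neg, map_div₀, map_mul, map_add, map_sub, ho]
  field_simp
  ring

end Tf
end

variable {D : ChevalleyDatum} [RS D] [H65.Tab D] [H65.Comm D] {K : Type*} [Field K]

theorem exists_s {Ω : Type} {τ : H68.Tw (H68.rd D) Ω} (S : H68.SM (H68.mat D K) τ) :
    ∃ s : D.group K →* D.group K, ∀ g, (s g : GL D.Idx K) = S.σ g := by
  have e := H68.mat_Gp (D := D) (K := K)
  have key : ∀ g ∈ D.group K, S.σ g ∈ D.group K := fun g hg => by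
    let A : Subgroup (GL D.Idx K) :=
      { carrier := {g | g ∈ D.group K ∧ S.σ g ∈ D.group K}
        one_mem' := ⟨one_mem _, by rw [S.map_one]; exact one_mem _⟩
        mul_mem' := fun {a b} ha hb => ⟨mul_mem ha.1 hb.1,
          S.map_mul a (e ▸ ha.1) b (e ▸ hb.1) ▸ mul_mem ha.2 hb.2⟩
        inv_mem' := fun {a} ha => ⟨inv_mem ha.1, by
          have := S.map_mul a (e ▸ ha.1) a⁻¹ (e ▸ inv_mem ha.1)
          rw [mul_inv_cancel, S.map_one] at this
          rw [eq_inv_of_mul_eq_one_right this.symm]; exact inv_mem ha.2⟩ }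
    rw [group_eq] at hg
    exact (GG_le (K := A) (fun r t => ⟨H65.xU_mem_group _ _,
      S.map_x r r.2 t ▸ H65.xU_mem_group _ _⟩) hg).2
  exact ⟨MonoidHom.mk' (fun g => ⟨_, key g g.2⟩) fun a b =>
    Subtype.ext (S.map_mul _ (e.ge a.2) _ (e.ge b.2)), fun _ => rfl⟩

theorem tw_max [Finite K] (p : ℕ) [Fact p.Prime] [CharP K p] {Ω : Type} {τ : H68.Tw (H68.rd D) Ω}
    (S : H68.SM (H68.mat D K) τ) {ε : ℕ → ℤ} {b : Bool} {α : Rt D} {σ : K →+* K}
    (g : Gd D τ.ρ τ.π (fun r => ε r) b α) (hγ : ∀ r, S.γ r = ε r) (he : ∀ r t, t ^ S.e r = σ t)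
    (ho : ∀ t, cond b (σ (σ (σ t))) (σ (σ t)) = t) (h0 : ∃ t, σ t ≠ t) {θ : Rt D} {A I : List ℕ}
    (k : Cr D θ A I) (hθ : τ.ρ θ = θ) {i : Fin D.rank} (hi : τ.π i = i) (l : List (Fin D.rank))
    (hl : ∀ r, l.foldr sref (τ.ρ r) = τ.ρ (l.foldr sref r)) (hl' : l.foldr sref θ = simpleR i)
    {T M : Subgroup (GL D.Idx K)} (hT : ∀ g, g ∈ T ↔ g ∈ (H68.mat D K).T.Gp ∧ S.σ g = g)
    (hM : ∀ g, g ∈ M ↔ g ∈ T ∧ ∀ i j, σ ((g : Matrix D.Idx D.Idx K) i j) = (g : Matrix D.Idx D.Idx K) i j)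
    (hc : ∀ s, Tf (ad_xG matOK) (mapG D σ) s σ τ.ρ τ.π (fun r => ε r) b α →
      (p = 2 → pr (xG D K) A = zz s b (xG D K α 1)) ∧ ∀ H : Subgroup (D.group K),
      (∀ g, s g = g → mapG D σ g = g → g ∈ H) → (b = true → ∀ t, zz s b (xG D K α t) ∈ H →
        zz s b (xG D K α (σ t * σ (σ t))) ∈ H) ∧
      ((∀ t, zz s b (xG D K α t) ∈ H) → T ≤ H.map (D.group K).subtype)) :
    M ≠ T ∧ ∀ H, M ≤ H → H ≤ T → H = M ∨ H = T := by
  obtain ⟨s, hs⟩ := exists_s S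
  have c : Tf (ad_xG matOK) (mapG D σ) s σ τ.ρ τ.π (fun r => ε r) b α :=
    ⟨g, fun r t => mapG_xG σ r t, fun r t => Subtype.ext (by
      rw [hs, xG_val, xG_val, S.ρ_val, ← he r, ← hγ]
      exact S.map_x r r.2 t), ho⟩
  obtain ⟨h1, h2⟩ := hc s c
  have hT' : ∀ g : D.group K, g.1 ∈ T ↔ s g = g := fun g => by
    rw [hT, H68.mat_Gp, ← hs, and_iff_right g.2, Subtype.ext_iff]
  have hM' : ∀ g : D.group K, g.1 ∈ M ↔ s g = g ∧ mapG D σ g = g := fun g => by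
    rw [hM, hT']
    exact and_congr_right fun _ => ⟨fun e => group_ext e, fun e i j =>
      congrArg (fun g : D.group K => (g.1 : Matrix D.Idx D.Idx K) i j) e⟩
  have hle : T ≤ D.group K := fun g hg => H68.mat_Gp (D := D) (K := K) ▸ ((hT g).1 hg).1
  refine ⟨fun e => ?_, fun H h3 h4 => ?_⟩
  · obtain ⟨t, ht⟩ := h0
    exact ht (c.fix_of_φ c.pos.1 ((hM' _).1 (e ▸ (hT' _).2 (c.zz_fix c.pos.2 (x_mem_pm α t)))).2
      (c.cf_of c.pos.1 (c.zz_mem c.pos.2 t)))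
  have := Finite.of_injective _ (Units.val_injective (α := Matrix D.Idx D.Idx K))
  have hm : ∀ g, s g = g → mapG D σ g = g → g ∈ H.subgroupOf (D.group K) := fun g e e' =>
    h3 ((hM' g).2 ⟨e, e'⟩)
  have hs' : ∀ g ∈ H.subgroupOf (D.group K), s g = g := fun g hg => (hT' g).1 (h4 hg)
  by_cases hz : ∀ t, zz s b (xG D K α t) ∈ H.subgroupOf (D.group K) → σ t = t
  · refine .inl (le_antisymm (fun g hg => (hM' ⟨g, hle (h4 hg)⟩).2 ⟨hs' _ hg, ?_⟩) h3)
    exact (c.ov hs' hm hz).rat p k (c.x_mem hm hθ (map_one σ))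
      (c.x_mem hm (by rw [(c.neg θ).1, hθ]) (map_one σ))
      (fun e => h1 e ▸ c.zz_mem_fix hm c.pos.2 (map_one σ)) hi (w := H67.wp (H64.wdata D).sW l)
      (fun r => by rw [wp_apply, wp_apply, hl]) (by rw [wp_apply, hl']) hg
  push Not at hz
  obtain ⟨t, h5, h6⟩ := hz
  obtain ⟨h7, h8⟩ := h2 _ hm
  exact .inr (le_antisymm h4 ((h8 (c.zz_all hm h7 h5 h6)).trans (by
    rw [Subgroup.subgroupOf_map_subtype]; exact inf_le_left)))

theorem gdD4 : Gd chevD4 H68.twD4.ρ H68.twD4.π (fun r => H68.gamD4 r) true ⟨17, by decide⟩ := by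
  constructor <;> decide +kernel

theorem gdE6 : Gd chevE6 H68.twE6.ρ H68.twE6.π (fun r => H68.gamE6 r) false ⟨68, by decide⟩ := by
  constructor <;> decide +kernel

end H63
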