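import Cfsg.Agent.H63.Ov5
import Cfsg.Agent.H67.RootSL

/-! Finite subgroups of Chevalley groups containing all root elements `x_r(1)`. -/

set_option autoImplicit false
set_option linter.unusedSectionVars false

namespace H63

open Cfsg.Lie H64 H65

theorem exists_frob {F : Type*} [Field F] (p : ℕ) [Fact p.Prime] [CharP F p] (E : Subfield F)
    [Finite E] : ∃ σ : F →+* F, (∀ t, σ t = t ^ Nat.card E) ∧ ∀ t, σ t = t ↔ t ∈ E := by
  classical
  have := Fintype.ofFinite E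
  obtain ⟨n, -, hn⟩ := FiniteField.card E p
  have h1 : ∀ t ∈ E, t ^ Fintype.card E = t := fun t ht =>
    congrArg Subtype.val (FiniteField.pow_card (⟨t, ht⟩ : E))
  refine ⟨iterateFrobenius F p n, fun t => by rw [Nat.card_eq_fintype_card, hn]; rfl, fun t =>
    ⟨fun e => by_contra fun ht => ?_, fun ht => by rw [iterateFrobenius_def, ← hn, h1 t ht]⟩⟩
  have h2 := Fintype.one_lt_card (α := E)
  have := Polynomial.card_le_degree_of_subset_roots
    (p := Polynomial.X ^ Fintype.card E - Polynomial.X)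
    (Z := insert t (Finset.univ.map ⟨E.subtype, E.subtype.injective⟩)) fun a ha => by
      rw [Polynomial.mem_roots (FiniteField.X_pow_card_sub_X_ne_zero F h2)]
      simp only [Finset.mem_val, Finset.mem_insert, Finset.mem_map] at ha
      rcases ha with rfl | ⟨a, -, rfl⟩
      · simpa [sub_eq_zero, hn, iterateFrobenius_def] using e
      · simpa [sub_eq_zero] using h1 a a.2
  rw [Finset.card_insert_of_notMem (by simpa using ht), FiniteField.X_pow_card_sub_X_natDegree_eq F h2]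
    at this
  simp at this

variable {D : ChevalleyDatum} [RS D] {F : Type*} [Field F]

theorem good_of {r β : Rt D} (hr : Pos r) (hβ : Pos β) (h : (D.chainM β r 1 : F) ≠ 0) :
    Good F r := by
  obtain ⟨c, hc⟩ : ∃ c : Rt D, rt c = rt r + rt β := by_contra fun e => h (by
    rw [chainM_eq_zero_of_lt (by rw [chainEntry_eq_nil_iff.2 (not_exists.1 e)]; simp)]; simp)
  exact ⟨hr, β, c, hβ, hc, h⟩

theorem cast_ne_of_natAbs {a : ℤ} {m : ℕ} (h : a.natAbs = m) (hm : (m : F) ≠ 0) : (a : F) ≠ 0 := by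
  rcases Int.natAbs_eq a with e | e <;> rw [e, h] <;> simpa using hm

variable (D) in
/-- `θ` is the highest root, and `x_θ(1)` is not conjugate to `∏_{a ∈ A} x_a(1)`. -/
def Cr (θ : Rt D) (A I : List ℕ) : Prop :=
  (∀ (r : Rt D) i, rt r i ≤ rt θ i) ∧ (∃ i : Fin D.rank, D.pairing θ (D.simple i) = 1) ∧
  upc D A I ∧ upc D [θ] [] ∧ A ≠ [] ∧ A.Pairwise (H68.cz D 2 · ·) ∧
  noEmb D D.isLong [θ] (par D A.reverse) A []

instance (θ : Rt D) (A I : List ℕ) : Decidable (Cr D θ A I) := by unfold Cr; infer_instance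

variable (D) in
/-- All positive roots except `θ`, `η` are good, and `η` is good unless `m = 0`. -/
def Cg (θ η : Rt D) (m : ℕ) : Prop :=
  (∀ r : Rt D, len θ = len r ∨ len η = len r) ∧ (η = θ ∨ D.pairing θ η = 1) ∧
  (∀ r : Rt D, Pos r → r = θ ∨ r = η ∨ (∃ i : Fin D.rank, (D.chainM (D.simple i) r 1).natAbs = 1) ∨
    (∃ i : Fin D.rank, (D.chainM (D.simple i) r 1).natAbs = 2) ∧ (D.chainM η r 1).natAbs = 3) ∧
  Pos η ∧ (∃ i, Pos (sref i θ) ∧ sref i θ ≠ θ ∧ sref i θ ≠ η) ∧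
  (η = θ ∨ (∃ i : Fin D.rank, (D.chainM (D.simple i) η 1).natAbs = m) ∧
    (∀ r : Rt D, Pos r → H68.cz D m r η) ∧ ∃ i, Pos (sref i η) ∧ sref i η ≠ η ∧ sref i θ = θ)

instance (θ η : Rt D) (m : ℕ) : Decidable (Cg D θ η m) := by unfold Cg; infer_instance

theorem Cg.good {θ η : Rt D} {m : ℕ} (c : Cg D θ η m) {r : Rt D} (hr : Pos r) (h1 : r ≠ θ)
    (h2 : r ≠ η) : Good F r := by
  rcases c.2.2.1 r hr with h | h | ⟨i, h⟩ | ⟨⟨i, h⟩, h'⟩
  · exact absurd h h1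
  · exact absurd h h2
  · exact good_of hr (pos_simpleR i) (cast_ne_of_natAbs h (by simp))
  by_cases e : ((2 : ℕ) : F) = 0
  · exact good_of hr c.2.2.2.1 (cast_ne_of_natAbs h' (by
      rw [Nat.cast_succ, e, zero_add]; exact one_ne_zero))
  · exact good_of hr (pos_simpleR i) (cast_ne_of_natAbs h e)

theorem Cg.sf {G : Type*} [Group G] {x : ℕ → F → G} {θ η θ' : Rt D} {m : ℕ} (c : Cg D θ η m)
    (hθ : Hi θ) (h : Ad D x) (h0 : ∀ r, x r 0 = 1) {M : Subgroup G} {E : Subfield F}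
    (k : Fd x M E θ θ') (e : (m : F) ≠ 0 ∧ θ' = θ ∨ (m : F) = 0 ∧ θ' = η) {φ : G →* G}
    {σ : F →+* F} (hφ : ∀ (r : Rt D) t, φ (x r t) = x r (σ t)) (hσ : ∀ t, σ t = t ↔ t ∈ E) :
    Sf h M φ σ θ θ' := by
  obtain ⟨i, h1, h2, h3⟩ := c.2.2.2.2.1
  have mix : ∀ d c, x θ' d * x θ c ∈ M → φ (x θ' d * x θ c) = x θ' d * x θ c := fun d a ha => by
    obtain ⟨d', h1, a', h2, e⟩ := k.mix d a ha
    rw [e, map_mul, hφ, hφ, (hσ _).2 h1, (hσ _).2 h2]
  have mem : ∀ (r : Rt D) t, σ t = t → x r t ∈ M := fun r t ht => k.mem r t ((hσ t).1 ht)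
  have w1 : ∃ w : (H64.wdata D).W, Good F (w.1 θ) := ⟨(H64.wdata D).sW i, c.good h1 h2 h3⟩
  rcases c.2.2.2.2.2 with rfl | ⟨⟨j, h4⟩, h5, l, h6, h7, h8⟩
  · obtain rfl : θ' = η := e.elim (·.2) (·.2)
    exact ⟨hφ, mem, hθ, hθ.pos, fun u hu => hθ.commute h.toSt hu, fun r => c.good, mix, w1, .inl rfl⟩
  rcases e with ⟨e, rfl⟩ | ⟨e, rfl⟩
  · refine ⟨hφ, mem, hθ, hθ.pos, fun u hu => hθ.commute h.toSt hu, fun r hr h _ => ?_, mix, w1,
      .inl rfl⟩
    by_cases e' : r = η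
    · exact e' ▸ good_of c.2.2.2.1 (pos_simpleR j) (cast_ne_of_natAbs h4 e)
    · exact c.good hr h e'
  refine ⟨hφ, mem, hθ, c.2.2.2.1, fun u hu t => Subgroup.mem_centralizer_singleton_iff.1
    (gen_le (fun r hr y hy => ?_) hu), fun r => c.good, mix, w1, ?_⟩
  · obtain ⟨a, rfl⟩ := h.toSt.mem_XR.1 hy
    exact Subgroup.mem_centralizer_singleton_iff.2
      (H68.commute_of_cz h.toSt h0 (by simpa using e) (h5 r hr) a t)
  · exact .inr ⟨(H64.wdata D).sW l, c.good h6 (fun e => h7 (by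
      have := congrArg (sref l) (show sref l θ' = θ from e)
      rw [sref_sref, h8] at this
      exact e.trans this.symm)) h7, h8⟩

variable [Tab D] [Comm D]

theorem xG_zero (r : ℕ) : xG D F r 0 = 1 := Subtype.ext (xU_zero r)

theorem Ov.rat {h : Ad D (xG D F)} {M : Subgroup (D.group F)} {φ s : D.group F →* D.group F}
    {γ : Equiv.Perm (Rt D)} {π : Equiv.Perm (Fin D.rank)} (c : Ov h M φ s γ π) (p : ℕ)
    [Fact p.Prime] [CharP F p] {θ : Rt D} {A I : List ℕ} (k : Cr D θ A I) (h1 : xG D F θ 1 ∈ M)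
    (h2 : xG D F (negR θ) 1 ∈ M) (h3 : p = 2 → pr (xG D F) A ∈ M) {i : Fin D.rank} (hi : π i = i)
    {w : (H64.wdata D).W} (h4 : ∀ r, w.1 (γ r) = γ (w.1 r)) (h5 : w.1 θ = simpleR i)
    {g : D.group F} (hg : g ∈ M) : φ g = g := by
  obtain ⟨k1, ⟨j, k2⟩, k3, k4, k5, k6, k7⟩ := k
  have hθ : Hi θ := k1
  by_cases e : p = 2
  swap
  · exact c.rat_odd p e hθ (H67.slR_injective (s := simpleR j) hθ.pos k2) (H67.slR_U θ)
      (H67.slR_L θ) h1 h2 hi h4 h5 hg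
  subst e
  have h6 : ((2 : ℤ) : F) = 0 := by simpa using CharTwo.two_eq_zero
  have h7 := orderOf_pr h.toStB xG_zero h6 k3 k5 k6
  refine c.rat_two (h3 rfl) h1 (fun e => by simp [e] at h7)
    (fun e => one_ne_zero (h.eq_zero_of_x_eq_one θ e)) (by rw [← sq, ← h7, pow_orderOf_eq_one])
    (x_mul_self h.toSt CharTwo.two_eq_zero θ 1) (c.hB _ (h3 rfl) (h.rgd.U_le_B (pr_mem fun a ha => ?_)))
    (c.hB _ h1 (h.rgd.U_le_B (h.rgd.X_le_U hθ.pos (x_mem_XR D _ θ 1)))) (fun g e => ?_) hg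
  · have := ((of_decide_eq_true k3).2 a (List.mem_append_left _ ha)).1
    exact ⟨⟨a, this.1⟩, (isPosRoot_iff _).1 this, rfl⟩
  · exact not_cj h.toStB h6 isLong_apply k3 k4 k7 ⟨g, h.top ▸ trivial, by simpa [pr] using e⟩

/-- The elements of `M` have their entries in the field of definition. -/
theorem fix_of_fd (p : ℕ) [Fact p.Prime] [CharP F p] {θ η θ' : Rt D} {m : ℕ} {A I : List ℕ}
    (c : Cg D θ η m) (c' : Cr D θ A I) {M : Subgroup (D.group F)} [Finite M] {E : Subfield F}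
    (k : Fd (xG D F) M E θ θ') (e : (m : F) ≠ 0 ∧ θ' = θ ∨ (m : F) = 0 ∧ θ' = η) :
    Finite E ∧ (∀ (r : Rt D), ∀ t ∈ E, xG D F r t ∈ M) ∧ ∃ σ : F →+* F,
      (∀ t, σ t = t ^ Nat.card E) ∧ (∀ t, σ t = t ↔ t ∈ E) ∧ ∀ g ∈ M, mapG D σ g = g := by
  have := k.fin
  obtain ⟨σ, h1, h2⟩ := exists_frob p E
  obtain ⟨w, i, hw⟩ := (H64.wdata D).exists_simple θ
  refine ⟨this, k.mem, σ, h1, h2, fun g hg => ((c.sf c'.1 (ad_xG H64.matOK) xG_zero k e
    (fun r => mapG_xG σ r) h2).ov).rat p c' (k.mem _ _ (one_mem E)) (k.mem _ _ (one_mem E))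
    (fun _ => list_prod_mem fun y hy => ?_) (i := i) rfl (w := w⁻¹) (fun _ => rfl)
    (by rw [hw, WData.inv_apply_apply]; rfl) hg⟩
  obtain ⟨a, ha, rfl⟩ := List.mem_map.1 hy
  exact k.mem ⟨a, ((of_decide_eq_true c'.2.2.1).2 a (List.mem_append_left _ ha)).1.1⟩ 1 (one_mem E)

end H63

namespace H63

open Cfsg.Lie H64 H65

theorem crB2 : Cr chevB2 ⟨7, by decide⟩ [6] [] := by decide +kernel
theorem crG2 : Cr chevG2 ⟨11, by decide⟩ [9] [10, 11] := by decide +kernel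
theorem crD4 : Cr chevD4 ⟨23, by decide⟩ [17, 20, 21] [22, 23] := by decide +kernel
theorem crF4 : Cr chevF4 ⟨47, by decide⟩ [44] [] := by decide +kernel
theorem crE6 : Cr chevE6 ⟨71, by decide⟩ [68, 66] [69, 70, 71] := by decide +kernel
theorem crE7 : Cr chevE7 ⟨125, by decide⟩ [118, 121] [122, 123, 124, 125] := by decide +kernel
theorem crE8 : Cr chevE8 ⟨239, by decide⟩ [232, 233] [234, 235, 236, 237, 238, 239] := by
  decide +kernel
theorem cgB2 : Cg chevB2 ⟨7, by decide⟩ ⟨6, by decide⟩ 2 := by decide +kernel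
theorem cgG2 : Cg chevG2 ⟨11, by decide⟩ ⟨9, by decide⟩ 3 := by decide +kernel
theorem cgD4 : Cg chevD4 ⟨23, by decide⟩ ⟨23, by decide⟩ 1 := by decide +kernel
theorem cgF4 : Cg chevF4 ⟨47, by decide⟩ ⟨44, by decide⟩ 2 := by decide +kernel
theorem cgE6 : Cg chevE6 ⟨71, by decide⟩ ⟨71, by decide⟩ 1 := by decide +kernel
theorem cgE7 : Cg chevE7 ⟨125, by decide⟩ ⟨125, by decide⟩ 1 := by decide +kernel
theorem cgE8 : Cg chevE8 ⟨239, by decide⟩ ⟨239, by decide⟩ 1 := by decide +kernel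

variable {D : ChevalleyDatum} {F : Type*} [Field F]

/-- A finite subgroup containing the `x_r(1)` lies between the group over a finite subfield and
the fixed points of the corresponding Frobenius map. -/
theorem exists_field (hD : D ∈ [chevG2, chevB2, chevD4, chevF4, chevE6, chevE7, chevE8]) (p : ℕ)
    [Fact p.Prime] [CharP F p] : ∃ (_ : RS D) (_ : Tab D), Ad D (xG D F) ∧
      ∀ M : Subgroup (D.group F), Finite M → (∀ r, xG D F r 1 ∈ M) → ∃ E : Subfield F,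
        Finite E ∧ (∀ (r : Rt D), ∀ t ∈ E, xG D F r t ∈ M) ∧ ∃ σ : F →+* F,
          (∀ t, σ t = t ^ Nat.card E) ∧ (∀ t, σ t = t ↔ t ∈ E) ∧ ∀ g ∈ M, mapG D σ g = g := by
  have gen : ∀ [RS D] [Tab D] [Comm D] {θ η : Rt D} {m : ℕ} {A I : List ℕ} (r s c : Rt D),
      Cg D θ η m → Cr D θ A I →
      (tri D 0 r s c ∧ len θ = len r ∧ len θ = len s ∧ len c = len θ) → (m : F) ≠ 0 →
      ∀ M : Subgroup (D.group F), Finite M → (∀ r, xG D F r 1 ∈ M) → ∃ E : Subfield F,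
        Finite E ∧ (∀ (r : Rt D), ∀ t ∈ E, xG D F r t ∈ M) ∧ ∃ σ : F →+* F,
          (∀ t, σ t = t ^ Nat.card E) ∧ (∀ t, σ t = t ↔ t ∈ E) ∧ ∀ g ∈ M, mapG D σ g = g :=
    fun r s c c1 c2 c3 hm M _ hM => by
      have h := stB_xG (D := D) (F := F) H64.matOK
      obtain ⟨E, hE, -⟩ := exists_fld h (fun r => hM r)
        (mul_of_tri h (fun r => hM r) xG_zero (by simp) c3.1 c3.2) c1.1 c1.2.1
      exact ⟨E, fix_of_fd p c1 c2 hE (.inl ⟨hm, rfl⟩)⟩
  have hp : ∀ m : ℕ, m.Prime → (m : F) = 0 → p = m := fun m hm e =>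
    (Nat.prime_dvd_prime_iff_eq Fact.out hm).1 ((CharP.cast_eq_zero_iff F p m).1 e)
  have hT := fun i : RS D => tab_comm_of_mem hD
  simp only [List.mem_cons, List.not_mem_nil, or_false] at hD
  rcases hD with rfl | rfl | rfl | rfl | rfl | rfl | rfl <;> obtain ⟨_, _⟩ := hT inferInstance <;>
    refine ⟨inferInstance, ‹_›, ad_xG H64.matOK, ?_⟩
  · by_cases e : ((3 : ℕ) : F) = 0
    · obtain rfl := hp 3 Nat.prime_three e
      intro M _ hM
      obtain ⟨E, hE⟩ := exists_fd_bad (stB_xG H64.matOK) (fun r => hM r) xG_zero 3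
        (θ := ⟨11, by decide⟩) (η := ⟨9, by decide⟩) (r := ⟨6, by decide⟩) (s := ⟨10, by decide⟩)
        (c := ⟨11, by decide⟩) (r' := ⟨7, by decide⟩) (s' := ⟨8, by decide⟩) (c' := ⟨9, by decide⟩)
        (γ := ⟨5, by decide⟩) (e := ⟨10, by decide⟩) (by decide) (by decide +kernel) (by decide)
        (by decide +kernel) cgG2.1 (by decide) (by decide) (by decide) (by decide +kernel) (by decide)
      exact ⟨E, fix_of_fd 3 cgG2 crG2 hE (.inr ⟨e, rfl⟩)⟩
    · exact gen ⟨6, by decide⟩ ⟨10, by decide⟩ ⟨11, by decide⟩ cgG2 crG2 (by decide +kernel) e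
  · intro M _ hM
    by_cases e : ((2 : ℕ) : F) = 0
    · obtain rfl := hp 2 Nat.prime_two e
      obtain ⟨E, hE⟩ := exists_fd_B2_two (stB_xG H64.matOK) (fun r => hM r) xG_zero
      exact ⟨E, fix_of_fd 2 cgB2 crB2 hE (.inr ⟨e, rfl⟩)⟩
    · obtain ⟨E, hE⟩ := exists_fd_B2_odd (stB_xG H64.matOK) (fun r => hM r) (by simpa using e)
      exact ⟨E, fix_of_fd p cgB2 crB2 hE (.inl ⟨e, rfl⟩)⟩
  · exact gen ⟨18, by decide⟩ ⟨14, by decide⟩ ⟨19, by decide⟩ cgD4 crD4 (by decide +kernel) (by simp)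
  · by_cases e : ((2 : ℕ) : F) = 0
    · obtain rfl := hp 2 Nat.prime_two e
      intro M _ hM
      obtain ⟨E, hE⟩ := exists_fd_bad (stB_xG H64.matOK) (fun r => hM r) xG_zero 2
        (θ := ⟨47, by decide⟩) (η := ⟨44, by decide⟩) (r := ⟨25, by decide⟩) (s := ⟨24, by decide⟩)
        (c := ⟨26, by decide⟩) (r' := ⟨33, by decide⟩) (s' := ⟨27, by decide⟩)
        (c' := ⟨34, by decide⟩) (γ := ⟨23, by decide⟩) (e := ⟨46, by decide⟩) (by decide +kernel)
        (by decide +kernel) (by decide +kernel) (by decide +kernel) cgF4.1 (by decide +kernel)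
        (by decide +kernel) (by decide +kernel) (by decide +kernel) (by decide +kernel)
      exact ⟨E, fix_of_fd 2 cgF4 crF4 hE (.inr ⟨e, rfl⟩)⟩
    · exact gen ⟨25, by decide⟩ ⟨24, by decide⟩ ⟨26, by decide⟩ cgF4 crF4 (by decide +kernel) e
  · exact gen ⟨37, by decide⟩ ⟨36, by decide⟩ ⟨38, by decide⟩ cgE6 crE6 (by decide +kernel) (by simp)
  · exact gen ⟨64, by decide⟩ ⟨63, by decide⟩ ⟨65, by decide⟩ cgE7 crE7 (by decide +kernel) (by simp)
  · exact gen ⟨121, by decide⟩ ⟨120, by decide⟩ ⟨122, by decide⟩ cgE8 crE8 (by decide +kernel)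
      (by simp)

end H63
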