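import Cfsg.Agent.H63.Ov6

/-! Finite overgroups of the Chevalley group over a finite subfield. -/

set_option autoImplicit false

namespace H63

open Cfsg.Lie H64 H65

theorem card_eq_pow_of_le {F : Type*} [Field F] {E E' : Subfield F} (h : E ≤ E') [Finite E'] :
    ∃ r, 1 ≤ r ∧ Nat.card E' = Nat.card E ^ r := by
  letI := (Subfield.inclusion h).toAlgebra
  exact ⟨_, Module.finrank_pos, Module.natCard_eq_pow_finrank (K := E)⟩

theorem overgroup {D : ChevalleyDatum} {F : Type*} [Field F]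
    (hD : D ∈ [chevG2, chevB2, chevD4, chevF4, chevE6, chevE7, chevE8]) (p : ℕ) [Fact p.Prime]
    [CharP F p] {a : ℕ} (hq : Nat.card {t : F // t ^ p ^ a = t} = p ^ a)
    {M : Subgroup (GL D.Idx F)} [Finite M] (h1 : M ≤ D.group F)
    (h2 : ∀ (g : GL D.Idx F) s t, t ^ p ^ a = t → (g : Matrix D.Idx D.Idx F) = D.x F s t → g ∈ M) :
    ∃ r, 1 ≤ r ∧ (∃ E : Subfield F, Nat.card E = (p ^ a) ^ r) ∧
      (∀ (g : GL D.Idx F) s t, t ^ (p ^ a) ^ r = t → (g : Matrix D.Idx D.Idx F) = D.x F s t →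
        g ∈ M) ∧ ∀ g ∈ M, ∀ i j,
        (g : Matrix D.Idx D.Idx F) i j ^ (p ^ a) ^ r = (g : Matrix D.Idx D.Idx F) i j := by
  obtain ⟨_, _, h, h3⟩ := exists_field (F := F) hD p
  obtain ⟨E, _, h4, σ, h5, h6, h7⟩ := h3 (M.subgroupOf _)
    (.of_equiv _ (Subgroup.subgroupOfEquivOfLe h1).symm.toEquiv) fun r => h2 _ r 1 (one_pow _) rfl
  obtain ⟨i⟩ := nonempty_rank (D := D)
  obtain ⟨r, h8, h9⟩ := card_eq_pow_of_le (E' := E)
    (E := (iterateFrobenius F p a).eqLocusField (RingHom.id F)) fun t ht =>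
      (h6 t).1 (h.x_injective (simpleR i) ((mapG_xG σ _ t).symm.trans (h7 _ (h2 _ _ t ht rfl))))
  rw [show Nat.card ((iterateFrobenius F p a).eqLocusField (RingHom.id F)) = p ^ a from hq] at h9
  refine ⟨r, h8, ⟨E, h9⟩, fun g s t ht e => ?_, fun g hg i j => ?_⟩
  · rw [val_eq_x.1 e]
    by_cases e : s < D.nroots
    · exact h4 ⟨s, e⟩ t ((h6 t).1 (by rw [h5, h9, ht]))
    · rw [show xU D F s t = 1 from Units.ext (X_of_le e t)]; exact one_mem _
  · rw [← h9, ← h5, ← mapG_apply σ ⟨g, h1 hg⟩, h7 ⟨g, h1 hg⟩ hg]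

end H63
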