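import Cfsg.Agent.H63.Ov6

/-! Leading coefficients for the height filtration of `U`. -/

set_option autoImplicit false
set_option linter.unusedSectionVars false

namespace H63

open Cfsg.Lie H64
open scoped commutatorElement

variable {D : ChevalleyDatum} [RS D] {F : Type*} [Field F] {G : Type*} [Group G] {x : ℕ → F → G}

variable (D x) in
/-- The root groups of height at least that of `c`, except the one of `c`. -/
abbrev Uc (c : Rt D) : Subgroup G := gen (XR D x) {a | Pos a ∧ a ≠ c ∧ ht c ≤ ht a}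

variable (x) in
/-- `g` has height at least that of `c`, and coefficient `t` at `c`. -/
def Cf (c : Rt D) (g : G) (t : F) : Prop := (x c t)⁻¹ * g ∈ Uc D x c

theorem x_mem_gen {S : Set (Rt D)} {c : Rt D} (hc : c ∈ S) (t : F) : x c t ∈ gen (XR D x) S :=
  le_gen _ hc (x_mem_XR D x c t)

theorem Uh_succ_le (c : Rt D) : Uh D x (ht c + 1) ≤ Uc D x c :=
  gen_mono _ fun a h => ⟨h.1, by rintro rfl; have := h.2; omega, by have := h.2; omega⟩

theorem Uc_le (c : Rt D) : Uc D x c ≤ Uh D x (ht c) := gen_mono _ fun _ h => ⟨h.1, h.2.2⟩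

theorem Uh_anti {k l : ℤ} (h : k ≤ l) : Uh D x l ≤ Uh D x k :=
  gen_mono _ fun _ e => ⟨e.1, h.trans e.2⟩

theorem x_mem_Uh {c : Rt D} (hc : Pos c) (t : F) : x c t ∈ Uh D x (ht c) :=
  x_mem_gen (by exact ⟨hc, le_rfl⟩) t

theorem Cf.mem {c : Rt D} (hc : Pos c) {g : G} {t : F} (e : Cf x c g t) : g ∈ Uh D x (ht c) := by
  simpa using mul_mem (x_mem_Uh hc t) (Uc_le c e)

theorem Tws.cf {s : G →* G} {γ : Equiv.Perm (Rt D)} {π : Equiv.Perm (Fin D.rank)}
    (k : Tws D x s γ π) (h : St D x) {c : Rt D} {g : G} {t t' : F} (e : s (x c t) = x (γ c) t')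
    (h1 : Cf x c g t) : Cf x (γ c) (s g) t' := by
  rw [Cf, ← e, ← map_inv, ← map_mul]
  refine k.map_gen h (fun a ha => ?_) h1
  exact ⟨k.pos_γ.2 ha.1, γ.injective.ne ha.2.1, by rw [k.ht_γ, k.ht_γ]; exact ha.2.2⟩

variable (h : StB D x)
include h

theorem Uh_le (k : ℤ) : Uh D x k ≤ h.rgd.U := gen_mono _ fun _ e => e.1

theorem closed_Uc {c : Rt D} (hc : Pos c) : h.rgd.Closed {a | Pos a ∧ a ≠ c ∧ ht c ≤ ht a} := by
  convert h.rgd.closed_ge c using 2
  ext a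
  refine and_congr_right fun ha => and_congr_right fun _ => ?_
  change _ ↔ (ht c).toNat ≤ (ht a).toNat
  have := pos_iff_ht.1 ha
  omega

theorem closed_Uh (k : ℤ) : h.rgd.Closed {a | Pos a ∧ k ≤ ht a} := by
  convert h.rgd.closed_ht_ge k.toNat using 2
  ext a
  refine and_congr_right fun ha => ?_
  change _ ↔ k.toNat ≤ (ht a).toNat
  have := pos_iff_ht.1 ha
  omega

theorem conj_Uc {c : Rt D} {u v : G} (hu : u ∈ h.rgd.U) (hv : v ∈ Uc D x c) :
    u * v * u⁻¹ ∈ Uc D x c := by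
  simpa using mul_mem hv (Uh_succ_le c (conj_Uh_succ h hu (Uc_le c hv)))

theorem cf_zero {c : Rt D} {g : G} : Cf x c g 0 ↔ g ∈ Uc D x c := by
  rw [Cf, h.toSt.x_zero, inv_one, one_mul]

theorem Cf.mul {c : Rt D} (hc : Pos c) {g g' : G} {t t' : F} (e : Cf x c g t) (e' : Cf x c g' t') :
    Cf x c (g * g') (t + t') := by
  rw [Cf, ← h.add c c.2]
  simpa [mul_assoc] using mul_mem (conj_Uc h (inv_mem (Uh_le h _ (x_mem_Uh hc t'))) e) e'

theorem Cf.inv {c : Rt D} (hc : Pos c) {g : G} {t : F} (e : Cf x c g t) : Cf x c g⁻¹ (-t) := by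
  rw [Cf, ← h.toSt.x_inv]
  simpa [mul_assoc] using conj_Uc h (Uh_le h _ (x_mem_Uh hc t)) (inv_mem e)

theorem Cf.unique {c : Rt D} (hc : Pos c) {g : G} {t t' : F} (e : Cf x c g t) (e' : Cf x c g t') :
    t = t' := by
  have := (e.inv h hc).mul h hc e'
  rw [Cf, inv_mul_cancel, mul_one, inv_mem_iff] at this
  exact neg_add_eq_zero.1 (h.eq_zero_of_x_eq_one c (h.rgd.eq_one_of_mem_X_of_closed (closed_Uc h hc)
    hc (fun e => e.2.1 rfl) (x_mem_XR D x c _) this))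

theorem exists_cf {c : Rt D} (hc : Pos c) {g : G} (hg : g ∈ Uh D x (ht c)) : ∃ t, Cf x c g t := by
  refine gen_induction_left (p := fun g => ∃ t, Cf x c g t) ⟨0, (cf_zero h).2 (one_mem _)⟩
    (fun a ha y hy g _ ⟨t, ih⟩ => ?_) hg
  by_cases e : a = c
  · obtain ⟨u, rfl⟩ := h.toSt.mem_XR.1 hy
    exact ⟨_, Cf.mul h hc (t := u) (by simp [Cf, e]) ih⟩
  · exact ⟨_, ((cf_zero h).2 (le_gen _ (by exact ⟨ha.1, e, ha.2⟩) hy)).mul h hc ih⟩

theorem Cf.conj {c : Rt D} (hc : Pos c) {g u k : G} {t a : F} (e : Cf x c g t) (hu : u ∈ h.rgd.U)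
    (hk : k ∈ HH D x) (e1 : k * x c t * k⁻¹ = x c a) : Cf x c (u * k * g * (u * k)⁻¹) a := by
  have h1 : Cf x c (k * g * k⁻¹) a := by
    rw [Cf, ← e1]
    simpa [mul_assoc] using h.rgd.h_conj_gen hk e
  simpa [Cf, mul_assoc] using mul_mem h1 (Uh_succ_le c (conj_Uh_succ h hu (h1.mem hc)))

theorem mem_Uh_succ {k : ℤ} {g : G} (hg : g ∈ Uh D x k)
    (h1 : ∀ a, Pos a → ht a = k → g ∈ Uc D x a) : g ∈ Uh D x (k + 1) := by
  classical
  have : ∀ T : Finset (Rt D), ∃ S, h.rgd.Closed S ∧ g ∈ gen (XR D x) S ∧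
      ∀ a ∈ S, (Pos a ∧ k ≤ ht a) ∧ (a ∈ T → ht a ≠ k) := fun T => by
    induction T using Finset.induction_on with
    | empty => exact ⟨_, closed_Uh h k, hg, fun a ha => ⟨ha, by simp⟩⟩
    | insert c T _ ih =>
      obtain ⟨S, h2, h3, h4⟩ := ih
      by_cases e : Pos c ∧ ht c = k
      · exact ⟨_, h2.inter (closed_Uc h e.1), h.rgd.mem_gen_inter h2 (closed_Uc h e.1) h3
          (h1 c e.1 e.2), fun a ha => ⟨(h4 a ha.1).1, fun e =>
            (h4 a ha.1).2 ((Finset.mem_insert.1 e).resolve_left ha.2.2.1)⟩⟩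
      · exact ⟨S, h2, h3, fun a ha => ⟨(h4 a ha).1, fun e' => (Finset.mem_insert.1 e').elim
          (fun e1 e2 => e (e1 ▸ ⟨(h4 a ha).1.1, e2⟩)) (h4 a ha).2⟩⟩
  obtain ⟨S, -, h3, h4⟩ := this Finset.univ
  refine gen_mono _ (fun a ha => ?_) h3
  exact ⟨(h4 a ha).1.1, by have := (h4 a ha).1.2; have := (h4 a ha).2 (Finset.mem_univ _); omega⟩

theorem comm_mem_Uc {b c : Rt D} (hb : Pos b) {S : Set (Rt D)}
    (hS : ∀ a ∈ S, Pos a ∧ ht c ≤ ht a + ht b ∧ rt c ≠ rt a + rt b) {v : G}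
    (hv : v ∈ gen (XR D x) S) (t : F) : ⁅v, x b t⁆ ∈ Uc D x c := by
  refine comm_mem_of_gen (T := {b}) (U := h.rgd.U) (fun u hu k hk => conj_Uc h hu hk)
    (gen_mono _ fun a ha => (hS a ha).1) (gen_mono _ fun a ha => ha ▸ hb)
    (fun a ha b' e y hy z hz => ?_) hv (x_mem_gen (Set.mem_singleton b) t)
  obtain rfl : b' = b := e
  obtain ⟨h1, h2, h3⟩ := hS a ha
  by_cases e1 : a = b'
  · subst e1
    obtain ⟨s, rfl⟩ := h.toSt.mem_XR.1 hy
    obtain ⟨t, rfl⟩ := h.toSt.mem_XR.1 hz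
    rw [commutatorElement_eq_one_iff_mul_comm.2 (h.toSt.x_comm _ _ _)]; exact one_mem _
  refine h.toSt.commutator_mem e1 (by rintro rfl; exact pos_negR.1 h1 hb)
    (fun u i j hi hj e2 => ?_) hy hz
  have h4 := ht_of_eq e2
  have h5 := pos_iff_ht.1 h1
  have h6 := pos_iff_ht.1 hb
  refine ⟨pos_of_comb hb h1 hi hj e2, ?_, by nlinarith⟩
  rintro rfl
  obtain rfl : i = 1 := by nlinarith
  obtain rfl : j = 1 := by nlinarith
  exact h3 (by rw [e2, one_smul, one_smul, add_comm])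

theorem cf_comm_zero {b c : Rt D} (hb : Pos b) {k : ℤ} (e : ht c = k + ht b)
    (h1 : ∀ a : Rt D, rt c ≠ rt a + rt b) {g : G} (hg : g ∈ Uh D x k) (t : F) :
    Cf x c ⁅g, x b t⁆ 0 :=
  (cf_zero h).2 (comm_mem_Uc h hb (fun a ha => ⟨ha.1, by have := ha.2; omega, h1 a⟩) hg t)

theorem Cf.comm {r b c : Rt D} (hr : Pos r) (hb : Pos b) (e : rt c = rt r + rt b) {g : G} {t : F}
    (h1 : Cf x r g t) (a : F) : Cf x c ⁅g, x b a⁆ (-(D.chainM b r 1 * a * t)) := by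
  have hc := pos_of_add e hr hb
  obtain ⟨l, e1, hl⟩ := commTerms_eq_cons e
  have e2 := h.toSt.commutator_eq (ne_of_add e).1 (ne_of_add e).2 (-a) (-t)
  rw [neg_neg, neg_neg, ChevalleyDatum.commWord, e1, List.map_cons, wd_cons] at e2
  have h2 : Cf x c ⁅x r t, x b a⁆ (-(D.chainM b r 1 * a * t)) := by
    rw [Cf, e2]
    simp only [neg_neg, pow_one, mul_neg, inv_mul_cancel_left]
    refine Uh_succ_le c (list_prod_mem fun g hg => ?_)
    simp only [List.map_map, List.mem_map] at hg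
    obtain ⟨d, hd, rfl⟩ := hg
    obtain ⟨h2, h3, h4, h5⟩ := commTerms_spec (e1 ▸ List.mem_cons_of_mem _ hd)
    refine x_mem_gen (c := ⟨d.1, h2⟩) ?_ _
    refine ⟨pos_of_comb hb hr (by omega) (by omega) h5, ?_⟩
    rw [ht_of_eq h5, ht_of_add e]
    have := hl d hd
    nlinarith [pos_iff_ht.1 hr, pos_iff_ht.1 hb]
  have h3 := conj_Uc h (Uh_le h _ (x_mem_Uh hr t)) (comm_mem_Uc h hb (c := c) (fun d hd => ⟨hd.1,
    by rw [ht_of_add e]; have := hd.2.2; omega,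
    fun e' => hd.2.1 (rt_inj (add_right_cancel (e'.symm.trans e)))⟩) h1 a)
  have := ((cf_zero h).2 h3).mul h hc h2
  rw [zero_add] at this
  convert this using 1
  simp only [commutatorElement_def]; group

theorem Cf.comm_mul {c : Rt D} (hc : Pos c) {g y z : G} {t u : F} (hy : y ∈ h.rgd.U)
    (e1 : Cf x c ⁅g, y⁆ t) (e2 : Cf x c ⁅g, z⁆ u) : Cf x c ⁅g, y * z⁆ (t + u) := by
  convert e1.mul h hc (e2.conj h hc hy (one_mem _) (a := u) (by simp)) using 1
  simp only [commutatorElement_def]; group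

end H63
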