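import Cfsg.Agent.H63.Ov8
import Cfsg.Agent.H63.Tw1

/-! Overgroups of the subfield subgroup of a twisted group of type `²E₆` or `³D₄`. -/

set_option autoImplicit false
set_option linter.unusedSectionVars false

namespace H63

open Cfsg.Lie H64
open scoped commutatorElement

variable {D : ChevalleyDatum} [RS D] {F : Type*} [Field F] {G : Type*} [Group G] {x : ℕ → F → G}

/-- The product of the two or three transforms of an element. -/
def zz (s : G →* G) : Bool → G → G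
  | false, g => g * s g
  | true, g => g * s g * s (s g)

theorem map_zz {s φ : G →* G} (e : ∀ g, φ (s g) = s (φ g)) (b : Bool) (g : G) :
    φ (zz s b g) = zz s b (φ g) := by cases b <;> simp [zz, e]

theorem conj_zz {s : G →* G} {m : G} (e : s m = m) (b : Bool) (g : G) :
    m * zz s b g * m⁻¹ = zz s b (m * g * m⁻¹) :=
  map_zz (φ := (MulAut.conj m).toMonoidHom) (fun g => by simp [e]) b g

variable (D) in
/-- The facts about a diagram symmetry of order two or three; `α` is a highest moved root. -/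
structure Gd (γ : Equiv.Perm (Rt D)) (π : Equiv.Perm (Fin D.rank)) (ε : Rt D → ℤ) (b : Bool)
    (α : Rt D) : Prop where
  rt_γ : ∀ r i, rt (γ r) (π i) = rt r i
  sref_γ : ∀ i r, γ (sref i r) = sref (π i) (γ r)
  neg : ∀ r, γ (negR r) = negR (γ r) ∧ ε (negR r) = ε r
  sim : ∀ i, γ (simpleR i) = simpleR (π i) ∧ ε (simpleR i) = 1
  sq : ∀ r, ε r * ε r = 1 ∧ (γ r = r → ε r = 1)
  ord : ∀ r, cond b (γ (γ (γ r))) (γ (γ r)) = r ∧
    cond b (ε (γ (γ r)) * (ε (γ r) * ε r)) (ε (γ r) * ε r) = 1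
  orth : ∀ r, γ r ≠ r → γ r ≠ negR r ∧ D.chainEntry r (γ r) = [] ∧
    D.chainEntry (negR r : Rt D) (γ r) = []
  srf : ∀ i, π i ≠ i → sref i (simpleR (π i)) = simpleR (π i) ∧ sref (π i) (simpleR i) = simpleR i
  pos : Pos α ∧ γ α ≠ α
  top : ∀ r, ht α ≤ ht r → r = α ∨ r = γ α ∨ r = γ (γ α) ∨ γ r = r ∧ ht α < ht r
  good : ∀ r, Pos r → γ r ≠ r → ht r < ht α → ∃ (i : Fin D.rank) (c : Rt D),
    D.chainRoot (D.simple i) r 1 = some c ∧ (D.chainM (D.simple i) r 1).natAbs = 1 ∧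
    (π i = i ∨ π i ≠ i ∧ D.chainEntry (D.neg (D.simple (π i))) c = [] ∧ (b = true →
      D.chainRoot (D.simple (π (π i))) (γ r) 1 = some c ∧
      D.chainM (D.simple (π (π i))) (γ r) 1 * ε r = D.chainM (D.simple i) r 1))
  tor : ∃ β, γ β = β ∧ D.pairing β α = 1

/-- `φ` is a field automorphism and `s` is its product with the graph automorphism. -/
structure Tf (h : Ad D x) (φ s : G →* G) (σ : F →+* F) (γ : Equiv.Perm (Rt D))
    (π : Equiv.Perm (Fin D.rank)) (ε : Rt D → ℤ) (b : Bool) (α : Rt D) : Prop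
    extends Gd D γ π ε b α where
  map : ∀ (r : Rt D) t, φ (x r t) = x r (σ t)
  maps : ∀ (r : Rt D) t, s (x r t) = x (γ r) (ε r * σ t)
  ordσ : ∀ t, cond b (σ (σ (σ t))) (σ (σ t)) = t

namespace Tf

variable {h : Ad D x} {φ s : G →* G} {σ : F →+* F} {γ : Equiv.Perm (Rt D)}
  {π : Equiv.Perm (Fin D.rank)} {ε : Rt D → ℤ} {b : Bool} {α : Rt D} (c : Tf h φ s σ γ π ε b α)
include c

theorem ε_sq (r : Rt D) : (ε r : F) * ε r = 1 := by exact_mod_cast congrArg (Int.cast (R := F)) (c.sq r).1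

theorem s_nn (r : Rt D) (t : F) : s (nn D x r t) = nn D x (γ r) (ε r * σ t) := by
  rw [nn_eq, nn_eq, map_mul, map_mul, c.maps, ← negR_val, c.maps, (c.neg r).1, (c.neg r).2,
    mul_inv, inv_eq_of_mul_eq_one_right (c.ε_sq r), map_neg, map_inv₀, mul_neg, negR_val]

theorem ts : Tws D x s γ π := by
  refine ⟨c.rt_γ, c.sref_γ, fun r t => ⟨_, c.maps r t⟩,
    fun g hg => (Subgroup.closure_le ((HH D x).comap s)).2 ?_ hg, fun i => ?_⟩
  · rintro _ ⟨r, t, ht, rfl⟩
    have := left_ne_zero_of_mul_eq_one (c.ε_sq r)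
    rw [SetLike.mem_coe, Subgroup.mem_comap, hh_eq, map_mul, c.s_nn, c.s_nn]
    exact h.toSt.nn_mul_nn_mem _ (by simp [*]) (by simp [*])
  · simpa [c.sim] using c.s_nn (simpleR i) 1

theorem s_ord (g : G) : cond b (s (s (s g))) (s (s g)) = g := by
  have h1 := c.ord
  have h2 := c.ordσ
  cases b
  · refine hom_ext_GG (φ := s.comp s) (ψ := .id G) (fun r t => ?_) (h.top ▸ Subgroup.mem_top g)
    have := congrArg (Int.cast (R := F)) (h1 r).2
    push_cast [cond] at this h1 h2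
    simp [c.maps, ← mul_assoc, this, h2, (h1 r).1]
  · refine hom_ext_GG (φ := s.comp (s.comp s)) (ψ := .id G) (fun r t => ?_)
      (h.top ▸ Subgroup.mem_top g)
    have := congrArg (Int.cast (R := F)) (h1 r).2
    push_cast [cond, ← mul_assoc] at this h1 h2
    simp [c.maps, ← mul_assoc, this, h2, (h1 r).1]

theorem φ_s (g : G) : φ (s g) = s (φ g) :=
  hom_ext_GG (φ := φ.comp s) (ψ := s.comp φ) (fun r t => by simp [c.map, c.maps])
    (h.top ▸ Subgroup.mem_top g)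

theorem s_eq_φ {g : G} (hg : g ∈ gen (XR D x) {r | γ r = r}) : s g = φ g :=
  gen_le (K := s.eqLocus φ) (fun r hr y hy => by
    obtain ⟨t, rfl⟩ := h.toSt.mem_XR.1 hy
    change s _ = φ _
    rw [c.maps, c.map, (c.sq r).2 hr, show γ r = r from hr, Int.cast_one, one_mul]) hg

theorem comm_pm {r : Rt D} (hr : γ r ≠ r) {g g' : G} (hg : g ∈ gen (XR D x) {r, negR r})
    (hg' : g' ∈ gen (XR D x) {r, negR r}) : Commute g (s g') := by
  have hn : γ (negR r) ≠ negR r := by rwa [(c.neg r).1, Ne, negR_eq_iff, negR_negR]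
  have key : ∀ a, γ a ≠ a → ∀ t u, Commute (x (γ a) u) (x a t) ∧
      Commute (x (γ a) u) (x (negR a : Rt D) t) := fun a ha t u =>
    ⟨h.toSt.commute_of_not_add ha (c.orth a ha).1 (chainEntry_eq_nil_iff.1 (c.orth a ha).2.1) t u,
      h.toSt.commute_of_not_add (c.orth a ha).1 (by rwa [negR_negR])
        (chainEntry_eq_nil_iff.1 (c.orth a ha).2.2) t u⟩
  refine commutatorElement_eq_one_iff_commute.1 (Subgroup.mem_bot.1 (comm_mem_of_gen (U := ⊤)
    (T := {γ r, γ (negR r)}) (by simp) le_top le_top (fun a ha a' ha' y hy z hz => ?_) hg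
    (c.ts.map_gen h.toSt (by rintro _ (rfl | rfl) <;> simp) hg')))
  obtain ⟨t, rfl⟩ := h.toSt.mem_XR.1 hy
  obtain ⟨u, rfl⟩ := h.toSt.mem_XR.1 hz
  refine Subgroup.mem_bot.2 (commutatorElement_eq_one_iff_commute.2 (Commute.symm ?_))
  rcases ha with rfl | rfl <;> rcases ha' with rfl | rfl
  exacts [(key _ hr t u).1, by simpa using (key _ hn t u).2, (key _ hr t u).2, (key _ hn t u).1]

theorem zz_fix {r : Rt D} (hr : γ r ≠ r) {g : G} (hg : g ∈ gen (XR D x) {r, negR r}) :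
    s (zz s b g) = zz s b g := by
  have h1 := c.comm_pm hr hg hg
  have h2 := c.s_ord g
  cases b <;> simp only [zz, map_mul, cond] at h2 ⊢ <;> rw [h2]
  · exact h1.eq.symm
  · have h3 := (h1.map s).map s
    rw [h2] at h3
    rw [mul_assoc, h3.eq, ← mul_assoc, ← h1.eq]

theorem zz_mul {r : Rt D} (hr : γ r ≠ r) {g g' : G} (hg : g ∈ gen (XR D x) {r, negR r})
    (hg' : g' ∈ gen (XR D x) {r, negR r}) : zz s b (g * g') = zz s b g * zz s b g' := by
  have h1 := c.comm_pm hr hg' hg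
  have h2 := c.s_ord g'
  cases b <;> simp only [zz, map_mul, cond] at h2 ⊢
  · rw [h1.mul_mul_mul_comm]
  · have h3 := ((c.comm_pm hr hg hg').map s).map s
    rw [h2] at h3
    rw [h1.mul_mul_mul_comm, (h3.symm.mul_left (h1.map s)).mul_mul_mul_comm]

theorem zz_mem {r : Rt D} (hr : γ r ≠ r) (t : F) :
    (x r t)⁻¹ * zz s b (x r t) ∈ gen (XR D x) {a | a ≠ r ∧ (a = γ r ∨ a = γ (γ r))} := by
  have h1 := (c.ord r).1
  cases b <;> simp only [zz, mul_assoc, inv_mul_cancel_left, c.maps]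
  · exact x_mem_gen (by exact ⟨hr, .inl rfl⟩) _
  · exact mul_mem (x_mem_gen (by exact ⟨hr, .inl rfl⟩) _)
      (x_mem_gen (by exact ⟨fun e => hr (by simpa [e] using h1), .inr rfl⟩) _)

theorem exists_y (r : Rt D) {t : F} (ht : σ t = t) : ∃ m, s m = m ∧ φ m = m ∧
    (x r t)⁻¹ * m ∈ gen (XR D x) {a | a ≠ r ∧ (a = γ r ∨ a = γ (γ r))} := by
  by_cases e : γ r = r
  · exact ⟨x r t, by rw [c.s_eq_φ (x_mem_gen (c := r) (by exact e) t), c.map, ht], by rw [c.map, ht], by simp⟩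
  · exact ⟨_, c.zz_fix e (x_mem_pm r t), by rw [map_zz c.φ_s, c.map, ht], c.zz_mem e t⟩

theorem cf_of {r : Rt D} (hr : Pos r) {t : F} {m : G}
    (e : (x r t)⁻¹ * m ∈ gen (XR D x) {a | a ≠ r ∧ (a = γ r ∨ a = γ (γ r))}) : Cf x r m t := by
  refine gen_mono _ ?_ e
  rintro a ⟨h1, rfl | rfl⟩ <;> exact ⟨by simpa only [c.ts.pos_γ], h1, by simp only [c.ts.ht_γ, le_rfl]⟩

theorem exists_n (w : (H64.wdata D).W) (hw : ∀ r, w.1 (γ r) = γ (w.1 r)) :
    ∃ m, s m = m ∧ φ m = m ∧ m ∈ h.rgd.N ∧ Sgn D x m w.1 := by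
  induction hn : (H64.wdata D).len w using Nat.strong_induction_on generalizing w with | _ n ih =>
  by_cases h0 : ∀ i, Pos (w.1 (simpleR i))
  · obtain rfl : w = 1 := WData.eq_one_of_pos _ h0
    exact ⟨1, map_one _, map_one _, one_mem _, Sgn.one⟩
  obtain ⟨i, hi⟩ := not_forall.1 h0
  have hp : ∀ i, ¬ Pos (w.1 (simpleR i)) → ¬ Pos (w.1 (simpleR (π i))) := fun i => by
    rw [← (c.sim i).1, hw, c.ts.pos_γ]; exact id
  obtain ⟨l, h1, h2⟩ : ∃ l, s (h.rgd.nw l) = h.rgd.nw l ∧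
      (H64.wdata D).len (w * H67.wp (H64.wdata D).sW l) < n := by
    have l1 := (H64.wdata D).len_mul_s_of_neg hi
    by_cases e : π i = i
    · exact ⟨[i], by simp [c.ts.mapn, e], by simp; omega⟩
    have h1 := c.zz_fix (r := simpleR i) (by rw [(c.sim i).1]; exact simpleR_injective.ne e)
      (nn_mem_pm _ 1)
    have l2 := (H64.wdata D).len_mul_s_of_neg (w := w * (H64.wdata D).sW i) (i := π i) (by
      have := hp i hi
      rwa [← (c.srf i e).1] at this)
    have h3 := (c.ord (simpleR i)).1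
    cases b
    · exact ⟨[i, π i], by simpa [zz, c.ts.mapn] using h1, by simp [← mul_assoc]; omega⟩
    have l3 := (H64.wdata D).len_mul_s_of_neg (w := w * (H64.wdata D).sW i * (H64.wdata D).sW (π i))
      (i := π (π i)) (by
        have := hp _ (hp i hi)
        simp only [cond, (c.sim _).1, simpleR_injective.eq_iff] at h3
        have h4 := (c.srf _ (π.injective.ne (π.injective.ne e))).2
        rw [h3] at h4
        rwa [← h4, ← (c.srf _ (π.injective.ne e)).1] at this)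
    exact ⟨[i, π i, π (π i)], by simpa [zz, c.ts.mapn, mul_assoc] using h1,
      by simp [← mul_assoc]; omega⟩
  obtain ⟨-, v, h3, h4⟩ := c.ts.map_N h.toStB (h.rgd.nw_mem_N l) (h.rgd.act_nw l)
  rw [h1] at h3
  obtain rfl := h3.unique (h.rgd.act_nw l)
  obtain ⟨m, h5, h6, h7, h8⟩ := ih _ h2 _ (fun r => by simp only [WData.mul_apply, h4, hw]) rfl
  refine ⟨m * (h.rgd.nw l)⁻¹, by simp [h5, h1], by simp [h6, fld_nw c.map h.toStB l],
    mul_mem h7 (inv_mem (h.rgd.nw_mem_N l)), ?_⟩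
  have := h8.mul (h.toStN.sgn_word l).inv
  rwa [Subgroup.coe_mul, mul_inv_cancel_right] at this

theorem cf_γ {r : Rt D} {g : G} {t : F} (e : s g = g) (h1 : Cf x r g t) :
    Cf x (γ r) g (ε r * σ t) := e ▸ c.ts.cf h.toSt (c.maps r t) h1

theorem mem_γ {r : Rt D} {g : G} (e : s g = g) (h1 : g ∈ Uc D x r) : g ∈ Uc D x (γ r) :=
  (cf_zero h.toStB).1 (by simpa using c.cf_γ e ((cf_zero h.toStB).2 h1))

theorem fix_of_φ {r : Rt D} (hr : Pos r) {g : G} {t : F} (e : φ g = g) (h1 : Cf x r g t) :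
    σ t = t :=
  Cf.unique h.toStB hr (e ▸ (tws_fld c.map).cf h.toSt (c.map r t) h1) h1

theorem fix_top {g : G} (hg : g ∈ Uh D x (ht α + 1)) (e : s g = g) : φ g = g := by
  rw [← c.s_eq_φ (gen_mono _ (fun r hr => ?_) hg), e]
  have h1 := hr.2
  rcases c.top r (by omega) with rfl | rfl | rfl | h2
  · omega
  · rw [c.ts.ht_γ] at h1; omega
  · rw [c.ts.ht_γ, c.ts.ht_γ] at h1; omega
  · exact h2.1

variable {H : Subgroup G} (hs : ∀ g ∈ H, s g = g) (hm : ∀ g, s g = g → φ g = g → g ∈ H)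
include hs hm

theorem coef_top (hz : ∀ t, zz s b (x α t) ∈ H → σ t = t) {g : G} (hg : g ∈ H) {t : F}
    (h1 : Cf x α g t) : σ t = t := by
  have h2 := c.cf_of c.pos.1 (c.zz_mem c.pos.2 t)
  have h3 := (h2.inv h.toStB c.pos.1).mul h.toStB c.pos.1 h1
  have e : s ((zz s b (x α t))⁻¹ * g) = (zz s b (x α t))⁻¹ * g := by
    rw [map_mul, map_inv, c.zz_fix c.pos.2 (x_mem_pm α t), hs g hg]
  rw [neg_add_cancel, cf_zero h.toStB] at h3
  refine hz t ?_
  suffices h4 : _ from by simpa using mul_mem hg (inv_mem (hm _ e (c.fix_top h4 e)))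
  refine mem_Uh_succ h.toStB (Uc_le α h3) fun a _ ha => ?_
  rcases c.top a ha.ge with rfl | rfl | rfl | h4
  exacts [h3, c.mem_γ e h3, c.mem_γ e (c.mem_γ e h3), absurd h4.2 ha.le.not_gt]

theorem coef_low {r : Rt D} (hr : Pos r) (h0 : γ r ≠ r) (hα : ht r < ht α)
    (ih : ∀ y ∈ H, y ∈ Uh D x (ht r + 1) → φ y = y) {g : G} (hg : g ∈ H) {t : F}
    (h1 : Cf x r g t) : σ t = t := by
  obtain ⟨i, d, h2, h3, h4⟩ := c.good r hr h0 hα
  have e := (chainRoot_one_iff (r := simpleR i)).1 h2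
  have hd := pos_of_add e hr (pos_simpleR i)
  have hN : (D.chainM (D.simple i) r 1 : F) ≠ 0 := cast_ne_of_natAbs h3 (by simp)
  have key : ∀ m u, s m = m → φ m = m → Cf x d ⁅g, m⁆ u → σ u = u := fun m u e1 e2 h5 => by
    have h6 := hm m e1 e2
    refine c.fix_of_φ hd (ih _ (mul_mem (mul_mem (mul_mem hg h6) (inv_mem hg)) (inv_mem h6)) ?_) h5
    have := h5.mem hd
    rwa [ht_of_add e, ht_simpleR] at this
  have h5 := h1.comm h.toStB hr (pos_simpleR i) e 1
  have sx : ∀ j, s (x (simpleR j : Rt D) 1) = x (simpleR (π j) : Rt D) 1 := fun j => by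
    simp only [c.maps, c.sim, Int.cast_one, map_one, mul_one]
  rcases h4 with h4 | ⟨h4, h6, h7⟩
  · simpa [hN] using key _ _ (by rw [sx, h4]) (by rw [c.map, map_one]) h5
  have h8 := fun u => key (zz s b (x (simpleR i : Rt D) 1)) u (c.zz_fix (by
    rw [(c.sim i).1]; exact simpleR_injective.ne h4) (x_mem_pm _ 1))
    (by rw [map_zz c.φ_s, c.map, map_one])
  have xU := fun j => h.rgd.X_le_U (pos_simpleR j) (x_mem_XR D x (simpleR j) 1)
  have h9 := h5.comm_mul h.toStB hd (xU i) (cf_comm_zero h.toStB (pos_simpleR (π i)) (c := d)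
    (by simp [ht_of_add e]) (fun a e' => chainEntry_eq_nil_iff (r := negR (simpleR (π i))).1 h6 a
      (by rw [e', rt_negR, add_neg_cancel_right])) (h1.mem hr) 1)
  have h10 := c.ordσ t
  cases b <;> simp only [zz, sx] at h8
  · simpa [hN] using h8 _ h9
  obtain ⟨h7, h11⟩ := h7 rfl
  have h12 := h8 _ (h9.comm_mul h.toStB hd (mul_mem (xU _) (xU _)) ((c.cf_γ (hs g hg) h1).comm h.toStB
    (c.ts.pos_γ.2 hr) (pos_simpleR _) ((chainRoot_one_iff (r := simpleR _)).1 h7) 1))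
  rw [mul_one, mul_one, ← mul_assoc, ← Int.cast_mul, simpleR_val, simpleR_val, h11] at h12
  simp only [map_add, map_neg, map_mul, map_intCast, add_zero] at h12
  rw [← show σ (σ t) = t from mul_left_cancel₀ hN (by linear_combination -h12)]
  exact h10.trans (mul_left_cancel₀ hN (by linear_combination h12))

variable (hz : ∀ t, zz s b (x α t) ∈ H → σ t = t)
include hz

theorem coef {r : Rt D} (hr : Pos r) (ih : ∀ y ∈ H, y ∈ Uh D x (ht r + 1) → φ y = y) {g : G}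
    (hg : g ∈ H) {t : F} (h1 : Cf x r g t) : σ t = t := by
  by_cases h0 : γ r = r
  · have := c.cf_γ (hs g hg) h1
    rw [h0, (c.sq r).2 h0, Int.cast_one, one_mul] at this
    exact this.unique h.toStB hr h1
  by_cases hα : ht r < ht α
  · exact c.coef_low hs hm hr h0 hα ih hg h1
  have h2 := h1.mem hr
  rcases c.top r (not_lt.1 hα) with rfl | rfl | rfl | h3
  · exact c.coef_top hs hm hz hg h1
  · obtain ⟨u, hu⟩ := exists_cf h.toStB c.pos.1 (c.ts.ht_γ α ▸ h2)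
    simp [h1.unique h.toStB hr (c.cf_γ (hs g hg) hu), c.coef_top hs hm hz hg hu]
  · obtain ⟨u, hu⟩ := exists_cf h.toStB c.pos.1 (c.ts.ht_γ α ▸ c.ts.ht_γ (γ α) ▸ h2)
    simp [h1.unique h.toStB hr (c.cf_γ (hs g hg) (c.cf_γ (hs g hg) hu)),
      c.coef_top hs hm hz hg hu]
  · exact absurd h3.1 h0

theorem step {k : ℤ} (ih : ∀ y ∈ H, y ∈ Uh D x (k + 1) → φ y = y) {g : G} (hg : g ∈ H)
    (h1 : g ∈ Uh D x k) : φ g = g := by
  induction hn : {a | Pos a ∧ ht a = k ∧ g ∉ Uc D x a}.ncard using Nat.strong_induction_on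
    generalizing g with | _ n ih' =>
  by_cases h0 : ∀ a, Pos a → ht a = k → g ∈ Uc D x a
  · exact ih g hg (mem_Uh_succ h.toStB h1 h0)
  push Not at h0
  obtain ⟨r, hr, rfl, h2⟩ := h0
  obtain ⟨t, h3⟩ := exists_cf h.toStB hr h1
  obtain ⟨m, e1, e2, h4⟩ := c.exists_y r (c.coef hs hm hz hr ih hg h3)
  have h5 := ((c.cf_of hr h4).inv h.toStB hr).mul h.toStB hr h3
  rw [neg_add_cancel, cf_zero h.toStB] at h5
  have hg' := mul_mem (inv_mem (hm m e1 e2)) hg
  have h6 := c.mem_γ (hs _ hg') h5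
  have h7 : {a | Pos a ∧ ht a = ht r ∧ m⁻¹ * g ∉ Uc D x a}.ncard < n := by
    refine hn ▸ Set.ncard_lt_ncard ⟨fun a ha => ⟨ha.1, ha.2.1, fun e => ha.2.2 ?_⟩,
      fun e => (e ⟨hr, rfl, h2⟩).2.2 h5⟩
    by_contra h7
    refine h7 (mul_mem (inv_mem ?_) e)
    rw [← mul_inv_cancel_left (x r t) m]
    refine mul_mem (x_mem_gen ?_ t) (gen_mono _ ?_ h4)
    · exact ⟨hr, fun e => h7 (e ▸ h5), ha.2.1.le⟩
    · rintro _ ⟨-, rfl | rfl⟩
      · exact ⟨c.ts.pos_γ.2 hr, fun e => h7 (e ▸ h6), by rw [c.ts.ht_γ]; exact ha.2.1.le⟩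
      · exact ⟨c.ts.pos_γ.2 (c.ts.pos_γ.2 hr), fun e => h7 (e ▸ c.mem_γ (hs _ hg') h6),
          by rw [c.ts.ht_γ, c.ts.ht_γ]; exact ha.2.1.le⟩
  have := ih' _ h7 hg' (Uc_le r h5) rfl
  rwa [map_mul, map_inv, e2, mul_right_inj] at this

theorem fixU {g : G} (hg : g ∈ H) (hu : g ∈ h.rgd.U) : φ g = g := by
  refine Int.leInductionDown (motive := fun k _ => ∀ y ∈ H, y ∈ Uh D x k → φ y = y) (m := ht α + 1)
    (fun y hy e => c.fix_top e (hs y hy))
    (fun k _ ih _ hy => c.step hs hm hz (by rwa [sub_add_cancel]) hy) 0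
    (by have := pos_iff_ht.1 c.pos.1; omega) g hg (gen_mono _ (fun r hr => ?_) hu)
  exact ⟨hr, (pos_iff_ht.1 hr).le⟩

theorem fixB {g : G} (hg : g ∈ H) (hb : g ∈ h.rgd.B) : φ g = g := by
  obtain ⟨u, hu, k, hk, rfl⟩ := h.rgd.mem_B.1 hb
  have e1 : φ k = k := by
    refine (inv_mul_eq_one.1 (h.faithful _ (mul_mem (inv_mem hk) (fld_HH c.map hk)) fun i => ?_)).symm
    obtain ⟨a, -, e⟩ := h.toStN.HH_conj hk (simpleR i)
    obtain ⟨m, e1, e2, h1⟩ := c.exists_y (simpleR i) (map_one σ)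
    have h2 := (c.cf_of (pos_simpleR i) h1).conj h.toStB (pos_simpleR i) hu hk (e 1).1
    have h3 := congrArg φ (e 1).1
    rw [c.map, c.fix_of_φ (pos_simpleR i) (c.fixU hs hm hz (mul_mem (mul_mem hg (hm m e1 e2))
      (inv_mem hg)) (Uh_le h.toStB _ (h2.mem (pos_simpleR i)))) h2, ← (e 1).1, map_mul, map_mul,
      map_inv, c.map, map_one] at h3
    rw [← simpleR_val, mul_assoc, mul_inv_eq_iff_eq_mul.1 h3]; group
  have e2 : s k = k := by
    have e := hs _ hg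
    have : u⁻¹ * s u = k * (s k)⁻¹ := by
      rw [inv_mul_eq_iff_eq_mul, ← mul_assoc, ← e, map_mul, mul_inv_cancel_right]
    exact (mul_inv_eq_one.1 (this ▸ h.rgd.eq_one_of_mem_U_H (mul_mem (inv_mem hu)
      (c.ts.map_gen h.toSt (fun _ => c.ts.pos_γ.2) hu))
      (this ▸ mul_mem hk (inv_mem (c.ts.mapH k hk))))).symm
  rw [map_mul, e1, c.fixU hs hm hz (by simpa using mul_mem hg (inv_mem (hm k e2 e1))) hu]

theorem ov [Finite H] : Ov h H φ s γ π where
  fin := inferInstance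
  tφ := tws_fld c.map
  ts := c.ts
  fixs := hs
  hU u _ := hm u
  hN w hw := (c.exists_n w hw).imp fun m e =>
    ⟨hm m e.1 e.2.1, e.2.2.1, e.2.1, h.act_of_sgn e.2.2.2⟩
  hY r _ := by
    by_cases e : γ r = r
    · exact ⟨[r], by simp, by simp, by simpa using ⟨0, rfl⟩, fun _ => 1, one_ne_zero, by
        simpa using hm _ (by rw [c.maps, e, (c.sq r).2 e]; simp) (by rw [c.map, map_one])⟩
    have h1 := hm _ (c.zz_fix e (x_mem_pm r 1)) (by rw [map_zz c.φ_s, c.map, map_one])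
    have h2 := (c.ord r).1
    cases b
    · exact ⟨[r, γ r], by simpa using Ne.symm e, by simp, by simpa using ⟨⟨0, rfl⟩, 1, rfl⟩,
        fun a => if a = r then 1 else ε r, by simp, by simpa [zz, c.maps, e] using h1⟩
    have h3 : γ (γ r) ≠ r := fun e' => e (by simpa [e'] using h2)
    exact ⟨[r, γ r, γ (γ r)], by simpa using ⟨⟨Ne.symm e, h3.symm⟩, Ne.symm e⟩, by simp,
      by simpa using ⟨⟨0, rfl⟩, ⟨1, rfl⟩, 2, rfl⟩,
      fun a => if a = r then 1 else if a = γ r then ε r else ε (γ r) * ε r, by simp,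
      by simpa [zz, c.maps, e, h3, mul_assoc] using h1⟩
  hB _ := c.fixB hs hm hz

end Tf

end H63
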