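import Cfsg.Agent.H0.SimSpec
import Cfsg.Agent.H59.UField

/-! # S3694 (tower SIM): chapter D0 from the two invariant subspaces. -/

set_option autoImplicit false

namespace H63.SimD0

open Subgroup Cfsg H98 Matrix H0.Sim

/-- The part of `D1` that is used. -/
def D1 (u : Bool) : Prop := ∀ (n : ℕ) (F : Type) [Field F] [Fintype F] (q : ℕ) (Θ : Set (Jm n F))
  (H Q E : Subgroup (GL (Fin n) F)), Cf0 u q (ringChar F) Θ H Q E →
  ∃ W₁ W₂ : Submodule F (Fin n → F), W₁ ≠ ⊥ ∧ W₁ ≤ W₂ ∧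
    (u = true → ∀ x ∈ W₂, ∀ w ∈ W₁, hermForm n F q x w = 0) ∧
    ∀ s ∈ Sg n F u q, (∀ x ∈ W₁, (s : Mt n F) *ᵥ x ∈ W₁) → (∀ x ∈ W₂, (s : Mt n F) *ᵥ x ∈ W₂) →
      s ∈ H

variable {n : ℕ} {F : Type} [Field F]

theorem vv (a b x : Fin n → F) : vecMulVec a b *ᵥ x = (b ⬝ᵥ x) • a := by
  rw [vecMulVec_mulVec]; ext i; simp [mul_comm]

theorem uni {N : Mt n F} (h : ∀ x, N *ᵥ (N *ᵥ (N *ᵥ x)) = 0) :
    ∃ s : GL (Fin n) F, (s : Mt n F) = 1 + N ∧ Matrix.GeneralLinearGroup.det s = 1 := by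
  have hN : IsNilpotent N := ⟨3, by
    refine Matrix.toLin'.injective (LinearMap.ext fun x => ?_)
    simp only [toLin'_apply, pow_three, ← mulVec_mulVec, h, zero_mulVec]⟩
  have hd : (1 + N).det = 1 := by
    have h1 := sub_eq_zero.1 (isNilpotent_charpoly_sub_pow_of_isNilpotent hN.neg).eq_zero
    have h2 := eval_charpoly (-N) 1
    rw [h1] at h2
    simpa using h2.symm
  obtain ⟨s, hs⟩ := hN.isUnit_one_add
  exact ⟨s, hs, Units.ext (by rw [Matrix.GeneralLinearGroup.val_det_apply, hs, hd]; rfl)⟩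

theorem ex_perp (w : Fin n → F) (U : Submodule F (Fin n → F)) (h : Module.finrank F U + 1 < n) :
    ∃ φ, φ ⬝ᵥ w = 0 ∧ φ ∉ U := by
  let f : (Fin n → F) →ₗ[F] F :=
    { toFun := fun φ => φ ⬝ᵥ w
      map_add' := fun a b => add_dotProduct a b w
      map_smul' := fun c a => smul_dotProduct c a w }
  by_contra hc
  push Not at hc
  have h1 : Module.finrank F (LinearMap.ker f) ≤ Module.finrank F U :=
    Submodule.finrank_mono fun φ hφ => hc φ hφ
  have h2 := f.finrank_range_add_finrank_ker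
  have h3 : Module.finrank F (LinearMap.range f) ≤ 1 :=
    (Submodule.finrank_le _).trans (Module.finrank_self F).le
  rw [Module.finrank_fin_fun] at h2
  omega

theorem ex_perp1 (h : 3 ≤ n) (w ψ : Fin n → F) : ∃ φ, φ ⬝ᵥ w = 0 ∧ ∀ c : F, c • ψ ≠ φ := by
  have h1 : Module.finrank F (Submodule.span F {ψ}) ≤ 1 := by
    simpa using finrank_span_le_card (R := F) ({ψ} : Set (Fin n → F))
  obtain ⟨φ, h2, h3⟩ := ex_perp w (Submodule.span F {ψ}) (by omega)
  exact ⟨φ, h2, fun c e => h3 (Submodule.mem_span_singleton.2 ⟨c, e⟩)⟩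

theorem ex_dot {φ : Fin n → F} (h : φ ≠ 0) : ∃ x, φ ⬝ᵥ x ≠ 0 := by
  by_contra hc
  push Not at hc
  exact h (dotProduct_eq_zero_iff.1 hc)

theorem zscal {u : Bool} {q : ℕ} {z : GL (Fin n) F} (hz : z ∈ Zg n F u q) (s : GL (Fin n) F) :
    ∃ ζ : F, ((z * s : GL (Fin n) F) : Mt n F) = ζ • (s : Mt n F) := by
  obtain ⟨ζ, h⟩ := Matrix.GeneralLinearGroup.mem_center_iff_val_mem_range_scalar.1 hz.2
  exact ⟨ζ, by rw [Units.val_mul, ← h, scalar_apply, ← smul_eq_diagonal_mul]⟩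

/-- The semilinear map. -/
def tau (j : Jm n F) (x : Fin n → F) : Fin n → F := (j.c : Mt n F) *ᵥ (j.σ ∘ x)

theorem tau_add (j : Jm n F) (x y : Fin n → F) : tau j (x + y) = tau j x + tau j y := by
  rw [tau, tau, tau, ← mulVec_add]; congr 1; ext i; simp

theorem tau_sub (j : Jm n F) (x y : Fin n → F) : tau j (x - y) = tau j x - tau j y := by
  rw [tau, tau, tau, ← mulVec_sub]; congr 1; ext i; simp

theorem tau_smul (j : Jm n F) (l : F) (x : Fin n → F) : tau j (l • x) = j.σ l • tau j x := by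
  rw [tau, tau, ← mulVec_smul]; congr 1; ext i; simp

theorem tau_zero (j : Jm n F) : tau j 0 = 0 := by
  simpa using tau_smul j 0 0

theorem tau_surj (j : Jm n F) (y : Fin n → F) : ∃ x, tau j x = y := by
  refine ⟨j.σ.symm ∘ (((j.c⁻¹ : GL (Fin n) F) : Mt n F) *ᵥ y), ?_⟩
  have : (j.σ ∘ j.σ.symm ∘ (((j.c⁻¹ : GL (Fin n) F) : Mt n F) *ᵥ y)) =
      ((j.c⁻¹ : GL (Fin n) F) : Mt n F) *ᵥ y := by ext i; simp
  rw [tau, this, mulVec_mulVec, ← Units.val_mul, mul_inv_cancel, Units.val_one, one_mulVec]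

theorem th_tau {j : Jm n F} (ha : j.a = false) (m : Mt n F) (x : Fin n → F) :
    th j m *ᵥ tau j x = tau j (m *ᵥ x) := by
  have e : m.map j.σ *ᵥ (j.σ ∘ x) = j.σ ∘ (m *ᵥ x) := by
    ext i; exact (RingHom.map_mulVec (j.σ : F →+* F) m x i).symm
  rw [th, ha, tau, tau, mulVec_mulVec, mul_assoc, ← Units.val_mul, inv_mul_cancel, Units.val_one,
    mul_one, ← mulVec_mulVec]
  simp only [Bool.false_eq_true, if_false, e]

/-- `τ` commutes with the unipotent elements of `H ⊓ S`. -/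
theorem comm {u : Bool} {q : ℕ} {H : Subgroup (GL (Fin n) F)} {j : Jm n F} (o : Out u q H j)
    (ha : j.a = false) {N : Mt n F} {s : GL (Fin n) F} (hs : (s : Mt n F) = 1 + N)
    (hH : s ∈ H ⊓ Sg n F u q) (h3 : ∀ x, N *ᵥ (N *ᵥ (N *ᵥ x)) = 0) {w : Fin n → F} (hw : w ≠ 0)
    (hNw : N *ᵥ w = 0) (x : Fin n → F) : tau j (N *ᵥ x) = N *ᵥ tau j x := by
  obtain ⟨z, hz, e⟩ := o.cen s hH
  obtain ⟨ζ, hζ⟩ := zscal hz s
  simp only [ha, Bool.false_eq_true, if_false] at e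
  have k : ∀ x, tau j (N *ᵥ x) = (ζ - 1) • tau j x + ζ • (N *ᵥ tau j x) := fun x => by
    have h1 := th_tau ha (s : Mt n F) x
    rw [e, hζ, hs, add_mulVec, one_mulVec, tau_add, smul_mulVec, add_mulVec, one_mulVec] at h1
    rw [← add_left_cancel_iff (a := tau j x), ← h1]; module
  obtain ⟨x₀, hx₀⟩ := tau_surj j w
  have k1 : tau j (N *ᵥ x₀) = (ζ - 1) • w := by rw [k, hx₀, hNw]; simp
  have k2 : tau j (N *ᵥ (N *ᵥ x₀)) = (ζ - 1) ^ 2 • w := by
    rw [k, k1, mulVec_smul, hNw]; module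
  have k3 : (0 : Fin n → F) = (ζ - 1) ^ 3 • w := by
    rw [← tau_zero j, ← h3 x₀, k, k2, mulVec_smul, hNw]; module
  have h1 : ζ = 1 := sub_eq_zero.1 (pow_eq_zero_iff (by norm_num) |>.1
    ((smul_eq_zero.1 k3.symm).resolve_right hw))
  rw [k, h1]; simp

theorem d0L (d1 : D1 false) : JobD0 false := by
  intro n F _ _ q Θ H Q E j c o
  obtain ⟨W₁, W₂, h1, h12, -, hR⟩ := d1 n F q Θ H Q E c
  obtain ⟨w, hw, w0⟩ := (Submodule.ne_bot_iff W₁).1 h1
  have n2 : ∀ φ, φ ⬝ᵥ w = 0 → ∀ x, vecMulVec w φ *ᵥ (vecMulVec w φ *ᵥ x) = 0 := fun φ h x => by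
    rw [vv, vv, dotProduct_smul, h]; simp
  have mem : ∀ φ, φ ⬝ᵥ w = 0 → ∃ s ∈ H ⊓ Sg n F false q, (s : Mt n F) = 1 + vecMulVec w φ := by
    intro φ h
    obtain ⟨s, hs, hd⟩ := uni (N := vecMulVec w φ) fun x => n2 φ h _
    have hS : s ∈ Sg n F false q := ⟨by simp [Gam], hd⟩
    refine ⟨s, ⟨hR s hS (fun x hx => ?_) fun x hx => ?_, hS⟩, hs⟩
    · rw [hs, add_mulVec, one_mulVec, vv]; exact W₁.add_mem hx (W₁.smul_mem _ hw)
    · rw [hs, add_mulVec, one_mulVec, vv]; exact W₂.add_mem hx (W₂.smul_mem _ (h12 hw))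
  cases ha : j.a with
  | false =>
    obtain ⟨φ, h, φ0⟩ := ex_perp w ⊥ (by have := c.par.two; simp; omega)
    obtain ⟨y, hy⟩ := ex_dot (φ := φ) φ0
    obtain ⟨x, rfl⟩ := tau_surj j y
    have k : ∀ l : F, (j.σ l * j.σ (φ ⬝ᵥ x)) • tau j w = (l * (φ ⬝ᵥ tau j x)) • w := fun l => by
      have h' : (l • φ) ⬝ᵥ w = 0 := by rw [smul_dotProduct, h, smul_zero]
      obtain ⟨s, hs, e⟩ := mem _ h'
      have := comm o ha e hs (fun x => n2 _ h' _) w0 (by rw [vv, h', zero_smul]) x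
      rwa [vv, vv, tau_smul, smul_dotProduct, smul_dotProduct, smul_eq_mul, smul_eq_mul,
        map_mul] at this
    refine (o.out.resolve_right (by simp [ha])) (RingEquiv.ext fun l => ?_)
    have k1 := k 1
    have k2 := k l
    rw [map_one, one_mul, one_mul] at k1
    rw [mul_smul, k1, smul_smul] at k2
    exact mul_right_cancel₀ hy (smul_left_injective F w0 k2)
  | true =>
    have n3 := (o.ok.2 ha).2
    obtain ⟨φ, h, hφ⟩ := ex_perp1 n3 w ((j.σ ∘ w) ᵥ* ((j.c⁻¹ : GL (Fin n) F) : Mt n F))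
    set ψ := (j.σ ∘ w) ᵥ* ((j.c⁻¹ : GL (Fin n) F) : Mt n F) with hψ
    obtain ⟨s, hs, e⟩ := mem φ h
    obtain ⟨z, hz, e1⟩ := o.cen s hs
    obtain ⟨ζ, hζ⟩ := zscal hz s⁻¹
    have e2 : ((s⁻¹ : GL (Fin n) F) : Mt n F) = 1 - vecMulVec w φ := by
      refine Units.inv_eq_of_mul_eq_one_right ?_
      rw [e, mul_sub, add_mul, add_mul, vecMulVec_mul_vecMulVec, h]; simp
    have e3 : th j (s : Mt n F) = 1 + vecMulVec (tau j φ) ψ := by
      have e4 : ((1 + vecMulVec w φ : Mt n F).map j.σ)ᵀ = 1 + vecMulVec (j.σ ∘ φ) (j.σ ∘ w) := by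
        ext a b
        simp [vecMulVec_apply, one_apply, apply_ite j.σ, mul_comm, eq_comm]
      rw [th, ha, e, if_pos rfl, e4, mul_add, add_mul, mul_one, ← Units.val_mul, mul_inv_cancel,
        mul_vecMulVec, vecMulVec_mul]
      rfl
    have e5 : ψ ⬝ᵥ tau j φ = 0 := by
      rw [hψ, tau, ← dotProduct_mulVec, mulVec_mulVec, ← Units.val_mul, inv_mul_cancel,
        Units.val_one, one_mulVec, dotProduct_comm]
      exact (RingHom.map_dotProduct (j.σ : F →+* F) φ w).symm.trans (by rw [h, map_zero])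
    simp only [ha, if_true] at e1
    rw [e3, hζ, e2] at e1
    have k1 : (ψ ⬝ᵥ w) • tau j φ = (ζ - 1) • w := by
      have := congrArg (· *ᵥ w) e1
      simp only [add_mulVec, smul_mulVec, sub_mulVec, one_mulVec, vv, h] at this
      rw [← add_left_cancel_iff (a := w), this]; module
    have k2 : (ζ - 1) * (ψ ⬝ᵥ w) = 0 := by
      have := congrArg (ψ ⬝ᵥ ·) k1
      simp only [dotProduct_smul, e5, smul_eq_mul, mul_zero] at this
      exact this.symm
    have k3 : ζ = 1 := by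
      rcases mul_eq_zero.1 k2 with k | k
      · exact sub_eq_zero.1 k
      · rw [k, zero_smul] at k1
        exact sub_eq_zero.1 ((smul_eq_zero.1 k1.symm).resolve_right w0)
    obtain ⟨i, hi⟩ := Function.ne_iff.1 w0
    refine hφ (-tau j φ i / w i) (funext fun b => ?_)
    have k4 := congrFun (congrFun e1 i) b
    have hi' : w i ≠ 0 := hi
    simp only [k3, one_smul, Matrix.add_apply, Matrix.sub_apply, vecMulVec_apply] at k4
    simp only [Pi.smul_apply, smul_eq_mul]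
    field_simp
    linear_combination -k4

/-- The hermitian form. -/
def bf (φ : F →+* F) (x y : Fin n → F) : F := x ⬝ᵥ (φ ∘ y)

theorem bf_symm {φ : F →+* F} (h2 : ∀ a, φ (φ a) = a) (x y : Fin n → F) :
    bf φ y x = φ (bf φ x y) := by
  rw [bf, bf, RingHom.map_dotProduct, dotProduct_comm]; congr 1; ext i; simp [h2]

theorem bf_l (φ : F →+* F) (a b : F) (x w y z : Fin n → F) :
    bf φ (x + (a • w - b • y)) z = bf φ x z + (a * bf φ w z - b * bf φ y z) := by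
  simp [bf, add_dotProduct, sub_dotProduct, smul_dotProduct]

theorem bf_r (φ : F →+* F) (a b : F) (x w y z : Fin n → F) :
    bf φ z (x + (a • w - b • y)) = bf φ z x + (φ a * bf φ z w - φ b * bf φ z y) := by
  have : φ ∘ (x + (a • w - b • y)) = φ ∘ x + (φ a • (φ ∘ w) - φ b • (φ ∘ y)) := by ext i; simp
  simp [bf, this, dotProduct_add, dotProduct_sub, dotProduct_smul]

/-- The nilpotent part of an Eichler map. -/
def eN (φ : F →+* F) (w y : Fin n → F) (μ : F) : Mt n F :=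
  vecMulVec w (φ ∘ y) - μ • vecMulVec w (φ ∘ w) - vecMulVec y (φ ∘ w)

theorem eN_apply (φ : F →+* F) (w y : Fin n → F) (μ : F) (x : Fin n → F) :
    eN φ w y μ *ᵥ x = (bf φ x y - μ * bf φ x w) • w - bf φ x w • y := by
  rw [eN, sub_mulVec, sub_mulVec, smul_mulVec, vv, vv, vv, bf, bf, dotProduct_comm (φ ∘ y),
    dotProduct_comm (φ ∘ w)]
  module

theorem d0U (d1 : D1 true) : JobD0 true := by
  intro n F _ _ q Θ H Q E j c o
  obtain ⟨W₁, W₂, h1, h12, hp, hR⟩ := d1 n F q Θ H Q E c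
  obtain ⟨w, hw, w0⟩ := (Submodule.ne_bot_iff W₁).1 h1
  have hF : Fintype.card F = q ^ 2 := by simpa using c.par.card
  have n3 : 3 ≤ n := by
    have h2 := c.par.two
    have h3 : n ≠ 2 := fun e => by simpa using (c.par.n2 e).1
    omega
  have ha : j.a = false := by
    cases h : j.a with
    | false => rfl
    | true => simpa using (o.ok.2 h).1
  set φ := H59.frob hF with hφ
  have h2 : ∀ a, φ (φ a) = a := H59.frob_frob hF
  have hb : ∀ x y : Fin n → F, hermForm n F q x y = bf φ x y := fun x y => rfl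
  have hxw : ∀ x ∈ W₂, bf φ x w = 0 := fun x hx => hp rfl x hx w hw
  have ww := hxw w (h12 hw)
  have key : ∀ (y : Fin n → F) (μ : F), bf φ y w = 0 → μ + φ μ = bf φ y y → ∀ x,
      j.σ (bf φ x y - μ * bf φ x w) • tau j w - j.σ (bf φ x w) • tau j y =
        (bf φ (tau j x) y - μ * bf φ (tau j x) w) • w - bf φ (tau j x) w • y := by
    intro y μ yw hμ x
    have wy : bf φ w y = 0 := by rw [bf_symm h2, yw, map_zero]
    have Nw : eN φ w y μ *ᵥ w = 0 := by rw [eN_apply, wy, ww]; simp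
    have Ny : eN φ w y μ *ᵥ y = bf φ y y • w := by rw [eN_apply, yw]; simp
    have N3 : ∀ x, eN φ w y μ *ᵥ (eN φ w y μ *ᵥ (eN φ w y μ *ᵥ x)) = 0 := fun x => by
      rw [eN_apply φ w y μ x]
      simp only [mulVec_sub, mulVec_smul, Nw, Ny, smul_zero, mulVec_zero, sub_zero]
    obtain ⟨s, hs, hd⟩ := uni N3
    have sx : ∀ x, (s : Mt n F) *ᵥ x = x + ((bf φ x y - μ * bf φ x w) • w - bf φ x w • y) :=
      fun x => by rw [hs, add_mulVec, one_mulVec, eN_apply]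
    have hG : s ∈ GU n F q := fun a b => by
      change hermForm n F q ((s : Mt n F) *ᵥ a) ((s : Mt n F) *ᵥ b) = hermForm n F q a b
      rw [hb, hb, sx, sx, bf_l, bf_r, bf_r, bf_r, ww, wy, yw, ← hμ, bf_symm h2 b w,
        bf_symm h2 b y, map_sub, map_mul]
      ring
    have hS : s ∈ Sg n F true q := ⟨by simpa [Gam] using hG, hd⟩
    have hH : s ∈ H := hR s hS
      (fun x hx => by
        rw [sx, hxw x (h12 hx), zero_smul, sub_zero]; exact W₁.add_mem hx (W₁.smul_mem _ hw))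
      fun x hx => by
        rw [sx, hxw x hx, zero_smul, sub_zero]; exact W₂.add_mem hx (W₂.smul_mem _ (h12 hw))
    have := comm o ha hs ⟨hH, hS⟩ N3 w0 Nw x
    rwa [eN_apply, eN_apply, tau_sub, tau_smul, tau_smul] at this
  have hw' : (φ ∘ w) ≠ 0 := fun e => w0 (funext fun i => φ.injective (by
    simpa using congrFun e i))
  obtain ⟨x₁, hx₁⟩ := ex_dot hw'
  have hx₁' : bf φ x₁ w ≠ 0 := by rwa [bf, dotProduct_comm]
  obtain ⟨x₀, hx₀⟩ := tau_surj j x₁
  obtain ⟨μ₀, m0, m1⟩ := H59.exists_trace_zero_ne_zero (H59.frob_ne_id hF) h2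
  have b0 : ∀ x : Fin n → F, bf φ x 0 = 0 := fun x => by
    rw [bf_symm h2, bf, zero_dotProduct, map_zero]
  obtain ⟨κ, hκ⟩ : ∃ κ : F, tau j w = κ • w := by
    have k := key 0 μ₀ (by rw [bf, zero_dotProduct]) (by rw [b0, m1]) x₁
    rw [tau_zero, b0, b0, smul_zero, smul_zero, sub_zero, sub_zero] at k
    have k0 : j.σ (0 - μ₀ * bf φ x₁ w) ≠ 0 := by simp [m0, hx₁']
    exact ⟨_, by rw [← inv_smul_smul₀ k0 (tau j w), k, smul_smul]⟩
  obtain ⟨y, yw, hy⟩ := ex_perp1 n3 (φ ∘ w) w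
  have k : ∀ l : F, ∃ a : F, (j.σ (bf φ x₀ w) * j.σ l) • tau j y = a • w + (bf φ x₁ w * l) • y := by
    intro l
    obtain ⟨μ, hμ⟩ := H59.exists_trace_eq (H59.frob_ne_id hF) h2 (bf_symm h2 (l • y) (l • y)).symm
    have k := key (l • y) μ (by rw [bf, smul_dotProduct, yw, smul_zero]) hμ x₀
    rw [hx₀, hκ, tau_smul] at k
    refine ⟨j.σ (bf φ x₀ (l • y) - μ * bf φ x₀ w) * κ - (bf φ x₁ (l • y) - μ * bf φ x₁ w), ?_⟩
    linear_combination (norm := module) -k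
  refine (o.out.resolve_right (by simp [ha])) (RingEquiv.ext fun l => ?_)
  by_contra hl
  obtain ⟨a, k1⟩ := k 1
  obtain ⟨b, k2⟩ := k l
  have hne : bf φ x₁ w * (j.σ l - l) ≠ 0 := mul_ne_zero hx₁' (sub_ne_zero.2 hl)
  refine hy ((bf φ x₁ w * (j.σ l - l))⁻¹ * (b - j.σ l * a)) ?_
  rw [mul_smul, inv_smul_eq_iff₀ hne]
  rw [map_one] at k1
  linear_combination (norm := module) j.σ l • k1 - k2

theorem d0 (d1 : ∀ u, D1 u) : ∀ u, JobD0 u
  | true => d0U (d1 true)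
  | false => d0L (d1 false)

end H63.SimD0
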