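import Cfsg.Agent.H63.SimD1a

/-! # S3694 (tower SIM): step D1, the two invariant subspaces. -/

set_option autoImplicit false

namespace H63.SimD1

open Subgroup Cfsg H98 Matrix H0.Sim H63.SimD0
open scoped commutatorElement

variable {n : ℕ} {F : Type} [Field F]

/-- The matrices `e - 1`, `e` unipotent in `E`. -/
def YE (E : Subgroup (GL (Fin n) F)) : Set (Mt n F) :=
  {m | ∃ e ∈ E, e ^ ringChar F = 1 ∧ m = (e : Mt n F) - 1}

theorem st_inv [Finite F] {W : Submodule F (Fin n → F)} {s : GL (Fin n) F}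
    (h : ∀ x ∈ W, (s : Mt n F) *ᵥ x ∈ W) : ∀ x ∈ W, ((s⁻¹ : GL (Fin n) F) : Mt n F) *ᵥ x ∈ W := by
  have k : ∀ k : ℕ, ∀ x ∈ W, ((s ^ k : GL (Fin n) F) : Mt n F) *ᵥ x ∈ W := fun k => by
    induction k with
    | zero => intro x hx; simpa using hx
    | succ k ih => intro x hx; rw [pow_succ, Units.val_mul, ← mulVec_mulVec]; exact ih _ (h x hx)
  have e : s⁻¹ = s ^ (orderOf s - 1) := by
    refine inv_eq_of_mul_eq_one_right ?_
    rw [← pow_succ', Nat.sub_add_cancel (orderOf_pos s), pow_orderOf_eq_one]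
  rw [e]; exact k _

theorem Nil.st [Finite F] {Y : Set (Mt n F)} (h : Nil Y) {s : GL (Fin n) F}
    (h1 : ∀ x ∈ Im Y ⊓ Ke Y, (s : Mt n F) *ᵥ x ∈ Im Y ⊓ Ke Y)
    (h2 : ∀ x ∈ Im Y ⊔ Ke Y, (s : Mt n F) *ᵥ x ∈ Im Y ⊔ Ke Y) : St s (Ann Y ∩ Ann (Ann Y)) := by
  intro m hm
  obtain ⟨a, b⟩ := h.zs.1 hm
  refine h.zs.2 ⟨fun v => ?_, fun v hv => ?_⟩
  · rw [← mulVec_mulVec, ← mulVec_mulVec]; exact h1 _ (a _)
  · rw [← mulVec_mulVec, ← mulVec_mulVec, b _ (st_inv h2 v hv), mulVec_zero]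

theorem Nil.mv {Y : Set (Mt n F)} (h : Nil Y) {s : GL (Fin n) F}
    (hs : St s (Ann Y ∩ Ann (Ann Y))) : ∀ w ∈ Im Y ⊓ Ke Y, (s : Mt n F) *ᵥ w ∈ Im Y ⊓ Ke Y := by
  intro w hw
  obtain ⟨φ, φ0, hφ⟩ := h.cofix
  obtain ⟨x, hx⟩ := ex_dot φ0
  have h1 := (h.zs.1 (hs (vecMulVec w φ) (h.zs.2 ⟨fun v => by
    rw [vv]; exact Submodule.smul_mem _ _ hw, fun v hv => by rw [vv, hφ v hv, zero_smul]⟩))).1
    ((s : Mt n F) *ᵥ x)
  rw [← mulVec_mulVec, ← mulVec_mulVec, mulVec_mulVec x, ← Units.val_mul, inv_mul_cancel,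
    Units.val_one, one_mulVec, vv, mulVec_smul] at h1
  exact (Submodule.smul_mem_iff _ hx).1 h1

theorem Nil.mv2 {Y : Set (Mt n F)} (h : Nil Y) {s : GL (Fin n) F}
    (hs : St s⁻¹ (Ann Y ∩ Ann (Ann Y))) : ∀ v ∈ Im Y ⊔ Ke Y, (s : Mt n F) *ᵥ v ∈ Im Y ⊔ Ke Y := by
  intro v hv
  obtain ⟨w, w0, hw⟩ := h.fix
  by_contra hn
  obtain ⟨ψ, p1, p2⟩ := sep hn
  have h1 := (h.zs.1 (hs (vecMulVec w ψ) (h.zs.2 ⟨fun v => by
    rw [vv]; exact Submodule.smul_mem _ _ hw, fun v hv => by rw [vv, p2 v hv, zero_smul]⟩))).2 v hv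
  have h2 := congrArg ((s : Mt n F) *ᵥ ·) h1
  simp only [inv_inv, mulVec_mulVec, mulVec_zero, ← mul_assoc, Units.mul_inv, one_mul] at h2
  rw [← mulVec_mulVec, vv] at h2
  exact w0 ((smul_eq_zero.1 h2).resolve_left p1)

theorem zval {u : Bool} {q : ℕ} {z : GL (Fin n) F} (hz : z ∈ Zg n F u q) :
    ∃ ζ : F, ∀ k : ℕ, ((z ^ k : GL (Fin n) F) : Mt n F) = ζ ^ k • (1 : Mt n F) := by
  obtain ⟨ζ, h⟩ := zscal hz 1
  rw [mul_one, Units.val_one] at h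
  exact ⟨ζ, fun k => by rw [Units.val_pow_eq_pow_val, h, smul_pow, one_pow]⟩

variable [Fintype F] {u : Bool} {q : ℕ} {Θ : Set (Jm n F)} {H Q E : Subgroup (GL (Fin n) F)}

theorem nilY (c : Cf0 u q (ringChar F) Θ H Q E) : Nil (YE E) := by
  haveI : Fact (ringChar F).Prime := ⟨c.pp⟩
  haveI : Nonempty (Fin n) := ⟨⟨0, by have := c.par.two; omega⟩⟩
  refine ⟨Set.toFinite _, ?_, ?_, ?_⟩
  · rintro _ ⟨a, ha, a1, rfl⟩ _ ⟨b, hb, b1, rfl⟩
    have hz := c.cE a ha b (c.EQ hb)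
    have e1 : ⁅a, b⁆ ^ ringChar F = 1 := by
      have e2 : (⁅a, b⁆ * b) ^ ringChar F = 1 := by
        rw [commutatorElement_def, inv_mul_cancel_right, conj_pow, b1, mul_one, mul_inv_cancel]
      rwa [Commute.mul_pow (mem_center_iff.1 hz.2 b).symm, b1, mul_one] at e2
    obtain ⟨ζ, hζ⟩ := zval hz
    have e3 := hζ (ringChar F)
    rw [e1, Units.val_one] at e3
    have e4 : ζ ^ ringChar F = 1 :=
      smul_left_injective F (one_ne_zero (α := Mt n F)) (by simpa using e3.symm)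
    have e5 : ζ = 1 := by
      have := sub_pow_char (R := F) ζ 1
      rw [e4, one_pow, sub_self] at this
      exact sub_eq_zero.1 (pow_eq_zero_iff c.pp.ne_zero |>.1 this)
    have e6 : a * b = b * a := commutatorElement_eq_one_iff_mul_comm.1 (Units.ext (by
      simpa [e5] using hζ 1))
    have e7 : (a : Mt n F) * b = b * a := by rw [← Units.val_mul, e6, Units.val_mul]
    rw [sub_mul, mul_sub, mul_sub, sub_mul, mul_sub, mul_sub, e7]; simp only [mul_one, one_mul]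
    abel
  · rintro _ ⟨a, -, a1, rfl⟩
    exact ⟨ringChar F, by
      rw [sub_pow_char_of_commute _ (Commute.one_right _), ← Units.val_pow_eq_pow_val, a1]; simp⟩
  · obtain ⟨e, he, hZ⟩ := SetLike.not_le_iff_exists.1 c.ne
    have hz := c.pE e he
    obtain ⟨ζ, hζ⟩ := zval hz
    have z0 : ζ ≠ 0 := fun h => (e ^ ringChar F).ne_zero (by simpa [h] using hζ 1)
    refine ⟨_, ⟨e ^ (Fintype.card F - 1), E.pow_mem he _, ?_, rfl⟩, fun h => hZ ?_⟩
    · rw [← pow_mul, mul_comm, pow_mul]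
      exact Units.ext (by rw [hζ, FiniteField.pow_card_sub_one_eq_one ζ z0, one_smul]; rfl)
    · have h1 : e ^ (Fintype.card F - 1) = 1 := Units.ext (sub_eq_zero.1 h)
      have h2 : e ^ Fintype.card F = e := by
        rw [← Nat.sub_add_cancel (Fintype.card_pos (α := F)), pow_succ, h1, one_mul]
      obtain ⟨⟨k, hk⟩, -, h3⟩ := FiniteField.card F (ringChar F)
      obtain ⟨k, rfl⟩ : ∃ m, k = m + 1 := ⟨k - 1, by omega⟩
      rw [← h2, h3, PNat.mk_coe, pow_succ', pow_mul]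
      exact Subgroup.pow_mem _ hz _

theorem ivY (c : Cf0 u q (ringChar F) Θ H Q E) : Iv Θ (YE E) := by
  rintro j hj _ ⟨a, ha, a1, rfl⟩
  obtain ⟨b, hb, e⟩ := c.ivE j hj _ ⟨a, ha, rfl⟩
  refine ⟨b, hb, Units.ext ?_, by rw [th_sub, th_one, e]⟩
  rw [Units.val_pow_eq_pow_val, e, ← th_pow, ← Units.val_pow_eq_pow_val, a1, Units.val_one, th_one]

theorem ivZ (c : Cf0 u q (ringChar F) Θ H Q E) : Iv Θ (Ann (YE E) ∩ Ann (Ann (YE E))) :=
  fun j hj m hm => ⟨iv_Ann (ivY c) j hj m hm.1, iv_Ann (iv_Ann (ivY c)) j hj m hm.2⟩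

/-- Eichler maps are in `SU`. -/
theorem eich (hF : Fintype.card F = q ^ 2) {w y : Fin n → F} {μ : F}
    (ww : bf (H59.frob hF) w w = 0) (yw : bf (H59.frob hF) y w = 0)
    (hμ : μ + H59.frob hF μ = bf (H59.frob hF) y y) : ∃ s ∈ Sg n F true q, ∀ x, (s : Mt n F) *ᵥ x =
      x + ((bf (H59.frob hF) x y - μ * bf (H59.frob hF) x w) • w - bf (H59.frob hF) x w • y) := by
  set φ := H59.frob hF with hφ
  have h2 : ∀ a, φ (φ a) = a := H59.frob_frob hF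
  have hb : ∀ x y : Fin n → F, hermForm n F q x y = bf φ x y := fun x y => rfl
  have wy : bf φ w y = 0 := by rw [bf_symm h2, yw, map_zero]
  have Nw : eN φ w y μ *ᵥ w = 0 := by rw [eN_apply, wy, ww]; simp
  have Ny : eN φ w y μ *ᵥ y = bf φ y y • w := by rw [eN_apply, yw]; simp
  have N3 : ∀ x, eN φ w y μ *ᵥ (eN φ w y μ *ᵥ (eN φ w y μ *ᵥ x)) = 0 := fun x => by
    rw [eN_apply φ w y μ x]
    simp only [mulVec_sub, mulVec_smul, Nw, Ny, smul_zero, mulVec_zero, sub_zero]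
  obtain ⟨s, hs, hd⟩ := uni N3
  have sx : ∀ x, (s : Mt n F) *ᵥ x = x + ((bf φ x y - μ * bf φ x w) • w - bf φ x w • y) :=
    fun x => by rw [hs, add_mulVec, one_mulVec, eN_apply]
  have hG : s ∈ GU n F q := fun a b => by
    change hermForm n F q ((s : Mt n F) *ᵥ a) ((s : Mt n F) *ᵥ b) = hermForm n F q a b
    rw [hb, hb, sx, sx, bf_l, bf_r, bf_r, bf_r, ww, wy, yw, ← hμ, bf_symm h2 b w,
      bf_symm h2 b y, map_sub, map_mul]
    ring
  exact ⟨s, ⟨by simpa [Gam] using hG, hd⟩, sx⟩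

theorem iso (c : Cf0 true q (ringChar F) Θ H Q E) (hF : Fintype.card F = q ^ 2)
    {e : GL (Fin n) F} (he : e ∈ E) (a b : Fin n → F) :
    bf (H59.frob hF) ((e : Mt n F) *ᵥ a) ((e : Mt n F) *ᵥ b) = bf (H59.frob hF) a b := by
  have : e ∈ GU n F q := by simpa [Gam] using c.HG (c.QH (c.EQ he))
  exact this a b

theorem perp (c : Cf0 true q (ringChar F) Θ H Q E) (hF : Fintype.card F = q ^ 2) :
    ∀ v ∈ Im (YE E), ∀ k ∈ Ke (YE E), bf (H59.frob hF) v k = 0 := fun v hv k hk => by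
  rw [bf, dotProduct_comm]
  refine dot_Im ?_ v hv
  rintro _ ⟨e, he, e1, rfl⟩ x
  have h1 := hk _ ⟨e, he, e1, rfl⟩
  rw [sub_mulVec, one_mulVec, sub_eq_zero] at h1
  have h2 := iso c hF he x k
  rw [h1] at h2
  rw [dotProduct_comm, sub_mulVec, one_mulVec, sub_dotProduct]
  exact sub_eq_zero.2 h2

theorem perp2 (c : Cf0 true q (ringChar F) Θ H Q E) (hF : Fintype.card F = q ^ 2) :
    ∀ x ∈ Im (YE E) ⊔ Ke (YE E), ∀ w ∈ Im (YE E) ⊓ Ke (YE E), bf (H59.frob hF) x w = 0 := by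
  intro x hx w hw
  obtain ⟨a, ha, b, hb, rfl⟩ := Submodule.mem_sup.1 hx
  have h1 := perp c hF a ha w hw.2
  have h2 : bf (H59.frob hF) b w = 0 := by
    rw [bf_symm (H59.frob_frob hF), perp c hF w hw.1 b hb, map_zero]
  rw [bf] at h1 h2
  rw [bf, add_dotProduct, h1, h2, add_zero]

/-- Some element of `S` moves `W₁`. -/
theorem moves (c : Cf0 u q (ringChar F) Θ H Q E) : ∃ s ∈ Sg n F u q,
    ¬ ∀ w ∈ Im (YE E) ⊓ Ke (YE E), (s : Mt n F) *ᵥ w ∈ Im (YE E) ⊓ Ke (YE E) := by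
  obtain ⟨w, w0, hw⟩ := (nilY c).fix
  have hw : w ∈ Im (YE E) ⊓ Ke (YE E) := hw
  cases u with
  | false =>
    obtain ⟨ψ, ψ0, hψ⟩ := (nilY c).cofix
    have hψ' : ∀ v ∈ Im (YE E) ⊓ Ke (YE E), ψ ⬝ᵥ v = 0 := fun v hv =>
      hψ v (Submodule.mem_sup_left hv.1)
    obtain ⟨y, hy⟩ := ex_dot ψ0
    obtain ⟨φ, p1, p2⟩ := sep (U := Submodule.span F {y}) (x := w) fun h => by
      obtain ⟨a, rfl⟩ := Submodule.mem_span_singleton.1 h
      have := hψ' _ hw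
      rw [dotProduct_smul, smul_eq_mul] at this
      exact w0 (by rw [(mul_eq_zero.1 this).resolve_right hy, zero_smul])
    have p3 := p2 y (Submodule.mem_span_singleton_self y)
    obtain ⟨s, hs, hd⟩ := uni (N := vecMulVec y φ) fun x => by
      rw [vv y φ x, mulVec_smul, vv y φ y, p3]; simp
    refine ⟨s, ⟨by simp [Gam], hd⟩, fun h => ?_⟩
    have := hψ' _ (h w hw)
    rw [hs, add_mulVec, one_mulVec, vv, dotProduct_add, hψ' w hw, zero_add, dotProduct_smul,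
      smul_eq_mul] at this
    exact mul_ne_zero p1 hy this
  | true =>
    have hF : Fintype.card F = q ^ 2 := by simpa using c.par.card
    have pp := fun x (hx : x ∈ Im (YE E) ⊓ Ke (YE E)) =>
      perp2 c hF x (Submodule.mem_sup_left hx.1) w hw
    have ei := @eich n F _ _ q hF
    have ne := H59.frob_ne_id hF
    have h2 := H59.frob_frob hF
    set φ := H59.frob hF with hφ
    have ww := pp w hw
    have hw' : (φ ∘ w) ≠ 0 := fun e => w0 (funext fun i => φ.injective (by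
      simpa using congrFun e i))
    obtain ⟨x, hx⟩ := ex_dot hw'
    have hx' : bf φ x w ≠ 0 := by rwa [bf, dotProduct_comm]
    obtain ⟨μ, m0, m1⟩ := H59.exists_trace_zero_ne_zero ne h2
    obtain ⟨t, ht⟩ := H59.exists_trace_eq ne h2 (bf_symm h2 x x).symm
    have b0 : ∀ x : Fin n → F, bf φ x 0 = 0 := fun x => by
      rw [bf_symm h2, bf, zero_dotProduct, map_zero]
    set v := x + ((0 : F) • w - (t / φ (bf φ x w)) • w) with hv
    have vw : bf φ v w = bf φ x w := by rw [hv, bf_l, ww]; simp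
    have hx2 : φ (bf φ x w) ≠ 0 := (map_ne_zero φ).2 hx'
    have v0 : bf φ v v = 0 := by
      rw [hv, bf_l, bf_r, bf_r, ww, ← ht, bf_symm h2 x w, map_div₀, h2]
      field_simp
      simp only [map_zero]
      ring
    obtain ⟨s, hs, sx⟩ := ei (w := v) (y := 0) (μ := μ) v0 (by rw [bf, zero_dotProduct])
      (by rw [b0, m1])
    refine ⟨s, hs, fun h => ?_⟩
    have h3 := pp _ (h w hw)
    rw [sx, bf_l, ww, b0, vw, bf_symm h2 w 0, b0, bf_symm h2 v w, vw] at h3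
    simp [m0, hx', hx2] at h3

theorem stab (c : Cf0 u q (ringChar F) Θ H Q E) : ∀ s ∈ Sg n F u q,
    (∀ x ∈ Im (YE E) ⊓ Ke (YE E), (s : Mt n F) *ᵥ x ∈ Im (YE E) ⊓ Ke (YE E)) →
    (∀ x ∈ Im (YE E) ⊔ Ke (YE E), (s : Mt n F) *ᵥ x ∈ Im (YE E) ⊔ Ke (YE E)) → s ∈ H := by
  intro s hs h1 h2
  obtain ⟨t, ht, h⟩ := moves c
  exact c.mp _ (ivZ c) ⟨t, ht, fun k => h ((nilY c).mv k)⟩ s hs ((nilY c).st h1 h2)

theorem d1 (u : Bool) : D1 u := by
  intro n F _ _ q Θ H Q E c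
  obtain ⟨w, w0, hw⟩ := (nilY c).fix
  refine ⟨_, _, (Submodule.ne_bot_iff _).2 ⟨w, hw, w0⟩, inf_le_sup, ?_, stab c⟩
  rintro rfl
  exact perp2 c (by simpa using c.par.card)

theorem toKe (c : Cf0 true q (ringChar F) Θ H Q E) (hF : Fintype.card F = q ^ 2) {w : Fin n → F}
    (h : ∀ v ∈ Im (YE E), bf (H59.frob hF) v w = 0) : w ∈ Ke (YE E) := by
  rintro _ ⟨e, he, e1, rfl⟩
  have h2 := H59.frob_frob hF
  refine dotProduct_eq_zero_iff.1 fun y => ?_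
  set z := ((e⁻¹ : GL (Fin n) F) : Mt n F) *ᵥ (H59.frob hF ∘ y) with hz
  have k1 : H59.frob hF ∘ ((e : Mt n F) *ᵥ z) = y := by
    rw [hz, mulVec_mulVec, ← Units.val_mul, mul_inv_cancel, Units.val_one, one_mulVec]
    ext i; exact h2 _
  have k2 := h _ (mem_Im (Y := YE E) ⟨e, he, e1, rfl⟩ z)
  have k3 := iso c hF he w z
  rw [bf, sub_mulVec, one_mulVec, sub_dotProduct, sub_eq_zero] at k2
  have k4 : bf (H59.frob hF) w ((e : Mt n F) *ᵥ z) = bf (H59.frob hF) w z := by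
    rw [bf_symm h2 _ w, bf_symm h2 z w]; exact congrArg _ k2
  rw [← k4, bf, bf, k1] at k3
  rw [sub_mulVec, one_mulVec, sub_dotProduct, k3, sub_self]

/-- `W₂` is the whole perp of `W₁`. -/
theorem perp3 (c : Cf0 true q (ringChar F) Θ H Q E) (hF : Fintype.card F = q ^ 2) {x : Fin n → F}
    (h : ∀ w ∈ Im (YE E) ⊓ Ke (YE E), bf (H59.frob hF) x w = 0) : x ∈ Im (YE E) ⊔ Ke (YE E) := by
  have h2 := H59.frob_frob hF
  have k : ∀ ψ v : Fin n → F, bf (H59.frob hF) v (H59.frob hF ∘ ψ) = ψ ⬝ᵥ v := fun ψ v => by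
    rw [bf, dotProduct_comm]; congr 1; ext i; exact h2 _
  by_contra hx
  obtain ⟨ψ, p1, p2⟩ := sep hx
  refine p1 (by
    rw [← k]
    refine h _ ⟨?_, toKe c hF fun v hv => by rw [k, p2 v (Submodule.mem_sup_left hv)]⟩
    by_contra hn
    obtain ⟨χ, q1, q2⟩ := sep hn
    have q3 := p2 _ (Submodule.mem_sup_right (toKe c hF fun v hv => by rw [k, q2 v hv]))
    rw [← k, bf_symm h2, k] at q3
    exact q1 ((map_eq_zero _).1 q3))

theorem W2_ne (c : Cf0 u q (ringChar F) Θ H Q E) : Im (YE E) ⊔ Ke (YE E) ≠ ⊤ := fun e => by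
  obtain ⟨φ, φ0, hφ⟩ := (nilY c).cofix
  obtain ⟨x, hx⟩ := ex_dot φ0
  exact hx (hφ x (e ▸ Submodule.mem_top))

theorem W1_ne (c : Cf0 u q (ringChar F) Θ H Q E) : Im (YE E) ⊓ Ke (YE E) ≠ ⊥ := by
  obtain ⟨w, w0, hw⟩ := (nilY c).fix
  exact (Submodule.ne_bot_iff _).2 ⟨w, hw, w0⟩

/-- `H` stabilises `W₁`. -/
theorem H_W1 (c : Cf0 u q (ringChar F) Θ H Q E) {h : GL (Fin n) F} (hh : h ∈ H) :
    ∀ w ∈ Im (YE E) ⊓ Ke (YE E), (h : Mt n F) *ᵥ w ∈ Im (YE E) ⊓ Ke (YE E) :=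
  (nilY c).mv fun m hm => by simpa [th] using ivZ c _ (c.inn h hh) m hm

/-- `H` stabilises `W₂`. -/
theorem H_W2 (c : Cf0 u q (ringChar F) Θ H Q E) {h : GL (Fin n) F} (hh : h ∈ H) :
    ∀ w ∈ Im (YE E) ⊔ Ke (YE E), (h : Mt n F) *ᵥ w ∈ Im (YE E) ⊔ Ke (YE E) :=
  (nilY c).mv2 fun m hm => by simpa [th] using ivZ c _ (c.inn _ (H.inv_mem hh)) m hm

theorem d0fin (u : Bool) : JobD0 u := d0 d1 u

end H63.SimD1
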