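import Cfsg.Agent.H63.SimD0

/-! # S3694 (tower SIM): commuting nilpotent matrices and the maps `th j`. -/

set_option autoImplicit false

namespace H63.SimD1

open Subgroup Cfsg H98 Matrix H0.Sim H63.SimD0

variable {n : ℕ} {F : Type} [Field F]

/-- The sum of the images. -/
def Im (Y : Set (Mt n F)) : Submodule F (Fin n → F) :=
  Submodule.span F {v | ∃ N ∈ Y, ∃ x, v = N *ᵥ x}

/-- The common kernel. -/
def Ke (Y : Set (Mt n F)) : Submodule F (Fin n → F) where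
  carrier := {x | ∀ N ∈ Y, N *ᵥ x = 0}
  zero_mem' := fun N _ => mulVec_zero N
  add_mem' := fun ha hb N hN => by rw [mulVec_add, ha N hN, hb N hN, add_zero]
  smul_mem' := fun c x hx N hN => by rw [mulVec_smul, hx N hN, smul_zero]

theorem mem_Im {Y : Set (Mt n F)} {N : Mt n F} (hN : N ∈ Y) (x : Fin n → F) : N *ᵥ x ∈ Im Y :=
  Submodule.subset_span ⟨N, hN, x, rfl⟩

/-- A family of commuting nilpotent matrices, not all zero. -/
structure Nil (Y : Set (Mt n F)) : Prop where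
  fin : Y.Finite
  cm : ∀ a ∈ Y, ∀ b ∈ Y, a * b = b * a
  nil : ∀ a ∈ Y, IsNilpotent a
  ne : ∃ a ∈ Y, a ≠ 0

theorem Nil.fix {Y : Set (Mt n F)} (h : Nil Y) : ∃ w, w ≠ 0 ∧ w ∈ Im Y ∧ w ∈ Ke Y := by
  have key : ∀ T : Set (Mt n F), T.Finite → T ⊆ Y → ∃ w, w ≠ 0 ∧ w ∈ Im Y ∧ w ∈ Ke T := by
    intro T hT
    induction T, hT using Set.Finite.induction_on with
    | empty =>
      intro _
      obtain ⟨a, ha, a0⟩ := h.ne
      by_contra hc
      push Not at hc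
      refine a0 (Matrix.toLin'.injective (LinearMap.ext fun x => ?_))
      by_contra hx
      exact hc (a *ᵥ x) (by simpa using hx) (mem_Im ha x) fun _ h => h.elim
    | @insert a T _ _ ih =>
      intro hs
      have ha : a ∈ Y := hs (Set.mem_insert a T)
      have hT : T ⊆ Y := (Set.subset_insert a T).trans hs
      obtain ⟨w, w0, wI, wK⟩ := ih hT
      obtain ⟨k, hk⟩ := h.nil a ha
      have ex : ∃ k, a ^ k *ᵥ w = 0 := ⟨k, by rw [hk, zero_mulVec]⟩
      classical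
      have h1 := Nat.find_spec ex
      obtain ⟨m, hm⟩ : ∃ m, Nat.find ex = m + 1 := Nat.exists_eq_succ_of_ne_zero fun e => by
        rw [e, pow_zero, one_mulVec] at h1; exact w0 h1
      refine ⟨a ^ m *ᵥ w, Nat.find_min ex (by omega), ?_, ?_⟩
      · cases m with
        | zero => rwa [pow_zero, one_mulVec]
        | succ m => rw [pow_succ', ← mulVec_mulVec]; exact mem_Im ha _
      · rintro b (rfl | hb)
        · rwa [mulVec_mulVec, ← pow_succ', ← hm]
        · have c : Commute b (a ^ m) := Commute.pow_right (h.cm b (hT hb) a ha) m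
          rw [mulVec_mulVec, c.eq, ← mulVec_mulVec, wK b hb, mulVec_zero]
  exact key Y h.fin subset_rfl

theorem dot_Im {Y : Set (Mt n F)} {φ : Fin n → F} (h : ∀ N ∈ Y, ∀ x, φ ⬝ᵥ N *ᵥ x = 0) :
    ∀ v ∈ Im Y, φ ⬝ᵥ v = 0 := fun v hv => by
  induction hv using Submodule.span_induction with
  | mem v hv => obtain ⟨N, hN, x, rfl⟩ := hv; exact h N hN x
  | zero => exact dotProduct_zero φ
  | add a b _ _ h1 h2 => rw [dotProduct_add, h1, h2, add_zero]
  | smul c a _ h1 => rw [dotProduct_smul, h1, smul_zero]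

theorem Nil.cofix {Y : Set (Mt n F)} (h : Nil Y) :
    ∃ φ : Fin n → F, φ ≠ 0 ∧ ∀ v ∈ Im Y ⊔ Ke Y, φ ⬝ᵥ v = 0 := by
  have h' : Nil (transpose '' Y) := by
    refine ⟨h.fin.image _, ?_, ?_, ?_⟩
    · rintro _ ⟨a, ha, rfl⟩ _ ⟨b, hb, rfl⟩
      rw [← transpose_mul, ← transpose_mul, h.cm a ha b hb]
    · rintro _ ⟨a, ha, rfl⟩
      obtain ⟨k, hk⟩ := h.nil a ha
      exact ⟨k, by rw [← transpose_pow, hk, transpose_zero]⟩
    · obtain ⟨a, ha, a0⟩ := h.ne
      exact ⟨_, ⟨a, ha, rfl⟩, fun e => a0 (transpose_eq_zero.1 e)⟩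
  obtain ⟨φ, h0, h1, h2⟩ := h'.fix
  refine ⟨φ, h0, fun v hv => ?_⟩
  obtain ⟨a, ha, b, hb, rfl⟩ := Submodule.mem_sup.1 hv
  have e1 : φ ⬝ᵥ a = 0 := dot_Im (fun N hN x => by
    rw [dotProduct_mulVec, ← mulVec_transpose, h2 _ ⟨N, hN, rfl⟩, zero_dotProduct]) a ha
  have e2 : b ⬝ᵥ φ = 0 := dot_Im (by
    rintro _ ⟨N, hN, rfl⟩ x
    rw [dotProduct_mulVec, vecMul_transpose, hb N hN, zero_dotProduct]) φ h1
  rw [dotProduct_add, e1, dotProduct_comm, e2, add_zero]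

theorem sep {U : Submodule F (Fin n → F)} {x : Fin n → F} (h : x ∉ U) :
    ∃ φ : Fin n → F, φ ⬝ᵥ x ≠ 0 ∧ ∀ v ∈ U, φ ⬝ᵥ v = 0 := by
  obtain ⟨f, h1, h2⟩ := Submodule.exists_dual_map_eq_bot_of_notMem h inferInstance
  have e : ∀ v, (fun i => f fun j => if i = j then 1 else 0) ⬝ᵥ v = f v := fun v => by
    rw [f.pi_apply_eq_sum_univ v, dotProduct_comm]; rfl
  refine ⟨_, by rwa [e], fun v hv => ?_⟩
  rw [e]
  exact (Submodule.eq_bot_iff _).1 h2 _ ⟨v, hv, rfl⟩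

theorem mz {m : Mt n F} (h : ∀ x, m *ᵥ x = 0) : m = 0 :=
  Matrix.toLin'.injective (LinearMap.ext fun x => by simpa using h x)

/-- The two-sided annihilator. -/
def Ann (Y : Set (Mt n F)) : Set (Mt n F) := {m | ∀ y ∈ Y, y * m = 0 ∧ m * y = 0}

theorem mem_Ann {Y : Set (Mt n F)} {m : Mt n F} :
    m ∈ Ann Y ↔ (∀ v, m *ᵥ v ∈ Ke Y) ∧ ∀ v ∈ Im Y, m *ᵥ v = 0 := by
  refine ⟨fun h => ⟨fun v N hN => by rw [mulVec_mulVec, (h N hN).1, zero_mulVec], fun v hv => ?_⟩,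
    fun h y hy => ⟨mz fun x => ?_, mz fun x => ?_⟩⟩
  · funext i
    exact dot_Im (φ := m i) (fun N hN x => by
      have := congrFun (mulVec_mulVec x m N) i
      rw [(h N hN).2, zero_mulVec] at this
      exact this) v hv
  · rw [← mulVec_mulVec]; exact h.1 x y hy
  · rw [← mulVec_mulVec]; exact h.2 _ (mem_Im hy x)

/-- `Hom(V / W₂, W₁)`. -/
theorem Nil.zs {Y : Set (Mt n F)} (h : Nil Y) {m : Mt n F} : m ∈ Ann Y ∩ Ann (Ann Y) ↔
    (∀ v, m *ᵥ v ∈ Im Y ⊓ Ke Y) ∧ ∀ v ∈ Im Y ⊔ Ke Y, m *ᵥ v = 0 := by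
  obtain ⟨w, w0, -, wK⟩ := h.fix
  obtain ⟨φ, φ0, hφ⟩ := h.cofix
  have rk : ∀ k ∈ Ke Y, ∀ ψ : Fin n → F, (∀ v ∈ Im Y, ψ ⬝ᵥ v = 0) → vecMulVec k ψ ∈ Ann Y :=
    fun k hk ψ hψ => mem_Ann.2 ⟨fun v => by rw [vv]; exact (Ke Y).smul_mem _ hk,
      fun v hv => by rw [vv, hψ v hv, zero_smul]⟩
  constructor
  · rintro ⟨h1, h2⟩
    obtain ⟨h3, h4⟩ := mem_Ann.1 h1
    refine ⟨fun v => ⟨?_, h3 v⟩, fun v hv => ?_⟩
    · by_contra hn
      obtain ⟨ψ, p1, p2⟩ := sep hn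
      have := congrArg (· *ᵥ v) (h2 _ (rk w wK ψ p2)).1
      simp only [← mulVec_mulVec, vv, zero_mulVec] at this
      exact w0 ((smul_eq_zero.1 this).resolve_left p1)
    · obtain ⟨a, ha, b, hb, rfl⟩ := Submodule.mem_sup.1 hv
      obtain ⟨x, hx⟩ := ex_dot φ0
      have := congrArg (· *ᵥ x) (h2 _ (rk b hb φ fun v hv => hφ v (Submodule.mem_sup_left hv))).2
      simp only [← mulVec_mulVec, vv, zero_mulVec, mulVec_smul] at this
      rw [mulVec_add, h4 a ha, (smul_eq_zero.1 this).resolve_left hx, add_zero]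
  · rintro ⟨h1, h2⟩
    refine ⟨mem_Ann.2 ⟨fun v => (h1 v).2, fun v hv => h2 v (Submodule.mem_sup_left hv)⟩,
      fun y hy => ?_⟩
    obtain ⟨h3, h4⟩ := mem_Ann.1 hy
    exact ⟨mz fun x => by rw [← mulVec_mulVec]; exact h4 _ (h1 x).1,
      mz fun x => by rw [← mulVec_mulVec]; exact h2 _ (Submodule.mem_sup_right (h3 x))⟩

/-! ### The maps `th j` -/

theorem th_mul (j : Jm n F) (a b : Mt n F) :
    th j (a * b) = if j.a then th j b * th j a else th j a * th j b := by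
  have e : (a * b).map j.σ = a.map j.σ * b.map j.σ := Matrix.map_mul (f := (j.σ : F →+* F))
  unfold th
  rw [e]
  cases j.a <;> simp [mul_assoc, transpose_mul, ← Matrix.mul_assoc ((j.c : Mt n F))⁻¹]

theorem th_sub (j : Jm n F) (a b : Mt n F) : th j (a - b) = th j a - th j b := by
  have e : (a - b).map j.σ = a.map j.σ - b.map j.σ := by ext; simp
  unfold th
  rw [e]
  cases j.a <;> simp [mul_sub, sub_mul, transpose_sub]

theorem th_one (j : Jm n F) : th j 1 = 1 := by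
  have e : (1 : Mt n F).map j.σ = 1 := Matrix.map_one _ (map_zero _) (map_one _)
  unfold th
  rw [e]
  cases j.a <;> simp

theorem th_zero (j : Jm n F) : th j 0 = 0 := by simpa using th_sub j 0 0

theorem th_pow (j : Jm n F) (a : Mt n F) (k : ℕ) : th j (a ^ k) = th j a ^ k := by
  induction k with
  | zero => rw [pow_zero, pow_zero, th_one]
  | succ k ih =>
    rw [pow_succ, th_mul, ih]
    split_ifs
    · rw [pow_succ']
    · rw [pow_succ]

theorem th_inj (j : Jm n F) : Function.Injective (th j) := fun a b h => by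
  unfold th at h
  have h1 := (Units.mul_right_inj j.c).1 ((Units.mul_left_inj j.c⁻¹).1 h)
  have h2 : a.map j.σ = b.map j.σ := by
    cases hj : j.a <;> simp only [hj, Bool.false_eq_true, if_false, if_true] at h1
    · exact h1
    · exact transpose_injective h1
  ext i k
  exact j.σ.injective (congrFun (congrFun h2 i) k)

theorem iv_Ann [Finite F] {Θ : Set (Jm n F)} {Y : Set (Mt n F)} (h : Iv Θ Y) : Iv Θ (Ann Y) := by
  intro j hj m hm y hy
  have hs : Set.SurjOn (th j) Y Y :=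
    ((Set.toFinite Y).injOn_iff_bijOn_of_mapsTo (h j hj)).1 (th_inj j).injOn |>.surjOn
  obtain ⟨y', hy', rfl⟩ := hs hy
  have h1 := th_mul j y' m
  have h2 := th_mul j m y'
  rw [(hm y' hy').1, th_zero] at h1
  rw [(hm y' hy').2, th_zero] at h2
  cases ha : j.a <;> simp only [ha, Bool.false_eq_true, if_false, if_true] at h1 h2
  · exact ⟨h1.symm, h2.symm⟩
  · exact ⟨h2.symm, h1.symm⟩

end H63.SimD1
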