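import Cfsg.Agent.H59.SpLS
import Cfsg.Agent.H54.SpIso

/-! Fourier projectors for one-parameter families of operators; relative generation of symplectic
groups by transvections; local relations in representations of rank at most one. -/

set_option autoImplicit false
set_option linter.unusedSectionVars false

noncomputable section

namespace H63.SpW

open Module H54 Finset
open scoped Classical

section Kit

variable {F : Type*} [Field F] [Fintype F] {U : Type*} [AddCommGroup U] [Module ℂ U]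

variable (F) in
/-- a fixed primitive additive character -/
def ψ : AddChar F ℂ := AddChar.FiniteField.primitiveChar_to_Complex F

theorem ψ_prim : (ψ F).IsPrimitive := AddChar.FiniteField.primitiveChar_to_Complex_isPrimitive F

/-- eigenvectors of a one-parameter family -/
def Eg (r : F → End ℂ U) (β : F) : Submodule ℂ U := ⨅ c, (r c).eigenspace (ψ F (c * β))

theorem mem_Eg {r : F → End ℂ U} {β : F} {x : U} : x ∈ Eg r β ↔ ∀ c, r c x = ψ F (c * β) • x := by
  simp [Eg]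

theorem mem_Eg0 {r : F → End ℂ U} {x : U} : x ∈ Eg r 0 ↔ ∀ c, r c x = x := by simp [mem_Eg]

/-- invariant subspaces -/
def Nv (r : F → End ℂ U) (N : Submodule ℂ U) : Prop := ∀ c, ∀ x ∈ N, r c x ∈ N

theorem Nv.inf {r : F → End ℂ U} {N N' : Submodule ℂ U} (h : Nv r N) (h' : Nv r N') : Nv r (N ⊓ N') :=
  fun c x hx => ⟨h c x hx.1, h' c x hx.2⟩

theorem nv_Eg {r r' : F → End ℂ U} (h : ∀ c d, Commute (r c) (r' d)) (β : F) : Nv r (Eg r' β) :=
  fun c x hx => mem_Eg.2 fun d => by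
    rw [← End.mul_apply, ← (h c d).eq, End.mul_apply, mem_Eg.1 hx, map_smul]

theorem nv_of_le {r : F → End ℂ U} {β : F} {N : Submodule ℂ U} (h : N ≤ Eg r β) : Nv r N :=
  fun c x hx => mem_Eg.1 (h hx) c ▸ N.smul_mem _ hx

/-- one-parameter groups -/
structure OP (r : F → End ℂ U) : Prop where
  zero : r 0 = 1
  add : ∀ a b, r (a + b) = r a * r b

theorem OP.comm {r : F → End ℂ U} (h : OP r) (c d : F) : Commute (r c) (r d) := by
  rw [Commute, SemiconjBy, ← h.add, ← h.add, add_comm]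

/-- the Fourier projector -/
def pj (r : F → End ℂ U) (β : F) : End ℂ U := (Fintype.card F : ℂ)⁻¹ • ∑ c, ψ F (-(c * β)) • r c

theorem pj_apply (r : F → End ℂ U) (β : F) (x : U) :
    pj r β x = (Fintype.card F : ℂ)⁻¹ • ∑ c, ψ F (-(c * β)) • r c x := by
  simp [pj]

theorem q_ne : (Fintype.card F : ℂ) ≠ 0 := Nat.cast_ne_zero.2 Fintype.card_ne_zero

theorem pj_mem {r : F → End ℂ U} (h : OP r) (β : F) (x : U) : pj r β x ∈ Eg r β := mem_Eg.2 fun d => by
  rw [pj_apply, map_smul, smul_comm, map_sum, smul_sum (r := ψ F _), ← Equiv.sum_comp (Equiv.addLeft d)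
    (fun c => ψ F (d * β) • ψ F (-(c * β)) • r c x)]
  refine congrArg _ (sum_congr rfl fun c _ => ?_)
  rw [map_smul, smul_smul, ← AddChar.map_add_eq_mul, Equiv.coe_addLeft, h.add, End.mul_apply]
  congr 2; ring

theorem pj_eq {r : F → End ℂ U} {β' : F} {x : U} (hx : x ∈ Eg r β') (β : F) :
    pj r β x = if β = β' then x else 0 := by
  have : ∀ c, ψ F (-(c * β)) • r c x = ψ F (c * (β' - β)) • x := fun c => by
    rw [mem_Eg.1 hx, smul_smul, ← AddChar.map_add_eq_mul]; congr 2; ring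
  simp only [pj_apply, this, ← sum_smul, AddChar.sum_mulShift _ ψ_prim, sub_eq_zero, smul_smul, eq_comm (a := β')]
  split_ifs
  · rw [inv_mul_cancel₀ q_ne, one_smul]
  · simp

theorem Eg_disj {r : F → End ℂ U} {β β' : F} {x : U} (hx : x ∈ Eg r β) (hx' : x ∈ Eg r β') (h : x ≠ 0) :
    β = β' := by
  by_contra e
  exact h (by simpa [e] using (pj_eq hx β).symm.trans (pj_eq hx' β))

theorem sum_pj {r : F → End ℂ U} (h : OP r) (x : U) : ∑ β, pj r β x = x := by
  simp only [pj_apply, ← smul_sum]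
  rw [sum_comm]
  have : ∀ c : F, ∑ β, ψ F (-(c * β)) • r c x = (if c = 0 then (Fintype.card F : ℂ) else 0) • r c x :=
    fun c => by
      rw [← sum_smul]; congr 1
      simpa [mul_comm] using AddChar.sum_mulShift (-c) (ψ_prim (F := F))
  simp [this, h.zero, smul_smul, inv_mul_cancel₀ q_ne]

theorem Nv.pj {r : F → End ℂ U} {N : Submodule ℂ U} (h : Nv r N) (β : F) {x : U} (hx : x ∈ N) :
    pj r β x ∈ N := by
  rw [pj_apply]
  exact N.smul_mem _ (N.sum_mem fun c _ => N.smul_mem _ (h c x hx))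

theorem pj_comm {r : F → End ℂ U} {A : End ℂ U} (h : ∀ c, Commute A (r c)) (β : F) (x : U) :
    A (pj r β x) = pj r β (A x) := by
  have : ∀ c y, A (r c y) = r c (A y) := fun c y => by rw [← End.mul_apply, (h c).eq, End.mul_apply]
  simp only [pj_apply, map_smul, map_sum, this]

theorem le_of_pj {r : F → End ℂ U} (h : OP r) {N N' : Submodule ℂ U} (hN : Nv r N)
    (h' : ∀ β, ∀ x ∈ N, x ∈ Eg r β → x ∈ N') : N ≤ N' := fun x hx =>
  sum_pj h x ▸ N'.sum_mem fun β _ => h' β _ (hN.pj β hx) (pj_mem h β x)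

theorem mem_of_pj {r : F → End ℂ U} (h : OP r) {N : Submodule ℂ U} (hN : Nv r N) {x : U}
    (hx : (Fintype.card F : ℂ) • pj r 0 x - x ∈ N) : x ∈ N := by
  have h1 := hN.pj 0 hx
  rw [map_sub, map_smul, pj_eq (pj_mem h 0 x), if_pos rfl] at h1
  have h2 : (Fintype.card F : ℂ) - 1 ≠ 0 := sub_ne_zero.2 (by exact_mod_cast Fintype.one_lt_card.ne')
  have h3 : pj r 0 x ∈ N := (N.smul_mem_iff h2).1 (by rwa [sub_smul, one_smul])
  simpa using N.sub_mem (N.smul_mem (Fintype.card F : ℂ) h3) hx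

variable {I : Type*} {r : I → F → End ℂ U}

theorem exists_pj (h : ∀ i, OP (r i)) (hc : ∀ i j c d, Commute (r i c) (r j d)) (f : I → F) (s : Finset I) :
    ∃ P : End ℂ U, (∀ N, (∀ i, Nv (r i) N) → ∀ x ∈ N, P x ∈ N) ∧ (∀ x, ∀ i ∈ s, P x ∈ Eg (r i) (f i)) ∧
      ∀ x, (∀ i ∈ s, x ∈ Eg (r i) (f i)) → P x = x := by
  induction s using Finset.induction_on with
  | empty => exact ⟨1, fun _ _ _ h => h, by simp, fun _ _ => rfl⟩
  | insert i s _ ih =>
    obtain ⟨P, h1, h2, h3⟩ := ih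
    refine ⟨pj (r i) (f i) * P, fun N hN x hx => (hN i).pj _ (h1 N hN x hx), fun x j hj => ?_, fun x hx => ?_⟩
    · rcases mem_insert.1 hj with rfl | hj
      · exact pj_mem (h _) _ _
      · exact (nv_Eg (hc i j) _).pj _ (h2 x j hj)
    · rw [End.mul_apply, h3 x fun j hj => hx j (mem_insert_of_mem hj), pj_eq (hx i (mem_insert_self ..)),
        if_pos rfl]

theorem le_of_joint (h : ∀ i, OP (r i)) (hc : ∀ i j c d, Commute (r i c) (r j d)) {N' : Submodule ℂ U}
    (s : Finset I) : ∀ {N : Submodule ℂ U}, (∀ i, Nv (r i) N) →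
      (∀ f : I → F, ∀ x ∈ N, (∀ i ∈ s, x ∈ Eg (r i) (f i)) → x ∈ N') → N ≤ N' := by
  induction s using Finset.induction_on with
  | empty => exact fun _ h' x hx => h' 0 x hx (by simp)
  | insert i s hi ih =>
    refine fun {N} hN h' => le_of_pj (h i) (hN i) fun β x hx hβ =>
      ih (N := N ⊓ Eg (r i) β) (fun j => (hN j).inf (nv_Eg (hc j i) β)) (fun f y hy hf => ?_) ⟨hx, hβ⟩
    refine h' (Function.update f i β) y hy.1 fun j hj => ?_
    rcases mem_insert.1 hj with rfl | hj'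
    · simpa using hy.2
    · rw [Function.update_of_ne (ne_of_mem_of_not_mem hj' hi)]; exact hf j hj'

end Kit

variable {l : Type*} [Fintype l] [DecidableEq l] {F : Type*} [Field F]

theorem move_fix (p : Matrix.symplecticGroup l F → Prop) (hm : ∀ g h, p g → p h → p (g * h)) (W : Submodule F (l ⊕ l → F))
    (hp : ∀ v c, (∀ w ∈ W, spB l F w v = 0) → p (tv v c)) {x y : l ⊕ l → F} (hx : x ∉ W) (hy : y ∉ W)
    (hxy : ∀ w ∈ W, spB l F w x = spB l F w y) : ∃ h, p h ∧ h • x = y ∧ ∀ w ∈ W, h • w = w := by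
  have key : ∀ x y, spB l F x y ≠ 0 → (∀ w ∈ W, spB l F w x = spB l F w y) → ∃ h, p h ∧ h • x = y ∧ ∀ w ∈ W, h • w = w :=
    fun x y h0 h => ⟨tv (y - x) (spB l F x y)⁻¹, hp _ _ fun w hw => by rw [map_sub, h w hw, sub_self], by
      rw [tv_smul, map_sub, spB_self, sub_zero, inv_mul_cancel₀ h0, one_smul, add_sub_cancel],
      fun w hw => tv_smul_of_ortho _ (by rw [map_sub, h w hw, sub_self])⟩
  by_cases h0 : spB l F x y = 0
  · obtain ⟨u, hu, hxu, hyu⟩ := exists_ortho_ne_zero₂ spB_nondegenerate spB_isAlt.isRefl W hx hy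
    obtain ⟨g₁, hg₁, hx₁, hw₁⟩ := key x (x + u) (by simpa [spB_self] using hxu) fun w hw => by simp [hu w hw]
    obtain ⟨g₂, hg₂, hx₂, hw₂⟩ := key (x + u) y (by
      rw [map_add, LinearMap.add_apply, h0, zero_add, spB_swap]; simpa using hyu)
      fun w hw => by simp [hu w hw, hxy w hw]
    exact ⟨g₂ * g₁, hm _ _ hg₂ hg₁, by rw [mul_smul, hx₁, hx₂], fun w hw => by
      rw [mul_smul, hw₁ w hw, hw₂ w hw]⟩
  · exact key x y h0 hxy

/-- the pointwise stabiliser of `W₀` is generated by the transvections it contains -/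
theorem gen_fix (p : Matrix.symplecticGroup l F → Prop) (h1 : p 1) (hm : ∀ g h, p g → p h → p (g * h))
    (W₀ : Submodule F (l ⊕ l → F)) (hp : ∀ v c, (∀ w ∈ W₀, spB l F w v = 0) → p (tv v c)) {g : Matrix.symplecticGroup l F}
    (hg : ∀ w ∈ W₀, g • w = w) : p g := by
  suffices ∀ W, W₀ ≤ W → ∀ g : Matrix.symplecticGroup l F, (∀ w ∈ W, g • w = w) → p g from this _ le_rfl g hg
  intro W
  induction W using WellFoundedGT.induction with | _ W ih =>
  intro hW g hg
  by_cases ht : ∀ x, x ∈ W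
  · rwa [show g = 1 from sp_ext fun v => by rw [hg v (ht v), one_smul]]
  obtain ⟨x, hx⟩ := not_forall.1 ht
  obtain ⟨h, hh, e, e'⟩ := move_fix p hm W (fun v c h => hp v c fun w hw => h w (hW hw)) hx (y := g • x)
    (fun h => hx (by rwa [← MulAction.injective g (hg _ h)]))
    fun w hw => by rw [← spB_smul g w x, hg w hw]
  rw [← mul_inv_cancel_left h g]
  refine hm _ _ hh (ih (W ⊔ F ∙ x) (lt_of_le_of_ne le_sup_left fun e => hx (e ▸ Submodule.mem_sup_right
    (Submodule.mem_span_singleton_self x))) (hW.trans le_sup_left) _ fun w hw => ?_)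
  obtain ⟨a, ha, b, hb, rfl⟩ := Submodule.mem_sup.1 hw
  obtain ⟨c, rfl⟩ := Submodule.mem_span_singleton.1 hb
  rw [mul_smul, inv_smul_eq_iff, smul_add, smul_add, hg a ha, e' a ha, sp_smul_smul, sp_smul_smul, e]

/-- short root elements -/
def av (u w : l ⊕ l → F) (c : F) : Matrix.symplecticGroup l F := tv (u + w) c * tv u (-c) * tv w (-c)

theorem av_smul {u w : l ⊕ l → F} (h : spB l F u w = 0) (c : F) (x : l ⊕ l → F) :
    av u w c • x = x + (c * spB l F x u) • w + (c * spB l F x w) • u := by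
  have h' : spB l F w u = 0 := by rw [spB_swap, h, neg_zero]
  simp only [av, mul_smul (tv _ _ * tv _ _), mul_smul (tv _ _) (tv _ _), tv_smul, map_add, map_smul,
    LinearMap.add_apply, LinearMap.smul_apply, smul_eq_mul, spB_self, h, h']
  module

theorem av_conj (g : Matrix.symplecticGroup l F) (u w : l ⊕ l → F) (c : F) : g * av u w c * g⁻¹ = av (g • u) (g • w) c := by
  simp only [av, ← smul_add, ← tv_conj]; group

theorem comm_tv {g : Matrix.symplecticGroup l F} {v : l ⊕ l → F} (h : g • v = v) (c : F) : Commute g (tv v c) := by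
  rw [Commute, SemiconjBy, ← mul_inv_eq_iff_eq_mul, tv_conj, h]

theorem av_fix {u w v : l ⊕ l → F} (h : spB l F u w = 0) (h1 : spB l F v u = 0) (h2 : spB l F v w = 0) (c : F) :
    av u w c • v = v := by simp [av_smul h, h1, h2]

variable [Fintype F] {U : Type*} [AddCommGroup U] [Module ℂ U] (ρ : Matrix.symplecticGroup l F →* End ℂ U)

/-- long root subgroups -/
def T (v : l ⊕ l → F) (c : F) : End ℂ U := ρ (tv v c)

/-- short root subgroups -/
def A (u w : l ⊕ l → F) (c : F) : End ℂ U := ρ (av u w c)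

theorem op_T (v : l ⊕ l → F) : OP (T ρ v) :=
  ⟨by rw [T, tv_zero, map_one], fun a b => by rw [T, ← tv_mul, map_mul]; rfl⟩

theorem op_A {u w : l ⊕ l → F} (h : spB l F u w = 0) : OP (A ρ u w) :=
  ⟨by simp [A, av, tv_zero], fun a b => by
    have h' : spB l F w u = 0 := by rw [spB_swap, h, neg_zero]
    rw [A, A, A, ← map_mul]
    refine congrArg ρ (sp_ext fun x => ?_)
    simp only [mul_smul (av _ _ _), av_smul h, map_add, map_smul, LinearMap.add_apply,
      LinearMap.smul_apply, smul_eq_mul, spB_self, h, h']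
    module⟩

theorem TT {u w : l ⊕ l → F} (h : spB l F u w = 0) (c d : F) : Commute (T ρ u c) (T ρ w d) :=
  (tv_commute h c d).map ρ

theorem AT {u w v : l ⊕ l → F} (h : spB l F u w = 0) (h1 : spB l F v u = 0) (h2 : spB l F v w = 0) (c d : F) :
    Commute (A ρ u w c) (T ρ v d) := (comm_tv (av_fix h h1 h2 c) d).map ρ

variable {ρ}

theorem Eg_T_smul {v : l ⊕ l → F} {γ : F} {x : U} (h : x ∈ Eg (T ρ v) γ) (g : Matrix.symplecticGroup l F) :
    ρ g x ∈ Eg (T ρ (g • v)) γ := mem_Eg.2 fun c => by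
  rw [T, ← tv_conj, ← End.mul_apply, ← map_mul, inv_mul_cancel_right, map_mul, End.mul_apply,
    show ρ (tv v c) x = _ from mem_Eg.1 h c, map_smul]

theorem Eg_A_smul {u v : l ⊕ l → F} {γ : F} {x : U} (h : x ∈ Eg (A ρ u v) γ) (g : Matrix.symplecticGroup l F) :
    ρ g x ∈ Eg (A ρ (g • u) (g • v)) γ := mem_Eg.2 fun c => by
  rw [A, ← av_conj, ← End.mul_apply, ← map_mul, inv_mul_cancel_right, map_mul, End.mul_apply,
    show ρ (av u v c) x = _ from mem_Eg.1 h c, map_smul]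

theorem Eg_T_sc {v : l ⊕ l → F} {γ : F} {x : U} (h : x ∈ Eg (T ρ v) γ) (a : F) :
    x ∈ Eg (T ρ (a • v)) (a ^ 2 * γ) := mem_Eg.2 fun c => by
  rw [T, tv_smul_left, show ρ (tv v _) x = _ from mem_Eg.1 h _]; congr 2; ring

theorem Eg_A {u w : l ⊕ l → F} {a b e : F} {x : U} (h1 : x ∈ Eg (T ρ u) a) (h2 : x ∈ Eg (T ρ w) b)
    (h3 : x ∈ Eg (T ρ (u + w)) e) : x ∈ Eg (A ρ u w) (e - a - b) := mem_Eg.2 fun c => by
  rw [A, av, map_mul, map_mul, End.mul_apply, End.mul_apply, show ρ (tv w _) x = _ from mem_Eg.1 h2 _,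
    map_smul, show ρ (tv u _) x = _ from mem_Eg.1 h1 _, map_smul, map_smul,
    show ρ (tv _ _) x = _ from mem_Eg.1 h3 _]
  simp only [smul_smul, ← AddChar.map_add_eq_mul]
  congr 2; ring

variable (ρ) in
/-- representations of rank at most one -/
def RK : Prop := ∀ u w, spB l F u w = 0 → ∀ γ δ γ' (x : U), x ≠ 0 → x ∈ Eg (T ρ u) γ → x ∈ Eg (A ρ u w) δ →
  x ∈ Eg (T ρ w) γ' → δ ^ 2 = 4 * γ * γ'

theorem four_ne (h2 : (2 : F) ≠ 0) : (4 : F) ≠ 0 := by
  rw [show (4 : F) = 2 * 2 by norm_num]; exact mul_ne_zero h2 h2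

variable (h2 : (2 : F) ≠ 0) (hρ : RK ρ) {u w : l ⊕ l → F} (h : spB l F u w = 0)
include h

include hρ in
theorem L0 {x : U} (hx : x ∈ Eg (T ρ u) 0) : x ∈ Eg (A ρ u w) 0 := by
  have h' : spB l F w u = 0 := by rw [spB_swap, h, neg_zero]
  refine le_of_pj (op_A ρ h) (nv_Eg (AT ρ h (spB_self u) h) 0) (fun δ y hy hδ => le_of_pj (op_T ρ w)
    ((nv_Eg (TT ρ h') 0).inf (nv_Eg (fun c d => (AT ρ h h' (spB_self w) d c).symm) δ))
    (fun γ z hz hγ => ?_) ⟨hy, hδ⟩) hx
  by_cases h0 : z = 0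
  · rw [h0]; exact zero_mem _
  · have := hρ u w h _ _ _ z h0 hz.1 hz.2 hγ
    rw [mul_zero, zero_mul, pow_eq_zero_iff two_ne_zero] at this
    exact this ▸ hz.2

include hρ in
theorem L0' {x : U} (hx : x ∈ Eg (T ρ u) 0) (hx' : x ∈ Eg (T ρ w) 0) : x ∈ Eg (T ρ (u + w)) 0 :=
  mem_Eg0.2 fun c => by
    have : tv (u + w) c = av u w c * tv w c * tv u c := by
      simp only [av, ← tv_inv]; group
    rw [T, this, map_mul, map_mul, End.mul_apply, End.mul_apply, show ρ (tv u _) x = _ from mem_Eg0.1 hx _,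
      show ρ (tv w _) x = _ from mem_Eg0.1 hx' _]
    exact mem_Eg0.1 (L0 hρ h hx) c

include h2 hρ

theorem L1 {γ δ : F} (hγ : γ ≠ 0) {x : U} (hx : x ∈ Eg (T ρ u) γ) (hx' : x ∈ Eg (A ρ u w) δ) :
    x ∈ Eg (T ρ w) (δ ^ 2 / (4 * γ)) := by
  have h' : spB l F w u = 0 := by rw [spB_swap, h, neg_zero]
  refine le_of_pj (op_T ρ w) ((nv_Eg (TT ρ h') γ).inf
    (nv_Eg (fun c d => (AT ρ h h' (spB_self w) d c).symm) δ)) (fun γ' z hz hγ' => ?_) ⟨hx, hx'⟩
  by_cases h0 : z = 0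
  · rw [h0]; exact zero_mem _
  · rwa [hρ u w h _ _ _ z h0 hz.1 hz.2 hγ', mul_div_cancel_left₀ _ (mul_ne_zero (four_ne h2) hγ)]

theorem L2 {γ : F} (hγ : γ ≠ 0) {N : Submodule ℂ U} (hN : N ≤ Eg (T ρ u) γ) (hA : Nv (A ρ u w) N) :
    Nv (T ρ w) N := fun c => le_of_pj (N' := N.comap (T ρ w c)) (op_A ρ h) hA fun _ x hx hδ =>
  show T ρ w c x ∈ N from mem_Eg.1 (L1 h2 hρ h hγ (hN hx) hδ) c ▸ N.smul_mem _ hx

theorem L3 {γ : F} (hγ : γ ≠ 0) {x : U} (hx : x ∈ Eg (T ρ u) γ) : pj (T ρ w) 0 x = pj (A ρ u w) 0 x := by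
  refine le_of_pj (N' := LinearMap.eqLocus (pj (T ρ w) 0) (pj (A ρ u w) 0)) (op_A ρ h)
    (nv_Eg (AT ρ h (spB_self u) h) γ) (fun δ y hy hδ => ?_) hx
  rw [LinearMap.mem_eqLocus, pj_eq hδ, pj_eq (L1 h2 hρ h hγ hy hδ)]
  simp [eq_comm (a := (0 : F)), hγ, four_ne h2]

end H63.SpW
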