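import Cfsg.Agent.H63.SpW1

/-! Representations of `Sp_{2n}(q)` of rank at most one: the submodule generated by a weight vector
of the Siegel radical. -/

set_option autoImplicit false
set_option linter.unusedSectionVars false

noncomputable section

namespace H63.SpW

open Module H54 Finset
open scoped Classical

variable {l : Type*} [Fintype l] [DecidableEq l] {F : Type*} [Field F]

variable (l F) in
/-- the standard Lagrangian subspace -/
def X : Submodule F (l ⊕ l → F) where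
  carrier := {v | ∀ i, v (Sum.inr i) = 0}
  add_mem' ha hb i := by simp [ha i, hb i]
  zero_mem' _ := rfl
  smul_mem' _ _ ha i := by simp [ha i]

theorem X_iso {u v : l ⊕ l → F} (hu : u ∈ X l F) (hv : v ∈ X l F) : spB l F u v = 0 := by
  simp [spB_eq_sum, show ∀ i, u (Sum.inr i) = 0 from hu, show ∀ i, v (Sum.inr i) = 0 from hv]

theorem single_mem (i : l) : Pi.single (Sum.inl i) (1 : F) ∈ X l F := fun j => by simp

theorem X_max {w : l ⊕ l → F} (h : ∀ u ∈ X l F, spB l F u w = 0) : w ∈ X l F := fun i => by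
  simpa [spB_single_inl_left] using h _ (single_mem i)

theorem ex_one {w : l ⊕ l → F} (h : w ∉ X l F) : ∃ u ∈ X l F, spB l F u w = 1 := by
  obtain ⟨u, hu, h0⟩ : ∃ u ∈ X l F, spB l F u w ≠ 0 := by
    by_contra! h'; exact h (X_max h')
  exact ⟨(spB l F u w)⁻¹ • u, Submodule.smul_mem _ _ hu, by simp [h0]⟩

theorem not_mem_X {u w : l ⊕ l → F} (hu : u ∈ X l F) (h : spB l F u w ≠ 0) : w ∉ X l F :=
  fun hw => h (X_iso hu hw)

theorem swap0 {u w : l ⊕ l → F} (h : spB l F u w = 0) : spB l F w u = 0 := by rw [spB_swap, h, neg_zero]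

theorem ex_frame [Nontrivial l] {w : l ⊕ l → F} (h : w ∉ X l F) : ∃ u₁ ∈ X l F, ∃ u₂ ∈ X l F, ∃ w',
    spB l F u₁ w = 1 ∧ spB l F u₂ w = 0 ∧ spB l F u₁ w' = 0 ∧ spB l F u₂ w' = 1 ∧ spB l F w w' = 0 := by
  obtain ⟨u₁, h1, e1⟩ := ex_one h
  obtain ⟨u₂, h2, h0, e2⟩ : ∃ u₂ ∈ X l F, u₂ ≠ 0 ∧ spB l F u₂ w = 0 := by
    obtain ⟨i, j, hij⟩ := exists_pair_ne l
    by_cases hi : w (Sum.inr i) = 0
    · exact ⟨_, single_mem i, by simp, by simp [spB_single_inl_left, hi]⟩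
    · refine ⟨w (Sum.inr i) • Pi.single (Sum.inl j) 1 - w (Sum.inr j) • Pi.single (Sum.inl i) 1,
        Submodule.sub_mem _ (Submodule.smul_mem _ _ (single_mem j)) (Submodule.smul_mem _ _ (single_mem i)),
        fun h => hi (by simpa [hij.symm] using congrFun h (Sum.inl j)), ?_⟩
      simp [spB_single_inl_left, mul_comm]
  obtain ⟨v, hv, hv'⟩ := exists_ortho_ne_zero spB_nondegenerate spB_isAlt.isRefl (.span F {u₁, w})
    (x := u₂) fun h => h0 (by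
      obtain ⟨a, b, rfl⟩ := Submodule.mem_span_pair.1 h
      have h3 := X_iso h1 h2
      simp [spB_self, e1] at h3 e2
      simp [h3, e2])
  exact ⟨u₁, h1, u₂, h2, (spB l F u₂ v)⁻¹ • v, e1, e2, by simp [hv u₁ (Submodule.subset_span (by simp))],
    by simp [hv'], by simp [hv w (Submodule.subset_span (by simp))]⟩

/-- the Siegel parabolic -/
def PP (g : Matrix.symplecticGroup l F) : Prop := ∀ u ∈ X l F, g • u ∈ X l F

theorem PP.mul {g h : Matrix.symplecticGroup l F} (hg : PP g) (hh : PP h) : PP (g * h) := fun u hu => by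
  rw [mul_smul]; exact hg _ (hh u hu)

theorem PP.inv {g : Matrix.symplecticGroup l F} (hg : PP g) : PP g⁻¹ := fun u hu => X_max fun v hv => by
  rw [← spB_smul g, smul_inv_smul, X_iso (hg v hv) hu]

theorem PP.not_mem {g : Matrix.symplecticGroup l F} (hg : PP g) {w : l ⊕ l → F} (hw : w ∉ X l F) : g • w ∉ X l F :=
  fun h => hw (inv_smul_smul g w ▸ hg.inv _ h)

theorem pp_fix {g : Matrix.symplecticGroup l F} (hg : ∀ u ∈ X l F, g • u = u) : PP g := fun u hu => (hg u hu).symm ▸ hu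

theorem pp_tv {u : l ⊕ l → F} (hu : u ∈ X l F) (c : F) : PP (tv u c) :=
  pp_fix fun _ hv => tv_smul_of_ortho _ (X_iso hv hu)

theorem pp_av {u w : l ⊕ l → F} (hu : u ∈ X l F) (h : spB l F u w = 0) (c : F) : PP (av u w c) := fun v hv => by
  rw [av_smul h, X_iso hv hu, mul_zero, zero_smul, add_zero]
  exact Submodule.add_mem _ hv (Submodule.smul_mem _ _ hu)

variable [Fintype F] {U : Type*} [AddCommGroup U] [Module ℂ U] (ρ : Matrix.symplecticGroup l F →* End ℂ U)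

/-- weight spaces -/
def WS (f : X l F → F) : Submodule ℂ U := ⨅ u : X l F, Eg (T ρ u) (f u)

/-- weights of rank one -/
def wt (α : F) (w : l ⊕ l → F) (u : X l F) : F := α * spB l F u w ^ 2

theorem exists_Pw (f : X l F → F) : ∃ P : End ℂ U, (∀ N, (∀ u : X l F, Nv (T ρ u) N) → ∀ x ∈ N, P x ∈ N) ∧
    (∀ x, P x ∈ WS ρ f) ∧ ∀ x ∈ WS ρ f, P x = x := by
  obtain ⟨P, h1, h2, h3⟩ := exists_pj (r := fun u : X l F => T ρ u) (fun u => op_T ρ u)
    (fun u v => TT ρ (X_iso u.2 v.2)) f univ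
  exact ⟨P, h1, fun x => (Submodule.mem_iInf _).2 fun u => h2 x u (mem_univ u),
    fun x hx => h3 x fun u _ => (Submodule.mem_iInf _).1 hx u⟩

/-- the projector onto a weight space -/
def Pw (f : X l F → F) : End ℂ U := (exists_Pw ρ f).choose

variable {ρ}

theorem mem_WS {f : X l F → F} {x : U} : x ∈ WS ρ f ↔ ∀ u : X l F, x ∈ Eg (T ρ u) (f u) :=
  Submodule.mem_iInf _

theorem Pw_inv {N : Submodule ℂ U} (h : ∀ u : X l F, Nv (T ρ u) N) (f : X l F → F) {x : U} (hx : x ∈ N) :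
    Pw ρ f x ∈ N := (exists_Pw ρ f).choose_spec.1 N h x hx

theorem Pw_mem (f : X l F → F) (x : U) : Pw ρ f x ∈ WS ρ f := (exists_Pw ρ f).choose_spec.2.1 x

theorem Pw_eq {f' : X l F → F} {x : U} (hx : x ∈ WS ρ f') (f : X l F → F) :
    Pw ρ f x = if f = f' then x else 0 := by
  split_ifs with h
  · exact (exists_Pw ρ f).choose_spec.2.2 x (h ▸ hx)
  · by_contra h0
    exact h (funext fun u => Eg_disj (mem_WS.1 (Pw_mem f x) u) (mem_WS.1 (Pw_inv
      (fun v => nv_of_le (iInf_le _ v)) f hx) u) h0)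

theorem le_of_WS {N N' : Submodule ℂ U} (hN : ∀ u : X l F, Nv (T ρ u) N)
    (h : ∀ f, ∀ x ∈ N, x ∈ WS ρ f → x ∈ N') : N ≤ N' :=
  le_of_joint (r := fun u : X l F => T ρ u) (fun u => op_T ρ u) (fun u v => TT ρ (X_iso u.2 v.2)) univ hN
    fun f x hx hf => h f x hx (mem_WS.2 fun u => hf u (mem_univ u))

theorem sum_Pw (x : U) : ∑ f, Pw ρ f x = x := by
  have := le_of_WS (ρ := ρ) (N := ⊤) (N' := LinearMap.eqLocus (∑ f, Pw ρ f) 1) (fun _ _ _ _ => trivial)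
    (fun f x _ hx => by simp [LinearMap.mem_eqLocus, Pw_eq hx]) (Submodule.mem_top (x := x))
  simpa [LinearMap.mem_eqLocus] using this

theorem WS_act {g : Matrix.symplecticGroup l F} (hg : PP g) {f : X l F → F} {x : U} (hx : x ∈ WS ρ f) :
    ρ g x ∈ WS ρ fun u => f ⟨g⁻¹ • u.1, hg.inv _ u.2⟩ := mem_WS.2 fun u => by
  simpa using Eg_T_smul (mem_WS.1 hx ⟨g⁻¹ • u.1, hg.inv _ u.2⟩) g

theorem wt_act {g : Matrix.symplecticGroup l F} (hg : PP g) (α : F) (w : l ⊕ l → F) :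
    wt α (g • w) = fun u => wt α w ⟨g⁻¹ • u.1, hg.inv _ u.2⟩ := funext fun u => by
  simp [wt, spB_inv_smul_left]

theorem WS_smul {g : Matrix.symplecticGroup l F} (hg : PP g) {α : F} {w : l ⊕ l → F} {x : U} (hx : x ∈ WS ρ (wt α w)) :
    ρ g x ∈ WS ρ (wt α (g • w)) := wt_act hg α w ▸ WS_act hg hx

theorem Pw_smul {g : Matrix.symplecticGroup l F} (hg : PP g) (α : F) (w : l ⊕ l → F) (x : U) :
    Pw ρ (wt α (g • w)) (ρ g x) = ρ g (Pw ρ (wt α w) x) := by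
  refine le_of_WS (ρ := ρ) (N := ⊤) (N' := LinearMap.eqLocus (Pw ρ (wt α (g • w)) * ρ g)
    (ρ g * Pw ρ (wt α w))) (fun _ _ _ _ => trivial) (fun f x _ hx => ?_) (Submodule.mem_top (x := x))
  rw [LinearMap.mem_eqLocus, End.mul_apply, End.mul_apply, Pw_eq hx, Pw_eq (WS_act hg hx), wt_act hg,
    apply_ite (ρ g), map_zero]
  exact if_congr ⟨fun h => funext fun u => by simpa using congrFun h ⟨g • u.1, hg _ u.2⟩,
    fun h => by rw [h]⟩ rfl rfl

theorem T_conj (g : Matrix.symplecticGroup l F) (w : l ⊕ l → F) (c : F) (x : U) : T ρ (g • w) c (ρ g x) = ρ g (T ρ w c x) := by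
  rw [T, T, ← tv_conj, ← End.mul_apply, ← map_mul, inv_mul_cancel_right, map_mul, End.mul_apply]

theorem pj_conj (g : Matrix.symplecticGroup l F) (w : l ⊕ l → F) (β : F) (x : U) :
    pj (T ρ (g • w)) β (ρ g x) = ρ g (pj (T ρ w) β x) := by
  simp only [pj_apply, T_conj, map_smul, map_sum]

theorem fix_inv {g : Matrix.symplecticGroup l F} (hg : ∀ u ∈ X l F, g • u = u) {N : Submodule ℂ U} (hN : ∀ u : X l F, Nv (T ρ u) N) :
    ∀ x ∈ N, ρ g x ∈ N :=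
  gen_fix (fun g => ∀ x ∈ N, ρ g x ∈ N) (by simp) (fun g h hg hh x hx => by
    rw [map_mul]; exact hg _ (hh x hx)) _ (fun v c h => hN ⟨v, X_max h⟩ c) hg

variable (ρ) in
/-- elements of the parabolic acting trivially on the zero weight space -/
def P0 (g : Matrix.symplecticGroup l F) : Prop := PP g ∧ ∀ z ∈ WS ρ 0, ρ g z = z

theorem P0.mul {g h : Matrix.symplecticGroup l F} (hg : P0 ρ g) (hh : P0 ρ h) : P0 ρ (g * h) :=
  ⟨hg.1.mul hh.1, fun z hz => by rw [map_mul, End.mul_apply, hh.2 z hz, hg.2 z hz]⟩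

theorem rho_inv (g : Matrix.symplecticGroup l F) (x : U) : ρ g⁻¹ (ρ g x) = x := by
  rw [← End.mul_apply, ← map_mul, inv_mul_cancel, map_one, End.one_apply]

theorem P0.inv {g : Matrix.symplecticGroup l F} (hg : P0 ρ g) : P0 ρ g⁻¹ :=
  ⟨hg.1.inv, fun z hz => by rw [← hg.2 z hz, rho_inv, hg.2 z hz]⟩

theorem trans0 [Nontrivial l] (hρ : RK ρ) {w w' : l ⊕ l → F} (hw : w ∉ X l F) (hw' : w' ∉ X l F) :
    ∃ g, P0 ρ g ∧ g • w = w' := by
  have h1 : ∀ w w', w ∉ X l F → w' ∉ X l F → ∀ u ∈ X l F, spB l F u w = 0 → spB l F u w' ≠ 0 →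
      ∃ g, P0 ρ g ∧ g • w = w' := fun w w' hw hw' u hu e e' => by
    obtain ⟨u₁, h1, e1⟩ := ex_one hw
    obtain ⟨v, hv, e2, e3⟩ : ∃ v ∈ X l F, spB l F v w = 1 ∧ spB l F v w' = 1 :=
      ⟨u₁ + ((1 - spB l F u₁ w') / spB l F u w') • u, Submodule.add_mem _ h1 (Submodule.smul_mem _ _ hu),
        by simp [e, e1], by simp [e']⟩
    have e4 : spB l F v (w' - w) = 0 := by simp [e2, e3]
    have hp := pp_av hv e4 (-1)
    obtain ⟨h, hh, e5, -⟩ := move_fix (P0 ρ) (fun _ _ => P0.mul) (X l F) (fun v c h =>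
      ⟨pp_tv (X_max h) c, fun z hz => mem_Eg0.1 (mem_WS.1 hz ⟨v, X_max h⟩) c⟩) (hp.not_mem hw) hw'
      fun y hy => by simp [av_smul e4, (spB_swap w v).trans (congrArg _ e2), X_iso hy hv]
    exact ⟨h * av v (w' - w) (-1), hh.mul ⟨hp, fun z hz => mem_Eg0.1 (L0 hρ e4 (mem_WS.1 hz ⟨v, hv⟩)) _⟩,
      by rw [mul_smul, e5]⟩
  obtain ⟨u₁, hu₁, u₂, hu₂, v, e1, e2, e3, e4, e5⟩ := ex_frame hw
  by_cases h : spB l F u₂ w' = 0
  · have hv := not_mem_X hu₂ (e4 ▸ one_ne_zero)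
    obtain ⟨g, hg, e⟩ := h1 w v hw hv u₂ hu₂ e2 (e4 ▸ one_ne_zero)
    obtain ⟨g', hg', e'⟩ := h1 w' v hw' hv u₂ hu₂ h (e4 ▸ one_ne_zero)
    exact ⟨g'⁻¹ * g, hg'.inv.mul hg, by rw [mul_smul, e, ← e', inv_smul_smul]⟩
  · exact h1 w w' hw hw' u₂ hu₂ e2 h

variable (ρ) in
/-- the span of the orbit under the parabolic -/
def Y (m : U) : Submodule ℂ U := .span ℂ {x | ∃ g, PP g ∧ x = ρ g m}

variable (ρ) in
/-- the extra vectors of weight zero -/
def Z (m : U) : Submodule ℂ U := WS ρ 0 ⊓ ⨅ w : {w // w ∉ X l F},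
  (Y ρ m).comap ((Fintype.card F : ℂ) • pj (T ρ w) 0 - 1)

theorem mem_Z {m z : U} : z ∈ Z ρ m ↔ z ∈ WS ρ 0 ∧
    ∀ w ∉ X l F, (Fintype.card F : ℂ) • pj (T ρ w) 0 z - z ∈ Y ρ m := by
  simp [Z]

theorem mem_Y (m : U) {g : Matrix.symplecticGroup l F} (hg : PP g) : ρ g m ∈ Y ρ m := Submodule.subset_span ⟨g, hg, rfl⟩

theorem Y_le {m : U} {N : Submodule ℂ U} (h : ∀ g, PP g → ρ g m ∈ N) : Y ρ m ≤ N :=
  Submodule.span_le.2 (by rintro _ ⟨g, hg, rfl⟩; exact h g hg)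

theorem Y_inv {m : U} {g : Matrix.symplecticGroup l F} (hg : PP g) {x : U} (hx : x ∈ Y ρ m) : ρ g x ∈ Y ρ m :=
  Y_le (N := (Y ρ m).comap (ρ g)) (fun h hh => by
    rw [Submodule.mem_comap, ← End.mul_apply, ← map_mul]; exact mem_Y m (hg.mul hh)) hx

theorem Y_nv (m : U) (u : X l F) : Nv (T ρ u) (Y ρ m) := fun c _ => Y_inv (pp_tv u.2 c)

theorem Z_inv {m : U} {g : Matrix.symplecticGroup l F} (hg : PP g) {x : U} (hx : x ∈ Z ρ m) : ρ g x ∈ Z ρ m :=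
  mem_Z.2 ⟨mem_WS.2 fun u => mem_WS.1 (WS_act hg (mem_Z.1 hx).1) u, fun w hw => by
    rw [← smul_inv_smul g w, pj_conj, ← map_smul, ← map_sub]
    exact Y_inv hg ((mem_Z.1 hx).2 _ (hg.inv.not_mem hw))⟩

variable [Nontrivial l] (h2 : (2 : F) ≠ 0) (hρ : RK ρ) {m : U}
include hρ

theorem mem_Z_of {z : U} (hz : z ∈ WS ρ 0) {w : l ⊕ l → F} (hw : w ∉ X l F)
    (h : (Fintype.card F : ℂ) • pj (T ρ w) 0 z - z ∈ Y ρ m) : z ∈ Z ρ m := mem_Z.2 ⟨hz, fun w' hw' => by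
  obtain ⟨g, hg, rfl⟩ := trans0 hρ hw hw'
  rw [← hg.2 z hz, pj_conj, ← map_smul, ← map_sub]
  exact Y_inv hg.1 h⟩

include h2

theorem C1 {u w : l ⊕ l → F} (hu : u ∈ X l F) (h : spB l F u w = 0) {γ : F} (hγ : γ ≠ 0) :
    Nv (T ρ w) (Y ρ m ⊓ Eg (T ρ u) γ) :=
  L2 h2 hρ h hγ inf_le_right (Nv.inf (fun c _ => Y_inv (pp_av hu h c)) (nv_Eg (AT ρ h (spB_self u) h) γ))

variable {α : F} (hα : α ≠ 0) {w₀ : l ⊕ l → F} (hw₀ : w₀ ∉ X l F) (hm : m ∈ WS ρ (wt α w₀))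
include hα hw₀ hm

theorem T_m {w : l ⊕ l → F} (hw : w ∉ X l F) (c : F) : T ρ w c m ∈ Y ρ m ⊔ Z ρ m := by
  have hY : m ∈ Y ρ m := by simpa using mem_Y (ρ := ρ) m (pp_fix (g := 1) fun u _ => one_smul _ u)
  by_cases h : ∃ u ∈ X l F, spB l F u w = 0 ∧ spB l F u w₀ ≠ 0
  · obtain ⟨u, hu, e, e'⟩ := h
    exact Submodule.mem_sup_left (C1 h2 hρ hu e (mul_ne_zero hα (pow_ne_zero 2 e')) c m
      ⟨hY, mem_WS.1 hm ⟨u, hu⟩⟩).1
  push Not at h
  obtain ⟨u₁, hu₁, u₂, hu₂, w', e1, e2, e3, e4, e5⟩ := ex_frame hw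
  have h3 : ∀ u ∈ X l F, spB l F (u - spB l F u w • u₁) w = 0 := fun u hu => by simp [e1]
  have h4 : ∀ u ∈ X l F, u - spB l F u w • u₁ ∈ X l F := fun u hu =>
    Submodule.sub_mem _ hu (Submodule.smul_mem _ _ hu₁)
  have hb : spB l F u₁ w₀ ≠ 0 := fun e => hw₀ (X_max fun u hu => by simpa [e] using h _ (h4 u hu) (h3 u hu))
  have h5 : (Fintype.card F : ℂ) • pj (T ρ w') 0 (T ρ w c m) - T ρ w c m ∈ Y ρ m := by
    rw [← pj_comm (TT ρ e5 c), ← map_smul, ← map_sub, L3 h2 hρ e3 (mul_ne_zero hα (pow_ne_zero 2 hb))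
      (mem_WS.1 hm ⟨u₁, hu₁⟩), pj_apply, smul_smul, mul_inv_cancel₀ q_ne, one_smul,
      ← add_sum_erase _ _ (mem_univ 0), (op_A ρ e3).zero]
    simp only [mul_zero, neg_zero, AddChar.map_zero_eq_one, one_smul, End.one_apply, add_sub_cancel_left,
      map_sum]
    refine Submodule.sum_mem _ fun r hr => (C1 h2 hρ hu₂ e2 ?_ c _ ⟨mem_Y m (pp_av hu₁ e3 r),
      mem_WS.1 (WS_smul (pp_av hu₁ e3 r) hm) ⟨u₂, hu₂⟩⟩).1
    simp [wt, av_smul e3, hα, h u₂ hu₂ e2, e4, X_iso hu₂ hu₁, ne_of_mem_erase hr,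
      show spB l F w₀ u₁ ≠ 0 from fun e => hb (swap0 e)]
  rw [← sum_pj (op_T ρ u₁) (T ρ w c m)]
  refine Submodule.sum_mem _ fun γ _ => ?_
  have h6 := (Y_nv m ⟨u₁, hu₁⟩).pj γ h5
  rw [map_sub, map_smul, pj_comm (fun d => ?_)] at h6
  swap
  · simp only [pj]
    exact (Commute.sum_left _ _ _ fun a _ => (TT ρ e3 a d).smul_left _).smul_left _
  by_cases hγ : γ = 0
  · refine Submodule.mem_sup_right (mem_Z_of hρ (mem_WS.2 fun u => ?_) (not_mem_X hu₂ (e4 ▸ one_ne_zero)) h6)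
    have h7 := Eg_T_sc (pj_mem (op_T ρ u₁) γ (T ρ w c m)) (spB l F u w)
    have h8 := mem_WS.1 hm ⟨_, h4 u u.2⟩
    rw [wt, h _ (h4 u u.2) (h3 u u.2), zero_pow two_ne_zero, mul_zero] at h8
    rw [hγ, mul_zero] at h7
    simpa [hγ] using L0' hρ (X_iso (Submodule.smul_mem _ _ hu₁) (h4 u u.2)) h7
      ((nv_Eg (TT ρ (X_iso hu₁ (h4 u u.2))) 0).pj 0 (nv_Eg (TT ρ (swap0 (h3 u u.2))) 0 c m h8))
  · have h7 := pj_mem (op_T ρ u₁) γ (T ρ w c m)
    exact Submodule.mem_sup_left (mem_of_pj (op_T ρ w') (C1 h2 hρ hu₁ e3 hγ) ⟨h6, Submodule.sub_mem _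
      (Submodule.smul_mem _ _ ((nv_Eg (TT ρ (swap0 e3)) γ).pj 0 h7)) h7⟩).1

theorem YZ_inv (g : Matrix.symplecticGroup l F) : ∀ x ∈ Y ρ m ⊔ Z ρ m, ρ g x ∈ Y ρ m ⊔ Z ρ m := by
  have hP : ∀ g, PP g → ∀ x ∈ Y ρ m ⊔ Z ρ m, ρ g x ∈ Y ρ m ⊔ Z ρ m := fun g hg x hx => by
    obtain ⟨y, hy, z, hz, rfl⟩ := Submodule.mem_sup.1 hx
    rw [map_add]
    exact Submodule.add_mem_sup (Y_inv hg hy) (Z_inv hg hz)
  refine gen_fix (fun g => ∀ x ∈ Y ρ m ⊔ Z ρ m, ρ g x ∈ Y ρ m ⊔ Z ρ m) (by simp) (fun g h hg hh x hx => by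
    rw [map_mul]; exact hg _ (hh x hx)) ⊥ (fun w c _ => ?_) (by simp)
  by_cases hw : w ∈ X l F
  · exact hP _ (pp_tv hw c)
  have hY : ∀ y ∈ Y ρ m, T ρ w c y ∈ Y ρ m ⊔ Z ρ m := fun y hy =>
    Y_le (N := (Y ρ m ⊔ Z ρ m).comap (T ρ w c)) (fun g hg => by
      rw [Submodule.mem_comap, ← smul_inv_smul g w, T_conj]
      exact hP g hg _ (T_m h2 hρ hα hw₀ hm (hg.inv.not_mem hw) c)) hy
  intro x hx
  obtain ⟨y, hy, z, hz, rfl⟩ := Submodule.mem_sup.1 hx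
  rw [map_add]
  refine Submodule.add_mem _ (hY y hy) ?_
  have h1 := (mem_Z.1 hz).2 w hw
  have h3 := Submodule.sub_mem _ (Submodule.add_mem_sup h1 hz) (hY _ h1)
  rw [map_sub, map_smul, mem_Eg0.1 (pj_mem (op_T ρ w) 0 z)] at h3
  simpa [T] using h3

variable {ε : ℂ} (hε : ∀ g : Matrix.symplecticGroup l F, (∀ v : l ⊕ l → F, g • v = -v) → ∀ x, ρ g x = ε • x)
include hε

theorem Y1 {g : Matrix.symplecticGroup l F} (hg : PP g) (h : wt α (g • w₀) = wt α w₀) : ρ g m ∈ ℂ ∙ m := by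
  have key : ∀ g : Matrix.symplecticGroup l F, PP g → (∀ u ∈ X l F, spB l F u (g • w₀) = spB l F u w₀) → ρ g m ∈ ℂ ∙ m := fun g hg h => by
    obtain ⟨u₀, hu₀, e0⟩ := ex_one hw₀
    have hv := Submodule.sub_mem _ (hg _ hu₀) hu₀
    have e1 : spB l F (g • u₀ - u₀) w₀ = 0 := by
      rw [map_sub, LinearMap.sub_apply, ← h _ (hg _ hu₀), spB_smul, sub_self]
    have hgm : ρ g m ∈ WS ρ (wt α w₀) := by
      have := WS_smul hg hm
      rwa [show wt α (g • w₀) = wt α w₀ from funext fun u => by rw [wt, h _ u.2, wt]] at this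
    have e2 : ρ (av (g • u₀ - u₀) w₀ (-1) * g) m = ρ g m := by
      rw [map_mul]
      exact mem_Eg0.1 (L0 hρ e1 (by
        simpa only [wt, e1, zero_pow two_ne_zero, mul_zero] using mem_WS.1 hgm ⟨_, hv⟩)) _
    let K : Matrix.symplecticGroup l F → Prop := fun k => ∃ v c, spB l F u₀ v = 0 ∧
      ∀ x, k • x = x + spB l F x u₀ • v + (spB l F x v + c * spB l F x u₀) • u₀
    let N := Submodule.span ℂ {x | ∃ k, K k ∧ x = ρ k m}
    have hK : ∀ k, K k → PP k := by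
      rintro k ⟨v, c, -, hk⟩ x hx
      rw [hk, X_iso hx hu₀, zero_smul, add_zero]
      exact Submodule.add_mem _ hx (Submodule.smul_mem _ _ hu₀)
    have hN : ∀ {N' : Submodule ℂ U}, (∀ k, K k → ρ k m ∈ N') → N ≤ N' := fun h =>
      Submodule.span_le.2 (by rintro _ ⟨k, hk, rfl⟩; exact h k hk)
    have h3 : ∀ x ∈ N, ρ (av (g • u₀ - u₀) w₀ (-1) * g) x ∈ N := by
      refine gen_fix (fun g => ∀ x ∈ N, ρ g x ∈ N) (by simp) (fun g h hg hh x hx => by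
        rw [map_mul]; exact hg _ (hh x hx)) (F ∙ u₀) (fun v c hv => ?_) fun w hw => ?_
      · have hv' := hv _ (Submodule.mem_span_singleton_self u₀)
        refine L2 h2 hρ hv' hα (hN ?_) (fun d => hN (N' := N.comap (A ρ u₀ v d)) ?_) c
        · rintro k ⟨v', c', e, hk⟩
          simpa [hk, spB_self, e, wt, e0] using Eg_T_smul (mem_WS.1 hm ⟨u₀, hu₀⟩) k
        · rintro k ⟨v', c', e, hk⟩
          rw [Submodule.mem_comap, A, ← End.mul_apply, ← map_mul]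
          refine Submodule.subset_span ⟨_, ⟨v' + d • v, c' + d * spB l F v' v, by simp [e, hv'], fun x => ?_⟩, rfl⟩
          simp only [mul_smul (av _ _ _), hk, av_smul hv', map_add, map_smul, LinearMap.add_apply,
            LinearMap.smul_apply, smul_eq_mul, spB_self, swap0 e, hv']
          module
      · obtain ⟨a, rfl⟩ := Submodule.mem_span_singleton.1 hw
        rw [sp_smul_smul, mul_smul, av_smul e1, X_iso (hg _ hu₀) hv, ← h _ (hg _ hu₀), spB_smul, e0]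
        simp
    rw [← (Pw_eq hgm _).trans (if_pos rfl), ← e2]
    refine hN (N' := (ℂ ∙ m).comap (Pw ρ (wt α w₀))) (fun k hk => ?_) (h3 m (Submodule.subset_span
      ⟨1, ⟨0, 0, by simp, by simp⟩, by simp⟩))
    rw [Submodule.mem_comap, Pw_eq (WS_smul (hK k hk) hm)]
    split_ifs with h4
    · obtain ⟨v, c, e, hk⟩ := hk
      have h5 : ∀ u ∈ X l F, spB l F u v * (spB l F u v - 2 * spB l F u w₀) = 0 := fun u hu => by
        have := mul_left_cancel₀ hα (congrFun h4 ⟨u, hu⟩)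
        simp only [hk, map_add, map_smul, smul_eq_mul, X_iso hu hu₀, spB_swap w₀ u₀, e0] at this
        linear_combination -this
      have h6 : ∀ u ∈ X l F, spB l F u v = 0 := fun u hu => by
        by_contra h7
        have h8 := h5 _ (Submodule.add_mem _ hu hu₀)
        simp only [map_add, LinearMap.add_apply, e, e0, add_zero, mul_eq_zero, h7, false_or] at h8
        exact h2 (by linear_combination (mul_eq_zero.1 (h5 u hu)).resolve_left h7 - h8)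
      refine fix_inv (fun u hu => by simp [hk, h6 u hu, X_iso hu hu₀]) (fun u => nv_of_le
        ((Submodule.span_singleton_le_iff_mem _ _).2 (mem_WS.1 hm u))) m (Submodule.mem_span_singleton_self m)
    · exact zero_mem _
  rcases H59.dual_eq_or_eq_neg (θ := ((spB l F).flip (g • w₀)).domRestrict (X l F))
    (θ' := ((spB l F).flip w₀).domRestrict (X l F)) fun u => mul_left_cancel₀ hα (congrFun h u) with e | e
  · exact key g hg fun u hu => LinearMap.congr_fun e ⟨u, hu⟩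
  · let n : Matrix.symplecticGroup l F := spOfLin (-LinearMap.id) (by simp)
    have hn : ∀ v : l ⊕ l → F, n • v = -v := fun v => spOfLin_smul ..
    have := key (n * g) (PP.mul (fun u hu => hn u ▸ Submodule.neg_mem _ hu) hg) fun u hu => by
      rw [mul_smul, hn, map_neg, neg_eq_iff_eq_neg]; exact LinearMap.congr_fun e ⟨u, hu⟩
    rw [← rho_inv n (ρ g m), ← End.mul_apply (ρ n), ← map_mul, hε n⁻¹ fun v => by
      rw [inv_smul_eq_iff, hn, neg_neg]]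
    exact Submodule.smul_mem _ _ this

theorem Pw_Y {g : Matrix.symplecticGroup l F} (hg : PP g) {y : U} (hy : y ∈ Y ρ m) : Pw ρ (wt α (g • w₀)) y ∈ ℂ ∙ ρ g m := by
  refine Y_le (N := (ℂ ∙ ρ g m).comap _) (fun h hh => ?_) hy
  rw [Submodule.mem_comap, Pw_eq (WS_smul hh hm)]
  split_ifs with e
  · obtain ⟨a, ha⟩ := Submodule.mem_span_singleton.1 (Y1 h2 hρ hα hw₀ hm hε (hg.inv.mul hh) (by
      rw [mul_smul, wt_act hg.inv, ← e, ← wt_act hg.inv, inv_smul_smul]))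
    refine Submodule.mem_span_singleton.2 ⟨a, ?_⟩
    rw [← map_smul, ha, ← End.mul_apply, ← map_mul, mul_inv_cancel_left]
  · exact zero_mem _

omit h2 hρ hα hw₀ hε [Nontrivial l] in
theorem Pw_Y0 {f : X l F → F} {y : U} (hy : y ∈ Y ρ m) (h : Pw ρ f y ≠ 0) :
    ∃ g : Matrix.symplecticGroup l F, PP g ∧ f = wt α (g • w₀) := by
  by_contra! h'
  exact h (Y_le (N := LinearMap.ker (Pw ρ f)) (fun g hg => by
    rw [LinearMap.mem_ker, Pw_eq (WS_smul hg hm), if_neg (h' g hg)]) hy)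

theorem finrank_Z [FiniteDimensional ℂ U] : finrank ℂ (Z ρ m) ≤ 1 := by
  let φ : Z ρ m →ₗ[ℂ] U := (Pw ρ (wt α w₀) * ((Fintype.card F : ℂ) • pj (T ρ w₀) 0 - 1)) ∘ₗ (Z ρ m).subtype
  have h1 : ∀ z, φ z ∈ ℂ ∙ m := fun z => by
    simpa [φ] using Pw_Y h2 hρ hα hw₀ hm hε (pp_fix (g := 1) fun u _ => one_smul _ u)
      ((mem_Z.1 z.2).2 w₀ hw₀)
  refine (LinearMap.finrank_le_finrank_of_injective (f := φ.codRestrict _ h1) ?_).trans
    (finrank_span_le_card _ |>.trans (by simp))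
  refine (injective_iff_map_eq_zero _).2 fun ⟨z, hz⟩ e => Subtype.ext ((Submodule.mem_bot ℂ).1
    (mem_of_pj (op_T ρ w₀) (fun c x hx => by simp_all) ?_))
  obtain ⟨hz0, hz1⟩ := mem_Z.1 hz
  rw [Submodule.mem_bot, ← sum_Pw (ρ := ρ) (_ - _)]
  refine sum_eq_zero fun f _ => by_contra fun h => ?_
  obtain ⟨g, hg, rfl⟩ := Pw_Y0 hm (hz1 w₀ hw₀) h
  obtain ⟨u₀, hu₀, e0⟩ := ex_one hw₀
  have h3 : ∀ u ∈ X l F, spB l F u w₀ = 0 → spB l F u (g • w₀) = 0 := fun u hu e => by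
    have h4 := mem_WS.1 hz0 ⟨u, hu⟩
    have := Eg_disj (mem_WS.1 (Pw_mem _ _) ⟨u, hu⟩) (Pw_inv (fun v => nv_Eg (TT ρ (X_iso v.2 hu)) 0) _
      (Submodule.sub_mem _ (Submodule.smul_mem _ _ ((nv_Eg (TT ρ (swap0 e)) 0).pj 0 h4)) h4)) h
    simpa [wt, hα] using this
  have h4 : ∀ u ∈ X l F, spB l F u (g • w₀) = spB l F u₀ (g • w₀) * spB l F u w₀ := fun u hu => by
    have := h3 _ (Submodule.sub_mem _ hu (Submodule.smul_mem _ (spB l F u w₀) hu₀)) (by simp [e0])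
    simp only [map_sub, map_smul, LinearMap.sub_apply, LinearMap.smul_apply, smul_eq_mul] at this
    linear_combination this
  generalize spB l F u₀ (g • w₀) = b at h4
  have hb : b ≠ 0 := fun e => hg.not_mem hw₀ (X_max fun u hu => by rw [h4 u hu, e, zero_mul])
  obtain ⟨k, hk, e1⟩ := trans0 hρ hw₀ (w' := b • w₀) fun h => hw₀ ((Submodule.smul_mem_iff _ hb).1 h)
  have h5 : pj (T ρ (k • w₀)) 0 z = pj (T ρ w₀) 0 z := by
    simp only [e1, pj_apply, mul_zero, T, tv_smul_left]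
    rw [← Equiv.sum_comp (Equiv.mulLeft₀ _ (pow_ne_zero 2 hb)) fun c => ψ F (-0) • ρ (tv w₀ c) z]
    rfl
  have h6 := Pw_smul (ρ := ρ) hk.1 α w₀ ((Fintype.card F : ℂ) • pj (T ρ w₀) 0 z - z)
  rw [show Pw ρ (wt α w₀) ((Fintype.card F : ℂ) • pj (T ρ w₀) 0 z - z) = 0 from congrArg Subtype.val e,
    map_zero, map_sub, map_smul, ← pj_conj,
    hk.2 z hz0, h5, show wt α (k • w₀) = wt α (g • w₀) from funext fun u => by
      simp [wt, e1, h4 _ u.2]] at h6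
  exact h h6

end H63.SpW
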