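import Cfsg.Agent.Base

/-! Orbits of the general linear group on quadratic forms of rank at least two. -/

set_option autoImplicit false
set_option linter.unusedSectionVars false

noncomputable section

namespace H63.SpW

open Module Finset
open scoped Classical

variable {F : Type*} [Field F] [Fintype F] {V : Type*} [AddCommGroup V] [Module F V]

theorem fibre_le [Fintype (Dual F V)] (h2 : (2 : F) ≠ 0) {a b : F} (ha : a ≠ 0) (hb : b ≠ 0)
    {μ : Dual F V × Dual F V} {x y : V} (e1 : μ.1 x = 1) (e2 : μ.2 x = 0) (e3 : μ.1 y = 0) (e4 : μ.2 y = 1)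
    (s : Finset (Dual F V × Dual F V))
    (hs : ∀ ν ∈ s, ∀ z, a * ν.1 z ^ 2 + b * ν.2 z ^ 2 = a * μ.1 z ^ 2 + b * μ.2 z ^ 2) :
    s.card ≤ 2 * ((univ.filter fun τ : F => a + b * τ ^ 2 ≠ 0).card + 1) := by
  have h1 : ∀ ν ∈ s, ∀ z z', a * ν.1 z * ν.1 z' + b * ν.2 z * ν.2 z' =
      a * μ.1 z * μ.1 z' + b * μ.2 z * μ.2 z' := fun ν hν z z' => mul_left_cancel₀ h2 (by
    have := hs ν hν (z + z')
    simp only [map_add] at this
    linear_combination this - hs ν hν z - hs ν hν z')
  have h3 : ∀ ν ∈ s, a * ν.1 x ^ 2 + b * ν.2 x ^ 2 = a := fun ν hν => by simp [hs ν hν, e1, e2]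
  have h4 : ∀ ν ∈ s, a * ν.1 y ^ 2 + b * ν.2 y ^ 2 = b := fun ν hν => by simp [hs ν hν, e3, e4]
  have h5 : ∀ ν ∈ s, a * ν.1 x * ν.1 y + b * ν.2 x * ν.2 y = 0 := fun ν hν => by simp [h1 ν hν, e2, e3]
  have h6 : ∀ ν ∈ s, (ν.1 x * ν.2 y - ν.1 y * ν.2 x) ^ 2 = 1 := fun ν hν =>
    mul_left_cancel₀ (mul_ne_zero ha hb) (by
      linear_combination (a * ν.1 y ^ 2 + b * ν.2 y ^ 2) * h3 ν hν + a * h4 ν hν -
        (a * ν.1 x * ν.1 y + b * ν.2 x * ν.2 y) * h5 ν hν)
  have h7 : ∀ ν ∈ s, ν.1 x ≠ 1 → ν.1 x * (a + b * (ν.2 x / (ν.1 x - 1)) ^ 2) =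
      b * (ν.2 x / (ν.1 x - 1)) ^ 2 - a := fun ν hν h => by
    have := sub_ne_zero.2 h
    field_simp
    linear_combination (ν.1 x - 1) * h3 ν hν
  have h8 : ∀ ν ∈ s, ν.1 x ≠ 1 → a + b * (ν.2 x / (ν.1 x - 1)) ^ 2 ≠ 0 := fun ν hν h e =>
    mul_ne_zero h2 ha (by linear_combination e + h7 ν hν h - ν.1 x * e)
  refine (card_le_card_of_injOn (t := ({1, -1} : Finset F) ×ˢ insertNone (univ.filter fun τ : F =>
    a + b * τ ^ 2 ≠ 0)) (fun ν => (ν.1 x * ν.2 y - ν.1 y * ν.2 x, if ν.1 x = 1 then none else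
      some (ν.2 x / (ν.1 x - 1)))) (fun ν hν => ?_) fun ν hν ν' hν' e => ?_).trans ?_
  · refine mem_coe.2 (mem_product.2 ⟨by simpa using h6 ν hν, ?_⟩)
    dsimp only
    split_ifs with h
    · simp
    · simpa using h8 ν hν h
  · obtain ⟨e5, e6⟩ := Prod.ext_iff.1 e
    dsimp only at e5 e6
    have hp : ν.1 x = ν'.1 x ∧ ν.2 x = ν'.2 x := by
      split_ifs at e6 with h h'
      · have := h3 ν hν
        have := h3 ν' hν'
        simp_all
      · have e7 := Option.some.inj e6
        have e8 : ν.1 x = ν'.1 x := mul_right_cancel₀ (h8 ν hν h) (by rw [h7 ν hν h, e7, h7 ν' hν' ‹_›])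
        exact ⟨e8, by rwa [e8, div_left_inj' (sub_ne_zero.2 ‹_›)] at e7⟩
    have k1 := h5 ν hν
    have k2 := h5 ν' hν'
    have k3 := h3 ν hν
    rw [← hp.1, ← hp.2] at k2 e5
    have ht : ν.2 y = ν'.2 y := mul_left_cancel₀ ha (by
      linear_combination ν.2 x * (k1 - k2) + a * ν.1 x * e5 - (ν.2 y - ν'.2 y) * k3)
    have hr : ν.1 y = ν'.1 y := mul_left_cancel₀ ha (by
      linear_combination ν.1 x * (k1 - k2) - b * ν.2 x * e5 - (ν.1 y - ν'.1 y) * k3)
    have hD : ν.1 x * ν.2 y - ν.1 y * ν.2 x ≠ 0 := fun h => by simpa [h] using h6 ν hν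
    have k4 := fun z => (h1 ν hν x z).trans (h1 ν' hν' x z).symm
    have k5 := fun z => (h1 ν hν y z).trans (h1 ν' hν' y z).symm
    rw [← hp.1, ← hp.2] at k4
    rw [← ht, ← hr] at k5
    exact Prod.ext (LinearMap.ext fun z => mul_left_cancel₀ (mul_ne_zero ha hD) (by
      linear_combination ν.2 y * k4 z - ν.2 x * k5 z)) (LinearMap.ext fun z =>
        mul_left_cancel₀ (mul_ne_zero hb hD) (by linear_combination ν.1 x * k5 z - ν.1 y * k4 z))
  · rw [card_product, card_insertNone]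
    exact Nat.mul_le_mul_right _ card_le_two

variable [FiniteDimensional F V] (h2 : (2 : F) ≠ 0) (S : V →ₗ[F] V →ₗ[F] F) (hS : ∀ u w, S u w = S w u)
include h2

theorem orbit_aux [Fintype (Dual F V)] {u w : V} (ha : S u u ≠ 0) (hb : S w w ≠ 0) (h0 : S u w = 0)
    (h0' : S w u = 0) (M : Finset (Dual F V × Dual F V)) (hM : ∀ μ ∈ M, ∃ g : V ≃ₗ[F] V,
      (∀ x, S u (g x) = S u u * μ.1 x) ∧ (∀ x, S w (g x) = S w w * μ.2 x) ∧ ∀ x,
      S (g x) (g x) - S u (g x) ^ 2 / S u u - S w (g x) ^ 2 / S w w =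
        S x x - S u x ^ 2 / S u u - S w x ^ 2 / S w w) :
    M.card ≤ 2 * ((univ.filter fun τ : F => S u u + S w w * τ ^ 2 ≠ 0).card + 1) *
      Nat.card {f : V → F // ∃ g : V ≃ₗ[F] V, ∀ w, S (g w) (g w) = f w} := by
  have := Module.finite_of_finite F (M := V)
  refine (card_le_mul_card_image (f := fun μ x => S u u * μ.1 x ^ 2 + S w w * μ.2 x ^ 2 +
    (S x x - S u x ^ 2 / S u u - S w x ^ 2 / S w w)) M _ ?_).trans (Nat.mul_le_mul_left _ ?_)
  · simp only [forall_mem_image]
    intro μ hμ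
    obtain ⟨g, h3, h4, -⟩ := hM μ hμ
    refine fibre_le h2 ha hb (μ := μ) (x := g.symm u) (y := g.symm w) ?_ ?_ ?_ ?_ _ fun ν hν z =>
      add_right_cancel (congrFun (mem_filter.1 hν).2 z)
    · simpa [ha] using h3 (g.symm u)
    · simpa [hb, h0'] using h4 (g.symm u)
    · simpa [ha, h0] using h3 (g.symm w)
    · simpa [hb] using h4 (g.symm w)
  · rw [← Nat.card_eq_finsetCard]
    refine Nat.card_le_card_of_injective (fun f => ⟨f.1, ?_⟩) fun _ _ h => Subtype.ext (congrArg (·.1) h)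
    obtain ⟨μ, hμ, e⟩ := mem_image.1 f.2
    obtain ⟨g, h3, h4, h5⟩ := hM μ hμ
    refine ⟨g, fun x => ?_⟩
    rw [← e]
    dsimp only
    rw [← h5, h3, h4]
    field_simp
    ring

include hS

theorem orbit_ge {u w : V} (h : S u w ^ 2 ≠ S u u * S w w) :
    (Fintype.card F ^ finrank F V - 1) * (Fintype.card F ^ finrank F V - Fintype.card F) ≤
      2 * (Fintype.card F + 1) * Nat.card {f : V → F // ∃ g : V ≃ₗ[F] V, ∀ w, S (g w) (g w) = f w} := by
  have := Module.finite_of_finite F (M := Dual F V)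
  have := Fintype.ofFinite (Dual F V)
  wlog ha : S u u ≠ 0 generalizing u w
  · push Not at ha
    by_cases hb : S w w = 0
    · have h3 : S u w ≠ 0 := fun e => h (by simp [e, ha])
      exact this (u := u + w) (w := w) (by simp [hb, h3]) (by
        simpa [ha, hb, hS w u, ← two_mul, h2] using h3)
    · exact this (u := w) (w := u) (by rwa [hS w u, mul_comm]) hb
  wlog h0 : S u w = 0 generalizing w
  · refine this (w := w - (S u w / S u u) • u) (fun e => h ?_) (by simp [ha])
    simp only [map_sub, map_smul, LinearMap.sub_apply, LinearMap.smul_apply, smul_eq_mul, hS w u] at e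
    field_simp at e
    linear_combination e
  have hb : S w w ≠ 0 := fun e => h (by simp [e, h0])
  have h0' := (hS w u).trans h0
  by_cases hR : ∀ x, S x x - S u x ^ 2 / S u u - S w x ^ 2 / S w w = 0
  · have hl : LinearIndependent F ![(S u u)⁻¹ • S u, (S w w)⁻¹ • S w] := LinearIndependent.pair_iff.2
      fun s t e => ⟨by simpa [ha, h0'] using LinearMap.congr_fun e u,
        by simpa [hb, h0] using LinearMap.congr_fun e w⟩
    refine le_trans ?_ ((orbit_aux h2 S ha hb h0 h0' (univ.filter fun μ => LinearIndependent F ![μ.1, μ.2])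
      fun μ hμ => ?_).trans (Nat.mul_le_mul_right _ (Nat.mul_le_mul_left _ (Nat.succ_le_succ
        (card_le_univ _)))))
    · have := card_linearIndependent (K := F) (V := Dual F V) (k := 2) (by
        simpa using hl.fintype_card_le_finrank)
      rw [Fin.prod_univ_two, Subspace.dual_finrank_eq] at this
      simp only [Fin.val_zero, Fin.val_one, pow_zero, pow_one] at this
      rw [← this, ← Nat.card_eq_finsetCard]
      refine Nat.card_le_card_of_injective (fun s => ⟨(s.1 0, s.1 1), mem_filter.2 ⟨mem_univ _, ?_⟩⟩)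
        fun s t e => Subtype.ext (funext (Fin.forall_fin_two.2 (Prod.ext_iff.1 (congrArg (·.1) e))))
      exact (show ![s.1 0, s.1 1] = s.1 from funext (Fin.forall_fin_two.2 ⟨rfl, rfl⟩)).symm ▸ s.2
    · have hm := (mem_filter.1 hμ).2
      obtain ⟨γ, hγ⟩ := Submodule.exists_linearEquiv_restrict_eq
        (hl.linearCombinationEquiv.symm.trans hm.linearCombinationEquiv)
      have h3 : ∀ i, γ (![(S u u)⁻¹ • S u, (S w w)⁻¹ • S w] i) = ![μ.1, μ.2] i := fun i => by
        simpa using (hγ (hl.linearCombinationEquiv (Finsupp.single i 1))).symm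
      let g := (evalEquiv F V).trans (γ.dualMap.trans (evalEquiv F V).symm)
      have h4 : ∀ (φ : Dual F V) x, φ (g x) = γ φ x := fun φ x => by simp [g]
      refine ⟨g, fun x => ?_, fun x => ?_, fun x => by rw [hR, hR]⟩
      · simpa [inv_mul_eq_iff_eq_mul₀ ha] using (h4 _ x).trans (LinearMap.congr_fun (h3 0) x)
      · simpa [inv_mul_eq_iff_eq_mul₀ hb] using (h4 _ x).trans (LinearMap.congr_fun (h3 1) x)
  obtain ⟨w, hb, h0⟩ : ∃ w, S w w = -S u u ∧ S u w = 0 := by
    obtain ⟨x, hx⟩ := not_forall.1 hR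
    let v := x - (S u x / S u u) • u - (S w x / S w w) • w
    have hv : S v v ≠ 0 := by
      convert hx using 2
      simp only [v, map_sub, map_smul, LinearMap.sub_apply, LinearMap.smul_apply, smul_eq_mul, h0, h0',
        hS x u, hS x w]
      field_simp
      ring
    have h3 : S u v = 0 := by simp [v, ha, h0]
    have h4 : S w v = 0 := by simp [v, hb, h0']
    obtain ⟨s, t, e⟩ := FiniteField.exists_root_sum_quadratic (f := .C (S w w) * .X ^ 2)
      (g := .C (S v v) * .X ^ 2 + .C (S u u)) (Polynomial.degree_C_mul_X_pow _ hb)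
      (by rw [Polynomial.degree_add_C, Polynomial.degree_C_mul_X_pow _ hv]
          · rfl
          · rw [Polynomial.degree_C_mul_X_pow _ hv]; decide)
      (FiniteField.odd_card_of_char_ne_two fun h => h2 (by
        simpa [h] using ringChar.spec F 2))
    refine ⟨s • w + t • v, ?_, by simp [h0, h3]⟩
    simp [h4, hS v w] at e ⊢
    linear_combination e
  have h0' := (hS w u).trans h0
  have hb' : S w w ≠ 0 := by simpa [hb] using ha
  let K := LinearMap.ker ((Dual.eval F V u).prod (Dual.eval F V w))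
  have hK : ∀ k : K, k.1 u = 0 ∧ k.1 w = 0 := fun k => Prod.ext_iff.1 k.2
  have h3 := orbit_aux h2 S ha hb' h0 h0' (univ.filter fun μ => μ.1 u * μ.2 w - μ.1 w * μ.2 u ≠ 0)
    fun μ hμ => by
      let g : V →ₗ[F] V := LinearMap.id + (μ.1 - (S u u)⁻¹ • S u).smulRight u +
        (μ.2 - (S w w)⁻¹ • S w).smulRight w
      have hg : ∀ x, g x = x + (μ.1 x - (S u u)⁻¹ * S u x) • u + (μ.2 x - (S w w)⁻¹ * S w x) • w :=
        fun _ => rfl
      have h3 : ∀ x, S u (g x) = S u u * μ.1 x := fun x => by simp [hg, h0]; field_simp; ring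
      have h4 : ∀ x, S w (g x) = S w w * μ.2 x := fun x => by simp [hg, h0']; field_simp; ring
      refine ⟨.ofInjectiveEndo g ((injective_iff_map_eq_zero _).2 fun x hx => ?_), h3, h4, fun x => ?_⟩
      · have e1 : μ.1 x = 0 := by simpa [hx, ha] using h3 x
        have e2 : μ.2 x = 0 := by simpa [hx, hb'] using h4 x
        rw [hg, e1, e2] at hx
        generalize 0 - (S u u)⁻¹ * S u x = s at hx
        generalize 0 - (S w w)⁻¹ * S w x = t at hx
        have e3 := congrArg μ.1 hx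
        have e4 := congrArg μ.2 hx
        simp only [map_add, map_smul, smul_eq_mul, e1, e2, map_zero] at e3 e4
        have hD := (mem_filter.1 hμ).2
        have hs : s = 0 := mul_left_cancel₀ hD (by linear_combination μ.2 w * e3 - μ.1 w * e4)
        have ht : t = 0 := mul_left_cancel₀ hD (by linear_combination μ.1 u * e4 - μ.2 u * e3)
        simpa [hs, ht] using hx
      · change S (g x) (g x) - S u (g x) ^ 2 / S u u - S w (g x) ^ 2 / S w w = _
        simp only [hg, map_add, map_smul, LinearMap.add_apply, LinearMap.smul_apply, smul_eq_mul, h0, h0',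
          hS x u, hS x w]
        field_simp
        ring
  have h4 : Nat.card (GL (Fin 2) F × K × K) ≤
      (univ.filter fun μ : Dual F V × Dual F V => μ.1 u * μ.2 w - μ.1 w * μ.2 u ≠ 0).card := by
    rw [← Nat.card_eq_finsetCard]
    let φ : F → F → K → Dual F V := fun a b k => a • (S u u)⁻¹ • S u + b • (S w w)⁻¹ • S w + k.1
    have h5 : ∀ a b k, φ a b k u = a := fun a b k => by simp [φ, ha, h0', hK]
    have h6 : ∀ a b k, φ a b k w = b := fun a b k => by simp [φ, hb', h0, hK]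
    have h7 : ∀ a b k a' b' k', φ a b k = φ a' b' k' → a = a' ∧ b = b' ∧ k = k' := fun a b k a' b' k' e => by
      obtain rfl : a = a' := by rw [← h5 a b k, e, h5]
      obtain rfl : b = b' := by rw [← h6 a b k, e, h6]
      exact ⟨rfl, rfl, Subtype.ext (add_left_cancel e)⟩
    refine Nat.card_le_card_of_injective (fun p => ⟨(φ (p.1 0 0) (p.1 0 1) p.2.1, φ (p.1 1 0) (p.1 1 1) p.2.2),
      mem_filter.2 ⟨mem_univ _, ?_⟩⟩) fun p p' e => ?_
    · simpa only [h5, h6, Matrix.det_fin_two] using p.1.det_ne_zero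
    · obtain ⟨e1, e2⟩ := Prod.ext_iff.1 (congrArg (·.1) e)
      obtain ⟨a1, a2, a3⟩ := h7 _ _ _ _ _ _ e1
      obtain ⟨a4, a5, a6⟩ := h7 _ _ _ _ _ _ e2
      exact Prod.ext (Units.ext (Matrix.ext (Fin.forall_fin_two.2 ⟨Fin.forall_fin_two.2 ⟨a1, a2⟩,
        Fin.forall_fin_two.2 ⟨a4, a5⟩⟩))) (Prod.ext a3 a6)
  have h5 : Fintype.card F ^ finrank F V ≤ Fintype.card F ^ 2 * Nat.card K := by
    have := ((Dual.eval F V u).prod (Dual.eval F V w)).finrank_range_add_finrank_ker
    have := (LinearMap.range ((Dual.eval F V u).prod (Dual.eval F V w))).finrank_le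
    rw [natCard_eq_pow_finrank (K := F), Nat.card_eq_fintype_card, ← pow_add]
    refine Nat.pow_le_pow_right Fintype.card_pos ?_
    simp only [Subspace.dual_finrank_eq, finrank_prod, finrank_self] at *
    simp only [K]; omega
  have h6 : (univ.filter fun τ : F => S u u + S w w * τ ^ 2 ≠ 0).card + 2 ≤ Fintype.card F := by
    have : (1 : F) ≠ -1 := fun e => h2 (by linear_combination e)
    have h7 := card_le_univ ((univ.filter fun τ : F => S u u + S w w * τ ^ 2 ≠ 0) ∪ {1, -1})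
    rwa [card_union_of_disjoint (by simp [hb]), card_pair this] at h7
  rw [Nat.card_prod, Nat.card_prod, Matrix.card_GL_field, Fin.prod_univ_two] at h4
  simp only [Fin.val_zero, Fin.val_one, pow_zero, pow_one] at h4
  generalize Nat.card {f : V → F // ∃ g : V ≃ₗ[F] V, ∀ w, S (g w) (g w) = f w} = O at *
  generalize Nat.card K = k at *
  generalize Fintype.card F ^ finrank F V = N at *
  obtain ⟨r, hr⟩ : ∃ r, Fintype.card F = r + 1 := ⟨_, (Nat.succ_pred_eq_of_pos Fintype.card_pos).symm⟩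
  rw [hr] at h4 h5 h6 ⊢
  have h7 := (h4.trans h3).trans (Nat.mul_le_mul_right O (Nat.mul_le_mul_left 2 (Nat.le_of_succ_le_succ h6)))
  rw [show (r + 1) ^ 2 - 1 = r * (r + 2) from Nat.sub_eq_of_eq_add (by ring),
    show (r + 1) ^ 2 - (r + 1) = r * (r + 1) from Nat.sub_eq_of_eq_add (by ring)] at h7
  have h8 : (r + 2) * (r * (r + 1)) * (k * k) ≤ 2 * O := Nat.le_of_mul_le_mul_left (c := r)
    (by linarith) (by omega)
  calc _ ≤ ((r + 1) ^ 2 * k) * ((r + 1) ^ 2 * k) :=
        Nat.mul_le_mul ((Nat.sub_le ..).trans h5) ((Nat.sub_le ..).trans h5)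
    _ = (r + 1) ^ 3 * ((r + 1) * (k * k)) := by ring
    _ ≤ (r + 2) ^ 2 * r * ((r + 1) * (k * k)) := Nat.mul_le_mul_right _ (by
        have : 1 ≤ r := by omega
        nlinarith)
    _ = (r + 2) * ((r + 2) * (r * (r + 1)) * (k * k)) := by ring
    _ ≤ (r + 2) * (2 * O) := Nat.mul_le_mul_left _ h8
    _ = _ := by ring

end H63.SpW
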