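import Cfsg.Agent.H59.SpLS

/-! Both Weil representations (adapted from `H59.HeisRep.exists_weil`). -/

set_option autoImplicit false

namespace H63.SpW

open Module H59

variable {V G M : Type*} [AddCommGroup V] [Fintype V] [AddCommGroup M] [Module ℂ M]
  [FiniteDimensional ℂ M] {π : V → Module.End ℂ M} {β : V → V → ℂ}

theorem exists_weil' (H : HeisRep π β) [Nontrivial V] [Group G] [Finite G] [DistribMulAction G V]
    (hβ : ∀ (g : G) v w, β (g • v) (g • w) = β v w)
    (htr : ∀ v w : V, v ≠ 0 → w ≠ 0 → ∃ g : G, g • v = w) {ε : ℂ} (hε : ε ^ 2 = 1) :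
    ∃ (d : ℕ) (ρ : Representation ℂ G (Fin d → ℂ)), ρ.IsIrreducible ∧ (2 : ℂ) * d = finrank ℂ M + ε := by
  classical
  choose T hT using fun g : G => H.exists_intertwiner (DistribMulAction.toAddEquiv V g) (hβ g)
  replace hT : ∀ g v, (T g).1 * π v = π (g • v) * (T g).1 := hT
  have hN : (finrank ℂ M : ℂ) ≠ 0 := by exact_mod_cast H.finrank_pos.ne'
  have hmul : ∀ g h, ∃ c : ℂ, (T g).1 * (T h).1 = c • (T (g * h)).1 := fun g h => by
    obtain ⟨c, hc⟩ := H.exists_scalar (X := (T g).1 * (T h).1 * (T (g * h))⁻¹.1) fun v => by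
      obtain ⟨v, rfl⟩ : ∃ w, (g * h) • w = v := MulAction.surjective (g * h) v
      rw [← mul_assoc, Units.mul_inv_eq_iff_eq_mul, mul_assoc _ (π _), ← hT, mul_assoc _ (T _)⁻¹.1,
        Units.inv_mul_cancel_left, mul_assoc, hT, ← mul_assoc (T g).1, hT, mul_smul,
        mul_assoc]
    exact ⟨c, by rw [Units.mul_inv_eq_iff_eq_mul] at hc; rw [hc, smul_mul_assoc, one_mul]⟩
  obtain ⟨c1, hc1⟩ := H.exists_scalar (X := (T 1).1) fun v => by rw [hT, one_smul]
  set S := ∑ v, π v with hS
  have hTS : ∀ g, (T g).1 * S = S * (T g).1 := fun g => by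
    simp only [hS, Finset.mul_sum, Finset.sum_mul, hT]
    exact Equiv.sum_comp (MulAction.toPerm g) fun v => π v * (T g).1
  let p : ℂ → Module.End ℂ M := fun ε => (2 : ℂ)⁻¹ • (1 + (ε / finrank ℂ M) • S)
  have hp : ∀ ε, ε ^ 2 = 1 → IsIdempotentElem (p ε) := fun ε hε => by
    change p ε * p ε = p ε
    simp only [p, smul_mul_assoc, mul_smul_comm, mul_add, add_mul, mul_one, one_mul, hS,
      H.sum_mul_sum, smul_smul, smul_add]
    match_scalars
    · field_simp
      linear_combination hε
    · ring
  have hTp : ∀ g ε, (T g).1 * p ε = p ε * (T g).1 := fun g ε => by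
    simp only [p, smul_mul_assoc, mul_smul_comm, mul_add, add_mul, mul_one, one_mul, hTS]
  have hd : ∀ ε, ε ^ 2 = 1 → (2 : ℂ) * finrank ℂ (LinearMap.range (p ε)) = finrank ℂ M + ε := by
    intro ε hε
    rw [← (LinearMap.IsIdempotentElem.isProj_range _ (hp ε hε)).trace]
    simp only [p, map_smul, map_add, LinearMap.trace_one, hS, H.trace_sum, smul_eq_mul]
    field_simp
  have hmaps : ∀ g ε, ∀ x ∈ LinearMap.range (p ε), (T g).1 x ∈ LinearMap.range (p ε) := by
    rintro g ε _ ⟨x, rfl⟩
    exact ⟨(T g).1 x, by rw [← Module.End.mul_apply, ← hTp, Module.End.mul_apply]⟩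
  let r := fun ε g => (T g).1.restrict (hmaps g ε)
  have hr : ∀ ε g h (c : ℂ), (T g).1 * (T h).1 = c • (T (g * h)).1 → r ε g * r ε h = c • r ε (g * h) :=
    fun ε g h c hc => LinearMap.ext fun x => Subtype.ext (DFunLike.congr_fun hc x.1)
  have hr1 : ∀ ε, r ε 1 = c1 • 1 := fun ε =>
    LinearMap.ext fun x => Subtype.ext (DFunLike.congr_fun hc1 x.1)
  have : Nontrivial M := Module.nontrivial_of_finrank_pos H.finrank_pos
  have hc10 : c1 ≠ 0 := by
    rintro rfl
    exact (T 1).ne_zero (by rw [hc1, zero_smul])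
  have hc0 : ∀ g h (c : ℂ), (T g).1 * (T h).1 = c • (T (g * h)).1 → c ≠ 0 := by
    rintro g h c hc rfl
    exact (T g * T h).ne_zero (by rw [Units.val_mul, hc, zero_smul])
  have hD : ∀ ε g, LinearMap.det (r ε g) ≠ 0 := fun ε g h0 => by
    obtain ⟨c, hc⟩ := hmul g g⁻¹
    have := congrArg LinearMap.det (hr ε _ _ _ hc)
    rw [map_mul, h0, zero_mul, mul_inv_cancel, hr1, smul_smul, LinearMap.det_smul, map_one,
      mul_one] at this
    exact pow_ne_zero _ (mul_ne_zero (hc0 _ _ _ hc) hc10) this.symm
  have h1 := hd 1 (by norm_num)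
  have h2 := hd (-1) (by norm_num)
  have h3 : finrank ℂ (LinearMap.range (p 1)) = finrank ℂ (LinearMap.range (p (-1))) + 1 := by
    have : (finrank ℂ (LinearMap.range (p 1)) : ℂ) = finrank ℂ (LinearMap.range (p (-1))) + 1 := by
      linear_combination (h1 - h2) / 2
    exact_mod_cast this
  have h4 : 2 * finrank ℂ (LinearMap.range (p (-1))) + 1 = finrank ℂ M := by
    have : (2 : ℂ) * finrank ℂ (LinearMap.range (p (-1))) + 1 = finrank ℂ M := by
      linear_combination h2
    exact_mod_cast this
  let ρ : Representation ℂ G (LinearMap.range (p ε)) :=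
    { toFun := fun g => (LinearMap.det (r (-1) g) / LinearMap.det (r 1 g)) • r ε g
      map_one' := by
        simp only [hr1, LinearMap.det_smul, map_one, h3, smul_smul]
        rw [show _ / _ * c1 = 1 by rw [pow_succ]; field_simp, one_smul]
      map_mul' := fun g h => by
        obtain ⟨c, hc⟩ := hmul g h
        have h5 := congrArg LinearMap.det (hr 1 _ _ _ hc)
        have h6 := congrArg LinearMap.det (hr (-1) _ _ _ hc)
        rw [map_mul, LinearMap.det_smul] at h5 h6
        rw [smul_mul_assoc, mul_smul_comm, hr _ _ _ _ hc, smul_smul, smul_smul, div_mul_div_comm,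
          h5, h6, h3, pow_succ]
        have := hc0 _ _ _ hc
        have := hD 1 (g * h)
        congr 1
        field_simp }
  have hρ : ρ.IsIrreducible := by
    have h5 : 1 < finrank ℂ M := by
      have h6 := H.card
      have h7 : 1 < Fintype.card V := Fintype.one_lt_card
      by_contra h
      rw [show finrank ℂ M = 1 by omega] at h6
      omega
    refine (H28.isIrreducible_iff_submodule ρ).2
      ⟨Module.nontrivial_of_finrank_pos (R := ℂ) (by
        rcases sq_eq_one_iff.1 hε with rfl | rfl <;> omega), fun U hU => ?_⟩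
    obtain ⟨U', hU'⟩ := H28.exists_isCompl_subrep (ρ := ρ) ⟨U, fun g v hv => hU g v hv⟩
    replace hU' : IsCompl U U'.toSubmodule := hU'
    have hinv : ∀ W : Submodule ℂ (LinearMap.range (p ε)), (∀ g, ∀ v ∈ W, ρ g v ∈ W) →
        ∀ g, ∀ v ∈ W, r ε g v ∈ W := fun W hW g v hv =>
      (W.smul_mem_iff (div_ne_zero (hD (-1) g) (hD 1 g))).1 (hW g v hv)
    have he : ∀ g x, U.projection _ hU' (r ε g x) = r ε g (U.projection _ hU' x) := by
      intro g x
      obtain ⟨a, ha, b, hb, rfl⟩ := Submodule.mem_sup.1 (hU'.sup_eq_top ▸ Submodule.mem_top (x := x))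
      simp only [map_add, Submodule.projection_apply_of_mem_left _ ha,
        Submodule.projection_apply_of_mem_left _ (hinv U hU g a ha),
        (Submodule.projection_apply_eq_zero_iff hU').2 hb, map_zero,
        (Submodule.projection_apply_eq_zero_iff hU').2
          (hinv _ (fun g v hv => U'.apply_mem_toSubmodule g hv) g b hb)]
    let X : Module.End ℂ M := (LinearMap.range (p ε)).subtype ∘ₗ U.projection _ hU' ∘ₗ
      (p ε).rangeRestrict
    have hX : ∀ g, (T g).1 * X = X * (T g).1 := fun g => by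
      ext x
      have h7 : (p ε).rangeRestrict ((T g).1 x) = r ε g ((p ε).rangeRestrict x) :=
        Subtype.ext (DFunLike.congr_fun (hTp g ε) x).symm
      change _ = (U.projection _ hU' ((p ε).rangeRestrict ((T g).1 x))).1
      rw [h7, he]
      rfl
    have hc : ∀ (g : G) v, H.basis.repr X (g • v) = H.basis.repr X v := fun g v => by
      have h7 : X = ∑ v, H.basis.repr X (g⁻¹ • v) • H.basis v := by
        rw [← Units.mul_left_inj (T g), ← hX]
        conv_lhs => rw [← H.basis.sum_repr X]
        simp only [Finset.mul_sum, Finset.sum_mul, mul_smul_comm, smul_mul_assoc, H.basis_apply, hT]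
        rw [eq_comm, ← Equiv.sum_comp (MulAction.toPerm g)]
        simp
      conv_lhs => rw [h7]
      rw [Basis.repr_sum_self, inv_smul_smul]
    obtain ⟨v0, hv0⟩ := exists_ne (0 : V)
    have hXS : X = (H.basis.repr X 0 - H.basis.repr X v0) • 1 + H.basis.repr X v0 • S := by
      conv_lhs => rw [← H.basis.sum_repr X]
      rw [hS, Finset.smul_sum, ← Finset.add_sum_erase _ _ (Finset.mem_univ 0),
        ← Finset.add_sum_erase _ _ (Finset.mem_univ 0), H.basis_apply, H.zero, ← add_assoc,
        ← add_smul, sub_add_cancel]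
      congr 1
      refine Finset.sum_congr rfl fun v hv => ?_
      obtain ⟨g, rfl⟩ := htr v0 v hv0 (Finset.ne_of_mem_erase hv)
      rw [hc, H.basis_apply]
    obtain ⟨a, ha⟩ : ∃ a : ℂ, ∀ x, U.projection _ hU' x = a • x := by
      refine ⟨H.basis.repr X 0 - H.basis.repr X v0 + H.basis.repr X v0 * (ε * finrank ℂ M), fun x => ?_⟩
      have h7 : p ε x = x :=
        (LinearMap.IsIdempotentElem.isProj_range _ (hp ε hε)).map_id _ x.2
      have h8 : X x = U.projection _ hU' x := by
        change (U.projection _ hU' ((p ε).rangeRestrict x)).1 = _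
        congr 2
        exact Subtype.ext h7
      have h9 : S x = (ε * finrank ℂ M : ℂ) • x.1 := by
        simp only [p, LinearMap.smul_apply, LinearMap.add_apply, Module.End.one_apply] at h7
        have h10 := congrArg (fun y => ((2 : ℂ) * ε * finrank ℂ M) • y) h7
        simp only [smul_smul, smul_add] at h10
        rw [show 2 * ε * (finrank ℂ M : ℂ) * (2⁻¹ * (ε / finrank ℂ M)) = 1 by field_simp; exact hε,
          one_smul] at h10
        rw [← sub_eq_zero, ← sub_eq_zero.2 h10]
        module
      refine Subtype.ext ?_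
      rw [← h8]
      conv_lhs => rw [hXS]
      simp only [LinearMap.smul_apply, LinearMap.add_apply, Module.End.one_apply, h9,
        Submodule.coe_smul]
      module
    by_cases ha0 : a = 0
    · refine Or.inl (eq_bot_iff.2 fun x hx => ?_)
      rw [← Submodule.projection_apply_of_mem_left hU' hx, ha, ha0, zero_smul]
      exact Submodule.zero_mem _
    · refine Or.inr (eq_top_iff.2 fun x _ => (U.smul_mem_iff ha0).1 ?_)
      rw [← ha]
      exact Submodule.projection_apply_mem _ _
  obtain ⟨σ, ⟨e⟩⟩ := H28.exists_equiv_fin ρ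
  have := H28.isIrreducible_of_equiv e
  exact ⟨_, σ, this, hd ε hε⟩

end H63.SpW
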