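import Cfsg.Agent.H63.SpW2
import Cfsg.Agent.H63.SpW3
import Cfsg.Agent.H63.SpW4
import Cfsg.Agent.H28.CharProd

/-! Classification of the irreducible representations of `Sp_{2n}(q)` of rank one, and the degree
bound for the others. -/

set_option autoImplicit false
set_option linter.unusedSectionVars false

noncomputable section

namespace H63.SpW

open Module H54 Finset
open scoped Classical

variable {l : Type*} [Fintype l] [DecidableEq l] {F : Type*} [Field F] [Fintype F]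
  {U : Type*} [AddCommGroup U] [Module ℂ U] (h2 : (2 : F) ≠ 0)

theorem finrank_X : finrank F (X l F) = Fintype.card l :=
  (LinearEquiv.finrank_eq (R := F) (M := X l F) (N := l → F)
    { toFun := fun v i => v.1 (Sum.inl i)
      map_add' := fun _ _ => rfl
      map_smul' := fun _ _ => rfl
      invFun := fun u => ⟨Sum.elim u 0, fun _ => rfl⟩
      left_inv := fun v => Subtype.ext (funext fun | .inl _ => rfl | .inr i => (v.2 i).symm)
      right_inv := fun _ => rfl }).trans (finrank_fintype_fun_eq_card F)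

theorem rho_ne {ρ : Matrix.symplecticGroup l F →* End ℂ U} (g : Matrix.symplecticGroup l F) {x : U} (h : x ≠ 0) : ρ g x ≠ 0 := fun e =>
  h (by rw [← rho_inv (ρ := ρ) g x, e, map_zero])

include h2

theorem quad {ρ : Matrix.symplecticGroup l F →* End ℂ U} {f : X l F → F} {x : U} (h0 : x ≠ 0) (hx : x ∈ WS ρ f) :
    ∃ S : X l F →ₗ[F] X l F →ₗ[F] F, (∀ u w, S u w = S w u) ∧ (∀ u, S u u = f u) ∧
      ∀ u w : X l F, x ∈ Eg (A ρ u w) (2 * S u w) := by
  let b : X l F → X l F → F := fun u w => f (u + w) - f u - f w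
  have hb : ∀ u w : X l F, x ∈ Eg (A ρ u w) (b u w) := fun u w =>
    Eg_A (mem_WS.1 hx u) (mem_WS.1 hx w) (mem_WS.1 hx (u + w))
  have h1 : ∀ u w, b u w = b w u := fun u w => by simp only [b, add_comm u]; ring
  have h3 : ∀ u w w', b u (w + w') = b u w + b u w' := fun u w w' => Eg_disj (hb _ _) (mem_Eg.2 fun c => by
    have : av u.1 (w + w' : X l F) c = av u.1 w c * av u.1 w' c := sp_ext fun v => by
      rw [mul_smul, av_smul (X_iso u.2 (w + w').2), av_smul (X_iso u.2 w'.2), av_smul (X_iso u.2 w.2)]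
      simp only [map_add, map_smul, LinearMap.add_apply, LinearMap.smul_apply, smul_eq_mul,
        Submodule.coe_add, X_iso u.2 u.2, X_iso w'.2 u.2, X_iso w'.2 w.2, X_iso u.2 w.2]
      module
    rw [A, this, map_mul, End.mul_apply, show ρ _ x = _ from mem_Eg.1 (hb u w') c, map_smul,
      show ρ _ x = _ from mem_Eg.1 (hb u w) c, smul_smul, mul_add, AddChar.map_add_eq_mul, mul_comm]) h0
  have h4 : ∀ a u w, b u (a • w) = a * b u w := fun a u w => Eg_disj (hb _ _) (mem_Eg.2 fun c => by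
    have : av u.1 (a • w : X l F) c = av u.1 w (c * a) := sp_ext fun v => by
      rw [av_smul (X_iso u.2 (a • w).2), av_smul (X_iso u.2 w.2)]
      simp only [map_smul, smul_eq_mul, Submodule.coe_smul]
      module
    rw [A, this, show ρ _ x = _ from mem_Eg.1 (hb u w) _, mul_assoc]) h0
  refine ⟨LinearMap.mk₂ F (fun u w => b u w / 2) (fun u u' w => by rw [h1, h3, h1 w, h1 w, add_div])
    (fun a u w => by rw [h1, h4, h1 w, smul_eq_mul, mul_div_assoc]) (fun u w w' => by rw [h3, add_div])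
    (fun a u w => by rw [h4, smul_eq_mul, mul_div_assoc]), fun u w => by simp [h1 u], fun u => ?_,
    fun u w => by simpa [mul_div_cancel₀ _ h2] using hb u w⟩
  have := Eg_disj (mem_WS.1 hx ((2 : F) • u)) (Eg_T_sc (mem_WS.1 hx u) 2) h0
  simp only [LinearMap.mk₂_apply, b, ← two_smul F u, this]
  field_simp
  ring

theorem bound [FiniteDimensional ℂ U] {ρ : Matrix.symplecticGroup l F →* End ℂ U} (hl : 2 ≤ Fintype.card l) (h : ¬ RK ρ) :
    (Fintype.card F ^ Fintype.card l - 1) * (Fintype.card F ^ Fintype.card l - Fintype.card F) ≤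
      2 * (Fintype.card F + 1) * finrank ℂ U := by
  simp only [RK, not_forall] at h
  obtain ⟨u, w, h, γ, δ, γ', x, h0, h1, h3, h4, h5⟩ := h
  obtain ⟨j, hj⟩ := (finrank_le_iff_exists_linearMap (R := F) (M := Submodule.span F {u, w})
    (M' := X l F)).1 (by
      rw [finrank_X]
      exact (finrank_span_le_card _).trans (le_trans (by simpa using card_le_two) hl))
  obtain ⟨g, hg⟩ := sp_witt_linearMap (Submodule.subtype _) ((X l F).subtype ∘ₗ j) Subtype.val_injective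
    (Subtype.val_injective.comp hj) fun a b => by
      obtain ⟨s, t, e⟩ := Submodule.mem_span_pair.1 a.2
      obtain ⟨s', t', e'⟩ := Submodule.mem_span_pair.1 b.2
      refine .trans ?_ (X_iso (j a).2 (j b).2).symm
      simp [← e, ← e', spB_self, h, swap0 h]
  obtain ⟨u', hu⟩ : ∃ u' : X l F, g • u = u' := ⟨_, hg ⟨u, Submodule.subset_span (by simp)⟩⟩
  obtain ⟨w', hw⟩ : ∃ w' : X l F, g • w = w' := ⟨_, hg ⟨w, Submodule.subset_span (by simp)⟩⟩
  obtain ⟨f, y, hy, hf, y0⟩ : ∃ f, ∃ y ∈ Eg (T ρ u') γ ⊓ Eg (A ρ u' w') δ ⊓ Eg (T ρ w') γ',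
      y ∈ WS ρ f ∧ y ≠ 0 := by
    by_contra! h'
    exact rho_ne g h0 (le_of_WS (N' := ⊥) (fun v => ((nv_Eg (TT ρ (X_iso v.2 u'.2)) γ).inf
      (nv_Eg (fun c d => (AT ρ (X_iso u'.2 w'.2) (X_iso v.2 u'.2) (X_iso v.2 w'.2) d c).symm) δ)).inf
      (nv_Eg (TT ρ (X_iso v.2 w'.2)) γ')) h' ⟨⟨hu ▸ Eg_T_smul h1 g, hu ▸ hw ▸ Eg_A_smul h3 g⟩,
        hw ▸ Eg_T_smul h4 g⟩)
  obtain ⟨S, hS, h6, h7⟩ := quad h2 y0 hf
  have h8 := orbit_ge h2 S hS (u := u') (w := w') fun e => h5 (by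
    rw [← Eg_disj (h7 u' w') hy.1.2 y0, ← Eg_disj (mem_WS.1 hf u') hy.1.1 y0,
      ← Eg_disj (mem_WS.1 hf w') hy.2 y0, ← h6, ← h6]
    linear_combination 4 * e)
  rw [finrank_X] at h8
  refine h8.trans (Nat.mul_le_mul_left _ ?_)
  have h9 : ∀ f : {f : X l F → F // ∃ g : X l F ≃ₗ[F] X l F, ∀ w, S (g w) (g w) = f w},
      ∃ v : U, v ≠ 0 ∧ v ∈ WS ρ f.1 := by
    rintro ⟨f', g, hg⟩
    obtain ⟨k, hk⟩ := sp_witt_linearMap ((X l F).subtype ∘ₗ g.toLinearMap) (X l F).subtype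
      (Subtype.val_injective.comp g.injective) Subtype.val_injective
      fun a b => (X_iso (g a).2 (g b).2).trans (X_iso a.2 b.2).symm
    refine ⟨ρ k y, rho_ne k y0, mem_WS.2 fun v => ?_⟩
    have := Eg_T_smul (mem_WS.1 hf (g v)) k
    rwa [show k • (g v).1 = v from hk v, ← h6, hg] at this
  choose v hv0 hv using h9
  generalize (fun f : X l F → F => ∃ g : X l F ≃ₗ[F] X l F, ∀ w, S (g w) (g w) = f w) = p at v hv0 hv ⊢
  have h10 : ∀ f (j : X l F × F), T ρ j.1 j.2 (v f) = ψ F (j.2 * f.1 j.1) • v f := fun f j =>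
    mem_Eg.1 (mem_WS.1 (hv f) j.1) j.2
  rw [Nat.card_eq_fintype_card]
  refine (H59.linearIndependent_of_joint_eigen _ _ (fun f f' h => Subtype.ext (funext fun x => ?_)) v hv0
    h10).fintype_card_le_finrank
  refine AddChar.to_mulShift_inj_of_isPrimitive ψ_prim (AddChar.ext _ _ fun c => ?_)
  rw [AddChar.mulShift_apply, AddChar.mulShift_apply, mul_comm, mul_comm _ c]
  exact congrFun h (x, c)

variable [Nontrivial l] {w₀ : l ⊕ l → F} (hw₀ : w₀ ∉ X l F)
include hw₀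

theorem exists_wt {ρ : Matrix.symplecticGroup l F →* End ℂ U} (hρ : RK ρ) (h : ∃ g, ρ g ≠ 1) {δ : F} (hδ : ¬ IsSquare δ) :
    ∃ α, (α = 1 ∨ α = δ) ∧ ∃ m, m ≠ 0 ∧ m ∈ WS ρ (wt α w₀) := by
  obtain ⟨f, x, hx, u, hu, h0⟩ : ∃ f, ∃ x ∈ WS ρ f, ∃ u, f u ≠ 0 ∧ x ≠ 0 := by
    by_contra! h'
    obtain ⟨g, hg⟩ := h
    have h1 : ∀ x, x ∈ WS ρ 0 := fun x => le_of_WS (N := ⊤) (fun _ _ _ _ => trivial) (fun f x _ hx => by
      by_cases h0 : x = 0
      · rw [h0]; exact zero_mem _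
      · rwa [show f = 0 from funext fun u => by_contra fun e => h0 (h' f x hx u e)] at hx) Submodule.mem_top
    obtain ⟨u, hu, e⟩ := ex_one hw₀
    refine hg (gen_fix (fun g => ρ g = 1) (map_one ρ) (fun g h hg hh => by rw [map_mul, hg, hh, mul_one]) ⊥
      (fun v c _ => ?_) (by simp))
    by_cases hv : v = 0
    · rw [hv, tv_zero_left, map_one]
    obtain ⟨k, rfl⟩ := sp_exists_smul_eq (v := u) (by rintro rfl; simp at e) hv
    rw [← tv_conj, map_mul, map_mul, show ρ (tv u c) = 1 from LinearMap.ext fun x =>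
      mem_Eg0.1 (mem_WS.1 (h1 x) ⟨u, hu⟩) c, mul_one, ← map_mul, mul_inv_cancel, map_one]
  obtain ⟨S, -, h6, h7⟩ := quad h2 h0 hx
  obtain ⟨φ, hφ⟩ := (S u).exists_extend
  obtain ⟨α, hα, b, e⟩ : ∃ α, (α = 1 ∨ α = δ) ∧ ∃ b, (f u)⁻¹ = α * b ^ 2 := by
    by_cases hs : IsSquare (f u)⁻¹
    · obtain ⟨b, e⟩ := hs
      exact ⟨1, .inl rfl, b, by rw [e]; ring⟩
    · have h1 : δ ≠ 0 := by rintro rfl; exact hδ IsSquare.zero
      obtain ⟨c, e⟩ := (quadraticChar_one_iff_isSquare (mul_ne_zero h1 (inv_ne_zero hu))).1 (by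
        rw [map_mul, quadraticChar_neg_one_iff_not_isSquare.2 hδ, quadraticChar_neg_one_iff_not_isSquare.2 hs]
        norm_num)
      exact ⟨δ, .inr rfl, c / δ, by field_simp at e ⊢; linear_combination e⟩
  have h3 : f = wt α (b • ((spB l F).toDual spB_nondegenerate).symm φ) := funext fun v => by
    have h4 := hρ _ _ (X_iso u.2 v.2) _ _ _ x h0 (mem_WS.1 hx u) (h7 u v) (mem_WS.1 hx v)
    rw [wt, map_smul, spB_swap, LinearMap.BilinForm.apply_toDual_symm_apply,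
      show φ v = S u v from LinearMap.congr_fun hφ v, smul_eq_mul, mul_pow, ← mul_assoc, ← e]
    field_simp
    exact mul_left_cancel₀ (four_ne h2) (by linear_combination -h4)
  obtain ⟨g, hg, e'⟩ := trans0 hρ (w := b • ((spB l F).toDual spB_nondegenerate).symm φ)
    (fun h => hu (by rw [h3, wt, X_iso u.2 h]; simp)) hw₀
  exact ⟨α, hα, ρ g x, rho_ne g h0, e' ▸ WS_smul hg.1 (h3 ▸ hx)⟩

omit h2 in
theorem Pw_Z {ρ : Matrix.symplecticGroup l F →* End ℂ U} {m z : U} (hz : z ∈ Z ρ m) {α : F} (hα : α ≠ 0) : Pw ρ (wt α w₀) z = 0 := by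
  obtain ⟨u, hu, e⟩ := ex_one hw₀
  rw [Pw_eq (mem_Z.1 hz).1, if_neg fun h => hα (by simpa [wt, e] using congrFun h ⟨u, hu⟩)]

omit h2 hw₀ in
theorem self_mem_Y (ρ : Matrix.symplecticGroup l F →* End ℂ U) (m : U) : m ∈ Y ρ m := by
  simpa using mem_Y (ρ := ρ) m (pp_fix (g := 1) fun u _ => one_smul _ u)

omit h2 hw₀ in
theorem exists_eps [FiniteDimensional ℂ U] (ρ : Representation ℂ (Matrix.symplecticGroup l F) U) [ρ.IsIrreducible] :
    ∃ ε : ℂ, (ε = 1 ∨ ε = -1) ∧ ∀ g : Matrix.symplecticGroup l F, (∀ v : l ⊕ l → F, g • v = -v) → ∀ x, ρ g x = ε • x := by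
  let n : Matrix.symplecticGroup l F := spOfLin (-LinearMap.id) (by simp)
  have hn : ∀ v : l ⊕ l → F, n • v = -v := fun v => spOfLin_smul ..
  obtain ⟨c, hc⟩ := H28.exists_eq_smul_id_of_comm ρ (ρ n) fun g => by
    rw [← End.mul_eq_comp, ← End.mul_eq_comp, ← map_mul, ← map_mul]
    exact congrArg ρ (sp_ext fun v => by rw [mul_smul, mul_smul, hn, hn, smul_neg])
  have := H28.nontrivial_of_isIrreducible ρ
  obtain ⟨x, hx⟩ := exists_ne (0 : U)
  refine ⟨c, mul_self_eq_one_iff.1 (smul_left_injective ℂ hx ?_), fun g hg x => by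
    rw [show g = n from sp_ext fun v => by rw [hg, hn], hc]; rfl⟩
  have : ρ n (ρ n x) = x := by
    rw [← End.mul_apply, ← map_mul, show n * n = 1 from sp_ext fun v => by
      rw [mul_smul, hn, hn, neg_neg, one_smul], map_one, End.one_apply]
  simpa [hc, smul_smul] using this

variable [FiniteDimensional ℂ U] {ρ : Representation ℂ (Matrix.symplecticGroup l F) U} [hi : ρ.IsIrreducible] (hρ : RK ρ)
  {α : F} (hα : α ≠ 0) {m : U} (h0 : m ≠ 0) (hm : m ∈ WS ρ (wt α w₀))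
include hi hρ hα h0 hm

theorem YZ_top : Y ρ m ⊔ Z ρ m = ⊤ :=
  (((H28.isIrreducible_iff_submodule ρ).1 hi).2 _ (YZ_inv h2 hρ hα hw₀ hm)).resolve_left fun h =>
    h0 ((Submodule.mem_bot ℂ).1 (h ▸ Submodule.mem_sup_left (self_mem_Y ρ m)))

theorem type_sq {α' : F} (hα' : α' ≠ 0) {m' : U} (h0' : m' ≠ 0) (hm' : m' ∈ WS ρ (wt α' w₀)) :
    ∃ b, α' = α * b ^ 2 := by
  obtain ⟨y, hy, z, hz, e⟩ := Submodule.mem_sup.1 ((YZ_top h2 hw₀ hρ hα h0 hm).ge (Submodule.mem_top (x := m')))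
  obtain ⟨g, -, h⟩ := Pw_Y0 hm (f := wt α' w₀) hy fun h => h0' (by
    rw [← (Pw_eq hm' _).trans (if_pos rfl), ← e, map_add, h, Pw_Z hw₀ hz hα', add_zero])
  obtain ⟨u, hu, e⟩ := ex_one hw₀
  exact ⟨_, by simpa [wt, e] using congrFun h ⟨u, hu⟩⟩

theorem finrank_le : 2 * finrank ℂ U ≤ Fintype.card F ^ Fintype.card l + 1 := by
  obtain ⟨ε, -, hε⟩ := exists_eps ρ
  have := Module.finite_of_finite F (M := Dual F (X l F))
  have := Fintype.ofFinite (Dual F (X l F))
  let O := univ.filter fun f => ∃ g : Matrix.symplecticGroup l F, PP g ∧ f = wt α (g • w₀)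
  choose g hg using fun f : O => (mem_filter.1 f.2).2
  have h1 : finrank ℂ (Y ρ m) ≤ O.card := by
    refine (Submodule.finrank_mono (t := .span ℂ (Set.range fun f => ρ (g f) m)) (Y_le fun k hk => ?_)).trans
      ((finrank_range_le_card _).trans (Fintype.card_coe O).le)
    let f : O := ⟨_, mem_filter.2 ⟨mem_univ _, k, hk, rfl⟩⟩
    have := Pw_Y h2 hρ hα hw₀ hm hε (hg f).1 (mem_Y m hk)
    rw [← (hg f).2, Pw_eq (WS_smul hk hm), if_pos rfl] at this
    exact Submodule.span_mono (by simp) this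
  have h3 := mul_card_image_le_card (f := fun (φ : Dual F (X l F)) u => α * φ u ^ 2) (univ.erase 0) 2 (by
    simp only [forall_mem_image]
    intro φ hφ
    have hφ := ne_of_mem_erase hφ
    refine (card_pair (a := φ) (b := -φ) fun e => hφ (smul_right_injective _ h2 (by
      simp only [two_smul, add_zero]; rw [← eq_neg_iff_add_eq_zero]; exact e))).ge.trans
      (card_le_card (by simp [insert_subset_iff, hφ])))
  have h4 : O.card ≤ _ := card_le_card (t := (univ.erase 0).image fun (φ : Dual F (X l F)) u => α * φ u ^ 2)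
    fun f hf => by
      obtain ⟨k, hk, rfl⟩ := (mem_filter.1 hf).2
      exact mem_image.2 ⟨((spB l F).flip (k • w₀)).domRestrict _, mem_erase.2 ⟨fun e => hk.not_mem hw₀
        (X_max fun u hu => LinearMap.congr_fun e ⟨u, hu⟩), mem_univ _⟩, rfl⟩
  rw [card_erase_of_mem (mem_univ _), card_univ, Module.card_eq_pow_finrank (K := F),
    Subspace.dual_finrank_eq, finrank_X] at h3
  have h5 := Submodule.finrank_add_le_finrank_add_finrank (Y ρ m) (Z ρ m)
  have h6 := finrank_Z h2 hρ hα hw₀ hm hε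
  rw [YZ_top h2 hw₀ hρ hα h0 hm, finrank_top] at h5
  have : 0 < Fintype.card F ^ Fintype.card l := pow_pos Fintype.card_pos _
  omega

theorem char_eq {U' : Type*} [AddCommGroup U'] [Module ℂ U'] [FiniteDimensional ℂ U']
    {ρ' : Representation ℂ (Matrix.symplecticGroup l F) U'} [hi' : ρ'.IsIrreducible] (hρ' : RK ρ') {m' : U'} (h0' : m' ≠ 0)
    (hm' : m' ∈ WS ρ' (wt α w₀)) {ε : ℂ} (hε : ∀ g : Matrix.symplecticGroup l F, (∀ v : l ⊕ l → F, g • v = -v) → ∀ x, ρ g x = ε • x)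
    (hε' : ∀ g : Matrix.symplecticGroup l F, (∀ v : l ⊕ l → F, g • v = -v) → ∀ x, ρ' g x = ε • x) : ρ.character = ρ'.character := by
  have hg : ∀ g x, ρ.prod ρ' g x = (ρ g x.1, ρ' g x.2) := fun _ _ => rfl
  have hT : ∀ v γ x, x ∈ Eg (T (ρ.prod ρ') v) γ ↔ x.1 ∈ Eg (T ρ v) γ ∧ x.2 ∈ Eg (T ρ' v) γ := fun v γ x => by
    simp [mem_Eg, T, hg, Prod.ext_iff, forall_and]
  have hA : ∀ u v γ x, x ∈ Eg (A (ρ.prod ρ') u v) γ ↔ x.1 ∈ Eg (A ρ u v) γ ∧ x.2 ∈ Eg (A ρ' u v) γ :=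
    fun u v γ x => by simp [mem_Eg, A, hg, Prod.ext_iff, forall_and]
  have hW : ∀ f x, x ∈ WS (ρ.prod ρ') f ↔ x.1 ∈ WS ρ f ∧ x.2 ∈ WS ρ' f := fun f x => by
    simp [mem_WS, hT, forall_and]
  have hR : RK (ρ.prod ρ') := fun u w h γ δ γ' x hx h1 h3 h4 => by
    rw [hT] at h1 h4
    rw [hA] at h3
    by_cases e : x.1 = 0
    · exact hρ' u w h _ _ _ _ (fun e' => hx (Prod.ext e e')) h1.2 h3.2 h4.2
    · exact hρ u w h _ _ _ _ e h1.1 h3.1 h4.1
  have hM : (m, m') ∈ WS (ρ.prod ρ') (wt α w₀) := (hW _ _).2 ⟨hm, hm'⟩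
  let N : Subrepresentation (ρ.prod ρ') := ⟨_, fun g _ => YZ_inv h2 hR hα hw₀ hM g _⟩
  have h1 : ∀ x ∈ N.toSubmodule, x ∈ WS (ρ.prod ρ') (wt α w₀) → ∃ c : ℂ, c • (m, m') = x := fun x hx hx' => by
    obtain ⟨y, hy, z, hz, e⟩ := Submodule.mem_sup.1 hx
    rw [← (Pw_eq hx' _).trans (if_pos rfl), ← e, map_add, Pw_Z hw₀ hz hα, add_zero]
    simpa [Submodule.mem_span_singleton] using Pw_Y h2 hR hα hw₀ hM (ε := ε) (fun g h x => by
      rw [hg, hε g h, hε' g h]; rfl) (pp_fix (g := 1) fun u _ => one_smul _ u) hy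
  have h3 : (m, m') ∈ N.toSubmodule := Submodule.mem_sup_left (self_mem_Y _ _)
  have h4 := ((H28.isIrreducible_iff_submodule ρ).1 hi).2
  have h4' := ((H28.isIrreducible_iff_submodule ρ').1 hi').2
  have h5 := (h4 (N.toSubmodule.comap (.inl ℂ U U')) fun g x hx => by
    simpa [hg] using N.apply_mem_toSubmodule g hx).resolve_right fun h => by
      obtain ⟨c, e⟩ := h1 _ (h.ge (Submodule.mem_top (x := m))) ((hW _ _).2 ⟨hm, zero_mem _⟩)
      simp [h0'] at e
      simp [e.2, h0.symm] at e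
  have h5' := (h4' (N.toSubmodule.comap (.inr ℂ U U')) fun g x hx => by
    simpa [hg] using N.apply_mem_toSubmodule g hx).resolve_right fun h => by
      obtain ⟨c, e⟩ := h1 _ (h.ge (Submodule.mem_top (x := m'))) ((hW _ _).2 ⟨zero_mem _, hm'⟩)
      simp [h0] at e
      simp [e.1, h0'.symm] at e
  have h6 := (h4 (N.toSubmodule.map (.fst ℂ U U')) (by
    rintro g _ ⟨x, hx, rfl⟩
    exact ⟨_, N.apply_mem_toSubmodule g hx, rfl⟩)).resolve_left fun h =>
      h0 ((Submodule.mem_bot ℂ).1 (h ▸ ⟨_, h3, rfl⟩))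
  have h6' := (h4' (N.toSubmodule.map (.snd ℂ U U')) (by
    rintro g _ ⟨x, hx, rfl⟩
    exact ⟨_, N.apply_mem_toSubmodule g hx, rfl⟩)).resolve_left fun h =>
      h0' ((Submodule.mem_bot ℂ).1 (h ▸ ⟨_, h3, rfl⟩))
  let e : N.toRepresentation.Equiv ρ := .mk (.ofBijective ((LinearMap.fst ℂ U U').domRestrict _)
    ⟨(injective_iff_map_eq_zero _).2 fun ⟨⟨x, y⟩, hx⟩ e => by
      obtain rfl : x = 0 := e
      obtain rfl : y = 0 := (Submodule.mem_bot ℂ).1 (h5' ▸ hx)
      rfl, fun x => by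
      obtain ⟨y, hy, e⟩ := h6.ge (Submodule.mem_top (x := x))
      exact ⟨⟨y, hy⟩, e⟩⟩) fun g => rfl
  let e' : N.toRepresentation.Equiv ρ' := .mk (.ofBijective ((LinearMap.snd ℂ U U').domRestrict _)
    ⟨(injective_iff_map_eq_zero _).2 fun ⟨⟨x, y⟩, hx⟩ e => by
      obtain rfl : y = 0 := e
      obtain rfl : x = 0 := (Submodule.mem_bot ℂ).1 (h5 ▸ hx)
      rfl, fun x => by
      obtain ⟨y, hy, e⟩ := h6'.ge (Submodule.mem_top (x := x))
      exact ⟨⟨y, hy⟩, e⟩⟩) fun g => rfl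
  rw [← Representation.char_iso e, Representation.char_iso e']

omit hi hρ hα h0 hm hw₀ h2 in
theorem exists_twist {c : F} (hc : c ≠ 0) : ∃ σ : Matrix.symplecticGroup l F →* Matrix.symplecticGroup l F, Function.Surjective σ ∧
    ∀ u ∈ X l F, ∀ e, σ (tv u e) = tv u (e * c) := by
  let d : F → (l ⊕ l → F) →ₗ[F] (l ⊕ l → F) := fun c =>
    { toFun := fun v => Sum.elim (fun i => v (.inl i)) fun i => c * v (.inr i)
      map_add' := fun u v => funext fun | .inl _ => rfl | .inr _ => mul_add ..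
      map_smul' := fun a v => funext fun | .inl _ => rfl | .inr _ => mul_left_comm .. }
  have h1 : ∀ c u v, spB l F (d c u) (d c v) = c * spB l F u v := fun c u v => by
    simp only [spB_eq_sum, mul_sum]
    exact sum_congr rfl fun i _ => by simp [d]; ring
  have h3 : ∀ a b, a * b = 1 → ∀ v, d a (d b v) = v := fun a b h v =>
    funext fun | .inl _ => rfl | .inr _ => by simp [d, ← mul_assoc, h]
  let s : Matrix.symplecticGroup l F → Matrix.symplecticGroup l F := fun g => spOfLin (d c⁻¹ ∘ₗ DistribSMul.toLinearMap F _ g ∘ₗ d c) fun u v => by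
    simp [h1, spB_smul, hc]
  have hs : ∀ g v, s g • v = d c⁻¹ (g • d c v) := fun g v => spOfLin_smul ..
  refine ⟨.mk' s fun g h => sp_ext fun v => by simp only [mul_smul, hs, h3 _ _ (mul_inv_cancel₀ hc)],
    Finite.surjective_of_injective fun g h e => sp_ext fun v => ?_, fun u hu e => sp_ext fun v => ?_⟩
  · have := congrArg (fun k : Matrix.symplecticGroup l F => d c (k • d c⁻¹ v)) e
    simpa only [MonoidHom.mk'_apply, hs, h3 _ _ (mul_inv_cancel₀ hc)] using this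
  · have h4 : ∀ a, d a u = u := fun a => funext fun | .inl _ => rfl | .inr i => by simp [d, hu i]
    rw [MonoidHom.mk'_apply, hs, tv_smul, tv_smul, map_add, map_smul, h3 _ _ (inv_mul_cancel₀ hc), h4,
      mul_assoc, ← h1 c, h4]

end H63.SpW
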